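import Mathlib

/-!
# Cocycles on coset spaces and vanishing of orbit contributions to the transfer

`T` is a finite 2-group, `W` a normal subgroup whose squares lie in a normal subgroup `Z` of
exponent 2 that is central in `W`.  A cocycle on `T ⧸ R` with values in a group of exponent 2
has trivial product as soon as `W ∩ R` has index at least 8 in `W` (or at least 4 when the
cocycle kills `Z ∩ R` at the base point).
-/

set_option autoImplicit false
set_option linter.style.haveILetI false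

open scoped Classical

namespace Cfsg.Agent.RuType

section Cocycle

variable {T : Type*} [Group T] {A : Type*} [CommGroup A]

/-- A one-cocycle of a group action. -/
def IsCocycle {Ω : Type*} [MulAction T Ω] (a : T → Ω → A) : Prop :=
  ∀ s t ω, a (s * t) ω = a s (t • ω) * a t ω

variable {R R1 : Subgroup T}

/-- The base point of a coset space. -/
abbrev base (R : Subgroup T) : T ⧸ R := ((1 : T) : T ⧸ R)

theorem smul_base (x : T) : x • base R = (x : T ⧸ R) := by
  rw [MulAction.Quotient.smul_coe, smul_eq_mul, mul_one]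

theorem smul_base_of_mem {r : T} (hr : r ∈ R) : r • base R = base R := by
  rw [smul_base, QuotientGroup.eq]
  simpa using hr

theorem IsCocycle.mul_base {a : T → T ⧸ R → A} (ha : IsCocycle a) (s : T) {r : T} (hr : r ∈ R) :
    a (s * r) (base R) = a s (base R) * a r (base R) := by
  rw [ha, smul_base_of_mem hr]

theorem IsCocycle.one {Ω : Type*} [MulAction T Ω] {a : T → Ω → A} (ha : IsCocycle a) (ω : Ω) :
    a 1 ω = 1 := by
  have h := ha 1 1 ω
  rw [one_mul, one_smul] at h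
  exact mul_eq_left.1 h.symm

/-- The product of a cocycle over a finite set as a homomorphism. -/
noncomputable def det {Ω : Type*} [MulAction T Ω] [Fintype Ω] {a : T → Ω → A}
    (ha : IsCocycle a) : T →* A where
  toFun t := ∏ ω, a t ω
  map_one' := Finset.prod_eq_one fun ω _ => ha.one ω
  map_mul' s t := by
    simp only [ha s t, Finset.prod_mul_distrib]
    congr 1
    exact Fintype.prod_equiv (MulAction.toPerm t) _ _ fun ω => rfl

theorem prod_eq_one_of_base [Fintype (T ⧸ R)] {a : T → T ⧸ R → A} (ha : IsCocycle a)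
    (h : ∀ r ∈ R, a r (base R) = 1) (t : T) : ∏ q, a t q = 1 := by
  have key : ∀ q : T ⧸ R, a t q = a (t • q).out (base R) * (a q.out (base R))⁻¹ := by
    intro q
    have h1 : a (t * q.out) (base R) = a t q * a q.out (base R) := by
      rw [ha, smul_base, QuotientGroup.out_eq']
    have hm : (t • q).out⁻¹ * (t * q.out) ∈ R := by
      rw [← QuotientGroup.eq, QuotientGroup.out_eq', ← smul_eq_mul, ← MulAction.Quotient.smul_coe,
        QuotientGroup.out_eq']
    have h2 := ha.mul_base (t • q).out hm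
    rw [mul_inv_cancel_left, h _ hm, mul_one] at h2
    rw [← h2, h1, mul_inv_cancel_right]
  rw [Finset.prod_congr rfl fun q _ => key q, Finset.prod_mul_distrib, Finset.prod_inv_distrib,
    mul_inv_eq_one]
  exact Fintype.prod_equiv (MulAction.toPerm t) _ _ fun q => rfl

/-- Push a cocycle forward along `T ⧸ R → T ⧸ R1`. -/
noncomputable def push [Fintype (T ⧸ R)] (h : R ≤ R1) (a : T → T ⧸ R → A) : T → T ⧸ R1 → A :=
  fun t c => ∏ q ∈ Finset.univ.filter (fun q => Subgroup.quotientMapOfLE h q = c), a t q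

theorem quotientMapOfLE_smul (h : R ≤ R1) (t : T) (q : T ⧸ R) :
    Subgroup.quotientMapOfLE h (t • q) = t • Subgroup.quotientMapOfLE h q := by
  induction q using QuotientGroup.induction_on with
  | _ x => rfl

theorem push_isCocycle [Fintype (T ⧸ R)] (h : R ≤ R1) {a : T → T ⧸ R → A} (ha : IsCocycle a) :
    IsCocycle (push h a) := by
  intro s t c
  simp only [push, ha s t, Finset.prod_mul_distrib]
  congr 1
  refine Finset.prod_equiv (MulAction.toPerm t) (fun q => ?_) (fun q _ => rfl)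
  simp [quotientMapOfLE_smul]

theorem prod_push [Fintype (T ⧸ R)] [Fintype (T ⧸ R1)] (h : R ≤ R1) (a : T → T ⧸ R → A) (t : T) :
    ∏ c, push h a t c = ∏ q, a t q :=
  Finset.prod_fiberwise _ _ _

/-- The subgroup `R ∪ kR`. -/
def adj (R : Subgroup T) (k : T) (hk : k * k ∈ R) (hn : ∀ r, r ∈ R ↔ k * r * k⁻¹ ∈ R) :
    Subgroup T where
  carrier := {x | x ∈ R ∨ k⁻¹ * x ∈ R}
  one_mem' := Or.inl (one_mem R)
  mul_mem' := by
    rintro x y (hx | hx) (hy | hy)
    · exact Or.inl (mul_mem hx hy)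
    · refine Or.inr ?_
      have h1 : k⁻¹ * x * k ∈ R := (hn _).2 (by simpa [mul_assoc] using hx)
      simpa [mul_assoc] using mul_mem h1 hy
    · exact Or.inr (by simpa [mul_assoc] using mul_mem hx hy)
    · refine Or.inl ?_
      have h1 : k * (k⁻¹ * x) * k⁻¹ ∈ R := (hn _).1 hx
      have h2 := mul_mem (mul_mem h1 hk) hy
      simpa [mul_assoc] using h2
  inv_mem' := by
    rintro x (hx | hx)
    · exact Or.inl (inv_mem hx)
    · refine Or.inr ?_
      have h1 : k * (k⁻¹ * x) * k⁻¹ ∈ R := (hn _).1 hx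
      have h2 := inv_mem (mul_mem h1 hk)
      simp only [mul_inv_rev, mul_assoc, mul_inv_cancel_left, inv_mul_cancel_left] at h2 ⊢
      simpa [mul_assoc] using h2

theorem le_adj {k : T} {hk : k * k ∈ R} {hn : ∀ r, r ∈ R ↔ k * r * k⁻¹ ∈ R} :
    R ≤ adj R k hk hn := fun _ hx => Or.inl hx

theorem self_mem_adj {k : T} {hk : k * k ∈ R} {hn : ∀ r, r ∈ R ↔ k * r * k⁻¹ ∈ R} :
    k ∈ adj R k hk hn := Or.inr (by simp)

theorem push_base [Fintype (T ⧸ R)] {a : T → T ⧸ R → A} {k : T} (hkR : k ∉ R) (hk : k * k ∈ R)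
    (hn : ∀ r, r ∈ R ↔ k * r * k⁻¹ ∈ R) (t : T) :
    push (le_adj (hk := hk) (hn := hn)) a t (base _) = a t (base R) * a t (k : T ⧸ R) := by
  have hne : base R ≠ (k : T ⧸ R) := by
    intro h
    rw [QuotientGroup.eq] at h
    exact hkR (by simpa using h)
  rw [← Finset.prod_pair (f := a t) hne]
  refine Finset.prod_congr ?_ fun _ _ => rfl
  ext q
  induction q using QuotientGroup.induction_on with
  | _ x =>
    simp only [Finset.mem_filter, Finset.mem_univ, true_and, Subgroup.quotientMapOfLE_apply_mk,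
      Finset.mem_insert, Finset.mem_singleton, QuotientGroup.eq]
    constructor
    · intro h
      have hx : x ∈ adj R k hk hn := by simpa using inv_mem h
      rcases hx with hx | hx
      · exact Or.inl (by simpa using inv_mem hx)
      · exact Or.inr (by simpa using inv_mem hx)
    · rintro (h | h)
      · exact le_adj h
      · have h2 : k⁻¹ * x ∈ R := by simpa using inv_mem h
        have h3 : x ∈ adj R k hk hn := Or.inr h2
        simpa using inv_mem h3

theorem push_base_of_mem [Fintype (T ⧸ R)] {a : T → T ⧸ R → A} (ha : IsCocycle a) {k : T}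
    (hkR : k ∉ R) (hk : k * k ∈ R) (hn : ∀ r, r ∈ R ↔ k * r * k⁻¹ ∈ R) {r : T} (hr : r ∈ R) :
    push (le_adj (hk := hk) (hn := hn)) a r (base _) =
      a r (base R) * a (k⁻¹ * r * k) (base R) := by
  rw [push_base hkR hk hn]
  congr 1
  have hc : k⁻¹ * r * k ∈ R := (hn _).2 (by simpa [mul_assoc] using hr)
  have h1 : a (r * k) (base R) = a r (k : T ⧸ R) * a k (base R) := by rw [ha, smul_base]
  have h2 := ha.mul_base k hc
  rw [mul_assoc, mul_inv_cancel_left, h1, mul_comm (a k (base R))] at h2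
  rw [mul_assoc]
  exact mul_right_cancel h2

theorem push_base_self [Fintype (T ⧸ R)] {a : T → T ⧸ R → A} (ha : IsCocycle a) {k : T}
    (hkR : k ∉ R) (hk : k * k ∈ R) (hn : ∀ r, r ∈ R ↔ k * r * k⁻¹ ∈ R) :
    push (le_adj (hk := hk) (hn := hn)) a k (base _) = a (k * k) (base R) := by
  rw [push_base hkR hk hn, ha, smul_base, mul_comm]

/-- The shape of the pair `Z ≤ W` used for the vanishing theorem. -/
structure Pair (W Z : Subgroup T) : Prop where
  normalW : W.Normal
  normalZ : Z.Normal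
  le : Z ≤ W
  central : ∀ z ∈ Z, ∀ w ∈ W, z * w = w * z
  sqZ : ∀ z ∈ Z, z * z = 1
  sq : ∀ w ∈ W, w * w ∈ Z

variable {W Z : Subgroup T}

theorem Pair.comm_mem (h : Pair W Z) {c k : T} (hc : c ∈ W) (hk : k ∈ W) :
    c⁻¹ * k⁻¹ * c * k ∈ Z := by
  have h1 := h.sq _ (mul_mem (inv_mem hc) (inv_mem hk))
  have h2 : k * (c * c) * k ∈ Z := by
    rw [mul_assoc k, h.central _ (h.sq c hc) k hk, ← mul_assoc]
    exact mul_mem (h.sq k hk) (h.sq c hc)
  have h3 := mul_mem h1 h2
  simpa [mul_assoc] using h3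

theorem exists_step [Finite T] (hT : IsPGroup 2 T) (N : Subgroup T) [N.Normal] (hN : ¬ N ≤ R) :
    ∃ k ∈ N, k ∉ R ∧ k * k ∈ R ∧ ∀ r, r ∈ R ↔ k * r * k⁻¹ ∈ R := by
  haveI : Fact (Nat.Prime 2) := ⟨Nat.prime_two⟩
  haveI : Group.IsNilpotent ↥(R ⊔ N) := (hT.to_subgroup _).isNilpotent
  have hlt : R.subgroupOf (R ⊔ N) < ⊤ := by
    rw [lt_top_iff_ne_top, Ne, Subgroup.subgroupOf_eq_top]
    exact fun h => hN (le_sup_right.trans h)
  have hnl := Group.normalizerCondition_of_isNilpotent (G := ↥(R ⊔ N)) _ hlt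
  obtain ⟨x, hx, hxR⟩ := SetLike.exists_of_lt hnl
  rw [Subgroup.mem_normalizer_iff] at hx
  rw [Subgroup.mem_subgroupOf] at hxR
  have hmem := x.2
  obtain ⟨r0, hr0, w, hw, hrw⟩ := Subgroup.mem_sup_of_normal_right.1 hmem
  have hxnR : (x : T) ∈ Subgroup.normalizer (R : Set T) := by
    rw [Subgroup.mem_normalizer_iff]
    intro s
    constructor
    · intro hs
      have := (hx ⟨s, Subgroup.mem_sup_left hs⟩).1 (Subgroup.mem_subgroupOf.2 hs)
      simpa [Subgroup.mem_subgroupOf] using this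
    · intro hs
      have hsm : s ∈ R ⊔ N := by
        have := mul_mem (mul_mem (inv_mem x.2) (Subgroup.mem_sup_left hs)) x.2
        simpa [mul_assoc] using this
      have := (hx ⟨s, hsm⟩).2 (by simpa [Subgroup.mem_subgroupOf] using hs)
      simpa [Subgroup.mem_subgroupOf] using this
  have hwn : w ∈ Subgroup.normalizer (R : Set T) := by
    have : w = r0⁻¹ * (x : T) := by rw [← hrw]; simp
    rw [this]
    exact mul_mem (inv_mem (Subgroup.le_normalizer hr0)) hxnR
  have hwR : w ∉ R := fun h => hxR (by rw [← hrw]; exact mul_mem hr0 h)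
  obtain ⟨e, he⟩ := hT w
  have hex : ∃ j, w ^ 2 ^ j ∈ R := ⟨e, by rw [he]; exact one_mem R⟩
  obtain ⟨j, hj⟩ : ∃ j, Nat.find hex = j + 1 := by
    refine Nat.exists_eq_succ_of_ne_zero fun h0 => hwR ?_
    have := Nat.find_spec hex
    rw [h0] at this
    simpa using this
  refine ⟨w ^ 2 ^ j, pow_mem hw _, Nat.find_min hex (by omega), ?_,
    Subgroup.mem_normalizer_iff.1 (pow_mem hwn _)⟩
  rw [← pow_add, ← two_mul, ← pow_succ', ← hj]
  exact Nat.find_spec hex

theorem card_inf_adj [Finite T] {k : T} (hkW : k ∈ W) (hk : k * k ∈ R)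
    (hn : ∀ r, r ∈ R ↔ k * r * k⁻¹ ∈ R) :
    Nat.card ↥(W ⊓ adj R k hk hn) ≤ 2 * Nat.card ↥(W ⊓ R) := by
  let f : Bool × ↥(W ⊓ R) → ↥(W ⊓ adj R k hk hn) := fun p =>
    bif p.1 then ⟨k * p.2.1, mul_mem hkW (Subgroup.mem_inf.1 p.2.2).1,
      Or.inr (by simpa using (Subgroup.mem_inf.1 p.2.2).2)⟩
    else ⟨p.2.1, (Subgroup.mem_inf.1 p.2.2).1, le_adj (Subgroup.mem_inf.1 p.2.2).2⟩
  have hf : Function.Surjective f := by
    rintro ⟨x, hxW, hx | hx⟩
    · exact ⟨(false, ⟨x, hxW, hx⟩), rfl⟩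
    · refine ⟨(true, ⟨k⁻¹ * x, W.mul_mem (W.inv_mem hkW) hxW, hx⟩), ?_⟩
      exact Subtype.ext (mul_inv_cancel_left k x)
  refine (Nat.card_le_card_of_surjective f hf).trans (le_of_eq ?_)
  simp [Nat.card_prod]

/-- The cocycle kills `N ∩ R` at the base point. -/
def KillsAt (N : Subgroup T) (a : T → T ⧸ R → A) : Prop :=
  ∀ x ∈ N, x ∈ R → a x (base R) = 1

variable [Finite T] (hT : IsPGroup 2 T) (h : Pair W Z) (hA : ∀ x : A, x * x = 1)

include hT h hA

theorem stepZ [Fintype (T ⧸ R)] {a : T → T ⧸ R → A} (ha : IsCocycle a) (hW : ¬ W ≤ R) :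
    ∃ (R1 : Subgroup T) (a1 : T → T ⧸ R1 → A), IsCocycle a1 ∧ KillsAt Z a1 ∧
      Nat.card ↥(W ⊓ R1) ≤ 2 * Nat.card ↥(W ⊓ R) ∧
      (∀ [Fintype (T ⧸ R1)] (t : T), ∏ q, a1 t q = ∏ q, a t q) := by
  haveI := h.normalW
  haveI := h.normalZ
  by_cases hZ : Z ≤ R
  · obtain ⟨k, hkW, hkR, hk, hn⟩ := exists_step hT W hW
    refine ⟨_, push (le_adj (hk := hk) (hn := hn)) a, push_isCocycle _ ha, ?_,
      card_inf_adj hkW hk hn, fun t => prod_push _ a t⟩
    intro z hz _
    rw [push_base_of_mem ha hkR hk hn (hZ hz), mul_assoc k⁻¹, h.central z hz k hkW,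
      inv_mul_cancel_left, hA]
  · obtain ⟨k, hkZ, hkR, hk, hn⟩ := exists_step hT Z hZ
    refine ⟨_, push (le_adj (hk := hk) (hn := hn)) a, push_isCocycle _ ha, ?_,
      card_inf_adj (h.le hkZ) hk hn, fun t => prod_push _ a t⟩
    have hk1 : push (le_adj (hk := hk) (hn := hn)) a k (base _) = 1 := by
      rw [push_base_self ha hkR hk hn, h.sqZ k hkZ, ha.one]
    have hin : ∀ z ∈ Z, z ∈ R → push (le_adj (hk := hk) (hn := hn)) a z (base _) = 1 := by
      intro z hz hzR
      rw [push_base_of_mem ha hkR hk hn hzR, mul_assoc k⁻¹, h.central z hz k (h.le hkZ),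
        inv_mul_cancel_left, hA]
    intro z hz hzR1
    rcases hzR1 with hzR | hzR
    · exact hin z hz hzR
    · have := (push_isCocycle (le_adj (hk := hk) (hn := hn)) ha).mul_base k
        (r := k⁻¹ * z) (le_adj hzR)
      rw [mul_inv_cancel_left] at this
      rw [this, hk1, hin _ (mul_mem (inv_mem hkZ) hz) hzR, one_mul]

theorem stepW [Fintype (T ⧸ R)] {a : T → T ⧸ R → A} (ha : IsCocycle a) (hP : KillsAt Z a)
    (hW : ¬ W ≤ R) :
    ∃ (R1 : Subgroup T) (a1 : T → T ⧸ R1 → A), IsCocycle a1 ∧ KillsAt W a1 ∧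
      Nat.card ↥(W ⊓ R1) ≤ 2 * Nat.card ↥(W ⊓ R) ∧
      (∀ [Fintype (T ⧸ R1)] (t : T), ∏ q, a1 t q = ∏ q, a t q) := by
  haveI := h.normalW
  obtain ⟨k, hkW, hkR, hk, hn⟩ := exists_step hT W hW
  refine ⟨_, push (le_adj (hk := hk) (hn := hn)) a, push_isCocycle _ ha, ?_,
    card_inf_adj hkW hk hn, fun t => prod_push _ a t⟩
  have hk1 : push (le_adj (hk := hk) (hn := hn)) a k (base _) = 1 := by
    rw [push_base_self ha hkR hk hn, hP _ (h.sq k hkW) hk]
  have hin : ∀ c ∈ W, c ∈ R → push (le_adj (hk := hk) (hn := hn)) a c (base _) = 1 := by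
    intro c hc hcR
    have hcR' : k⁻¹ * c * k ∈ R := (hn _).2 (by simpa [mul_assoc] using hcR)
    have hd : c⁻¹ * k⁻¹ * c * k ∈ R := by simpa [mul_assoc] using mul_mem (inv_mem hcR) hcR'
    have := ha.mul_base c hd
    rw [hP _ (h.comm_mem hc hkW) hd, mul_one] at this
    rw [push_base_of_mem ha hkR hk hn hcR]
    rw [show c * (c⁻¹ * k⁻¹ * c * k) = k⁻¹ * c * k by group] at this
    rw [this, hA]
  intro c hc hcR1
  rcases hcR1 with hcR | hcR
  · exact hin c hc hcR
  · have := (push_isCocycle (le_adj (hk := hk) (hn := hn)) ha).mul_base k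
      (r := k⁻¹ * c) (le_adj hcR)
    rw [mul_inv_cancel_left] at this
    rw [this, hk1, hin _ (mul_mem (inv_mem hkW) hc) hcR, one_mul]

theorem stepFinal [Fintype (T ⧸ R)] {a : T → T ⧸ R → A} (ha : IsCocycle a) (hQ : KillsAt W a)
    (hW : ¬ W ≤ R) (t : T) : ∏ q, a t q = 1 := by
  haveI := h.normalW
  obtain ⟨k, hkW, hkR, hk, hn⟩ := exists_step hT W hW
  haveI : Fintype (T ⧸ adj R k hk hn) := Fintype.ofFinite _
  rw [← prod_push (le_adj (hk := hk) (hn := hn)) a t]
  refine prod_eq_one_of_base (push_isCocycle _ ha) ?_ t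
  have hk1 : push (le_adj (hk := hk) (hn := hn)) a k (base _) = 1 := by
    rw [push_base_self ha hkR hk hn, hQ _ (mul_mem hkW hkW) hk]
  have hin : ∀ r ∈ R, push (le_adj (hk := hk) (hn := hn)) a r (base _) = 1 := by
    intro r hrR
    have hrR' : k⁻¹ * r * k ∈ R := (hn _).2 (by simpa [mul_assoc] using hrR)
    have hd : r⁻¹ * k⁻¹ * r * k ∈ R := by simpa [mul_assoc] using mul_mem (inv_mem hrR) hrR'
    have hdW : r⁻¹ * k⁻¹ * r * k ∈ W := by
      have := mul_mem (h.normalW.conj_mem _ (inv_mem hkW) r⁻¹) hkW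
      simpa [mul_assoc] using this
    have := ha.mul_base r hd
    rw [hQ _ hdW hd, mul_one, show r * (r⁻¹ * k⁻¹ * r * k) = k⁻¹ * r * k by group] at this
    rw [push_base_of_mem ha hkR hk hn hrR, this, hA]
  intro x hx
  rcases hx with hx | hx
  · exact hin x hx
  · have := (push_isCocycle (le_adj (hk := hk) (hn := hn)) ha).mul_base k
      (r := k⁻¹ * x) (le_adj hx)
    rw [mul_inv_cancel_left] at this
    rw [this, hk1, hin _ hx, one_mul]

omit hT h hA in
theorem not_le_of_card (hc : 2 * Nat.card ↥(W ⊓ R) ≤ Nat.card ↥W) : ¬ W ≤ R := by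
  intro hle
  rw [inf_eq_left.2 hle] at hc
  have := Nat.card_pos (α := ↥W)
  omega

/-- Vanishing when `W ∩ R` has index at least 4 and `Z ∩ R` is killed. -/
theorem prod_eq_one_four [Fintype (T ⧸ R)] {a : T → T ⧸ R → A} (ha : IsCocycle a)
    (hP : KillsAt Z a) (hc : 4 * Nat.card ↥(W ⊓ R) ≤ Nat.card ↥W) (t : T) :
    ∏ q, a t q = 1 := by
  obtain ⟨R1, a1, ha1, hQ1, hc1, hprod⟩ := stepW hT h hA ha hP (not_le_of_card (by omega))
  haveI : Fintype (T ⧸ R1) := Fintype.ofFinite _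
  rw [← hprod t]
  exact stepFinal hT h hA ha1 hQ1 (not_le_of_card (by omega)) t

/-- Vanishing when `W ∩ R` has index at least 8. -/
theorem prod_eq_one_eight [Fintype (T ⧸ R)] {a : T → T ⧸ R → A} (ha : IsCocycle a)
    (hc : 8 * Nat.card ↥(W ⊓ R) ≤ Nat.card ↥W) (t : T) :
    ∏ q, a t q = 1 := by
  obtain ⟨R1, a1, ha1, hP1, hc1, hprod⟩ := stepZ hT h hA ha (not_le_of_card (by omega))
  haveI : Fintype (T ⧸ R1) := Fintype.ofFinite _
  rw [← hprod t]
  exact prod_eq_one_four hT h hA ha1 hP1 (by omega) t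

end Cocycle

end Cfsg.Agent.RuType
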