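import Mathlib

/-!
# Subgroups of `GL(3, 2)` containing the upper unitriangular group
-/

set_option autoImplicit false
set_option linter.style.haveILetI false

namespace Cfsg.Agent.RuType

/-- Three by three matrices over the field with two elements. -/
abbrev M3 := Matrix (Fin 3) (Fin 3) (ZMod 2)

/-- Upper unitriangular matrices. -/
def uMat (a b c : ZMod 2) : M3 := !![1, a, c; 0, 1, b; 0, 0, 1]

def s12 : M3 := !![0, 1, 0; 1, 0, 0; 0, 0, 1]
def s23 : M3 := !![1, 0, 0; 0, 0, 1; 0, 1, 0]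
def cyc : M3 := !![0, 0, 1; 1, 0, 0; 0, 1, 0]
def cyc2 : M3 := !![0, 1, 0; 0, 0, 1; 1, 0, 0]
def wlong : M3 := !![0, 0, 1; 0, 1, 0; 1, 0, 0]

set_option maxRecDepth 100000 in
set_option maxHeartbeats 4000000 in
theorem bruhat : ∀ x : M3, x.det ≠ 0 → ∃ a b c d e f : ZMod 2,
    uMat a b c * x * uMat d e f ∈ [1, s12, s23, cyc, cyc2, wlong] := by
  decide +kernel

/-- The group `GL(3, 2)`. -/
abbrev GL3 := GL (Fin 3) (ZMod 2)

theorem det_ne (x : GL3) : (x : M3).det ≠ 0 :=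
  ((Matrix.isUnit_iff_isUnit_det (x : M3)).1 x.isUnit).ne_zero

theorem uMat_inv_left : ∀ a b c : ZMod 2, uMat a b (c + a * b) * uMat a b c = 1 := by decide

theorem uMat_inv_right : ∀ a b c : ZMod 2, uMat a b c * uMat a b (c + a * b) = 1 := by decide

/-- The matrix `m` occurs in `X`. -/
def InX (X : Subgroup GL3) (m : M3) : Prop := ∃ x ∈ X, (x : M3) = m

theorem InX.mul {X : Subgroup GL3} {m n : M3} (hm : InX X m) (hn : InX X n) : InX X (m * n) := by
  obtain ⟨x, hx, rfl⟩ := hm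
  obtain ⟨y, hy, rfl⟩ := hn
  exact ⟨x * y, mul_mem hx hy, rfl⟩

/-- `X` contains the upper unitriangular group. -/
def HasU (X : Subgroup GL3) : Prop := ∀ a b c : ZMod 2, InX X (uMat a b c)

theorem words :
    (uMat 1 0 0 * cyc * uMat 0 0 1 * cyc * uMat 0 1 0 * cyc = s12 ∧
      uMat 0 1 0 * cyc * cyc * uMat 0 0 1 * cyc * uMat 0 1 0 = s23) ∧
    (uMat 1 0 0 * cyc2 * cyc2 * uMat 0 0 1 * cyc2 * uMat 1 0 0 = s12 ∧
      uMat 0 1 0 * cyc2 * uMat 0 0 1 * cyc2 * uMat 1 0 0 * cyc2 = s23) ∧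
    (uMat 1 0 0 * wlong * uMat 0 1 0 * wlong * uMat 1 0 0 = s12 ∧
      uMat 0 1 0 * wlong * uMat 1 0 0 * wlong * uMat 0 1 0 = s23) ∧
    (s12 * s23 = cyc ∧ s23 * s12 = cyc2 ∧ s12 * s23 * s12 = wlong) := by decide

theorem exists_weyl {X : Subgroup GL3} (hU : HasU X) {x : GL3} (hx : x ∈ X) :
    ∃ (a b c d e f : ZMod 2) (w : M3), InX X w ∧ w ∈ [1, s12, s23, cyc, cyc2, wlong] ∧
      (x : M3) = uMat a b c * w * uMat d e f := by
  obtain ⟨a, b, c, d, e, f, hw⟩ := bruhat _ (det_ne x)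
  refine ⟨a, b, c + a * b, d, e, f + d * e, _, ((hU a b c).mul ⟨x, hx, rfl⟩).mul (hU d e f), hw, ?_⟩
  simp only [← mul_assoc, uMat_inv_left, one_mul]
  rw [mul_assoc, uMat_inv_right, mul_one]

theorem uMat_fix_col : ∀ a b c d e f : ZMod 2,
    (uMat a b c * 1 * uMat d e f) 1 0 = 0 ∧ (uMat a b c * 1 * uMat d e f) 2 0 = 0 ∧
    (uMat a b c * 1 * uMat d e f) 2 1 = 0 ∧
    (uMat a b c * s23 * uMat d e f) 1 0 = 0 ∧ (uMat a b c * s23 * uMat d e f) 2 0 = 0 ∧
    (uMat a b c * s12 * uMat d e f) 2 0 = 0 ∧ (uMat a b c * s12 * uMat d e f) 2 1 = 0 := by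
  decide

/-- `x` fixes the first basis vector. -/
def FixesPoint (x : GL3) : Prop := (x : M3) 1 0 = 0 ∧ (x : M3) 2 0 = 0

/-- `x` fixes the plane of the first two basis vectors. -/
def FixesPlane (x : GL3) : Prop := (x : M3) 2 0 = 0 ∧ (x : M3) 2 1 = 0

theorem overgroup (X : Subgroup GL3) (hU : HasU X) :
    X = ⊤ ∨ (∀ x ∈ X, FixesPoint x) ∨ (∀ x ∈ X, FixesPlane x) := by
  by_cases h1 : ∀ x ∈ X, FixesPoint x
  · exact Or.inr (Or.inl h1)
  by_cases h2 : ∀ x ∈ X, FixesPlane x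
  · exact Or.inr (Or.inr h2)
  refine Or.inl (eq_top_iff.2 fun z _ => ?_)
  push Not at h1 h2
  obtain ⟨⟨w1, w2⟩, ⟨w3, w4⟩, ⟨w5, w6⟩, ⟨w7, w8, w9⟩⟩ := words
  have hs12 : InX X s12 := by
    obtain ⟨x, hx, hx'⟩ := h1
    obtain ⟨a, b, c, d, e, f, w, hwX, hw, hxe⟩ := exists_weyl hU hx
    obtain ⟨p1, p2, -, p4, p5, -, -⟩ := uMat_fix_col a b c d e f
    simp only [List.mem_cons, List.not_mem_nil, or_false] at hw
    rcases hw with rfl | rfl | rfl | rfl | rfl | rfl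
    · exact absurd (show FixesPoint x by rw [FixesPoint, hxe]; exact ⟨p1, p2⟩) hx'
    · exact hwX
    · exact absurd (show FixesPoint x by rw [FixesPoint, hxe]; exact ⟨p4, p5⟩) hx'
    · rw [← w1]
      exact (((((hU 1 0 0).mul hwX).mul (hU 0 0 1)).mul hwX).mul (hU 0 1 0)).mul hwX
    · rw [← w3]
      exact (((((hU 1 0 0).mul hwX).mul hwX).mul (hU 0 0 1)).mul hwX).mul (hU 1 0 0)
    · rw [← w5]
      exact ((((hU 1 0 0).mul hwX).mul (hU 0 1 0)).mul hwX).mul (hU 1 0 0)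
  have hs23 : InX X s23 := by
    obtain ⟨x, hx, hx'⟩ := h2
    obtain ⟨a, b, c, d, e, f, w, hwX, hw, hxe⟩ := exists_weyl hU hx
    obtain ⟨-, p2, p3, -, -, p6, p7⟩ := uMat_fix_col a b c d e f
    simp only [List.mem_cons, List.not_mem_nil, or_false] at hw
    rcases hw with rfl | rfl | rfl | rfl | rfl | rfl
    · exact absurd (show FixesPlane x by rw [FixesPlane, hxe]; exact ⟨p2, p3⟩) hx'
    · exact absurd (show FixesPlane x by rw [FixesPlane, hxe]; exact ⟨p6, p7⟩) hx'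
    · exact hwX
    · rw [← w2]
      exact (((((hU 0 1 0).mul hwX).mul hwX).mul (hU 0 0 1)).mul hwX).mul (hU 0 1 0)
    · rw [← w4]
      exact (((((hU 0 1 0).mul hwX).mul (hU 0 0 1)).mul hwX).mul (hU 1 0 0)).mul hwX
    · rw [← w6]
      exact ((((hU 0 1 0).mul hwX).mul (hU 1 0 0)).mul hwX).mul (hU 0 1 0)
  obtain ⟨a, b, c, d, e, f, hw⟩ := bruhat _ (det_ne z)
  have key : InX X (uMat a b c * (z : M3) * uMat d e f) := by
    generalize uMat a b c * (z : M3) * uMat d e f = w at hw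
    simp only [List.mem_cons, List.not_mem_nil, or_false] at hw
    rcases hw with rfl | rfl | rfl | rfl | rfl | rfl
    · exact ⟨1, one_mem X, rfl⟩
    · exact hs12
    · exact hs23
    · exact w7 ▸ hs12.mul hs23
    · exact w8 ▸ hs23.mul hs12
    · exact w9 ▸ (hs12.mul hs23).mul hs12
  have h := ((hU a b (c + a * b)).mul key).mul (hU d e (f + d * e))
  simp only [← mul_assoc, uMat_inv_left, one_mul] at h
  rw [mul_assoc, uMat_inv_right, mul_one] at h
  obtain ⟨y, hy, hyz⟩ := h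
  rwa [← Units.ext hyz]

/-- The odd elements of `GL(2, 2)`, written on the entries. -/
def par (p q r s : ZMod 2) : ZMod 2 := p * s * (q + r) + (1 - p) * (1 - s)

theorem par_mul : ∀ p q r s p' q' r' s' : ZMod 2, p * s + q * r = 1 → p' * s' + q' * r' = 1 →
    par (p * p' + q * r') (p * q' + q * s') (r * p' + s * r') (r * q' + s * s') =
      par p q r s + par p' q' r' s' := by decide

theorem det_point : ∀ x : M3, x.det ≠ 0 → x 1 0 = 0 → x 2 0 = 0 →
    x 1 1 * x 2 2 + x 1 2 * x 2 1 = 1 := by decide +kernel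

theorem det_plane : ∀ x : M3, x.det ≠ 0 → x 2 0 = 0 → x 2 1 = 0 →
    x 0 0 * x 1 1 + x 0 1 * x 1 0 = 1 := by decide +kernel

theorem exists_sign (X : Subgroup GL3) (hU : HasU X) (hne : X ≠ ⊤) :
    ∃ f : ↥X →* Multiplicative (ZMod 2), ∃ x : ↥X,
      (∃ a b c : ZMod 2, ((x : GL3) : M3) = uMat a b c) ∧ f x ≠ 1 := by
  rcases (overgroup X hU).resolve_left hne with hp | hp
  · let F : ↥X → Multiplicative (ZMod 2) := fun x => Multiplicative.ofAdd
      (par ((x.1 : M3) 1 1) ((x.1 : M3) 1 2) ((x.1 : M3) 2 1) ((x.1 : M3) 2 2))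
    have hF : ∀ x y, F (x * y) = F x * F y := by
      intro x y
      obtain ⟨hx1, hx2⟩ := hp x x.2
      obtain ⟨hy1, hy2⟩ := hp y y.2
      simp only [F, ← ofAdd_add]
      rw [← par_mul _ _ _ _ _ _ _ _ (det_point _ (det_ne _) hx1 hx2)
        (det_point _ (det_ne _) hy1 hy2)]
      simp [Matrix.mul_apply, Fin.sum_univ_three, hx1, hx2]
    obtain ⟨x, hx, hxe⟩ := hU 0 1 0
    refine ⟨MonoidHom.mk' F hF, ⟨x, hx⟩, ⟨0, 1, 0, hxe⟩, ?_⟩
    simp only [MonoidHom.mk'_apply, F, hxe]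
    decide
  · let F : ↥X → Multiplicative (ZMod 2) := fun x => Multiplicative.ofAdd
      (par ((x.1 : M3) 0 0) ((x.1 : M3) 0 1) ((x.1 : M3) 1 0) ((x.1 : M3) 1 1))
    have hF : ∀ x y, F (x * y) = F x * F y := by
      intro x y
      obtain ⟨hx1, hx2⟩ := hp x x.2
      obtain ⟨hy1, hy2⟩ := hp y y.2
      simp only [F, ← ofAdd_add]
      rw [← par_mul _ _ _ _ _ _ _ _ (det_plane _ (det_ne _) hx1 hx2)
        (det_plane _ (det_ne _) hy1 hy2)]
      simp [Matrix.mul_apply, Fin.sum_univ_three, hy1, hy2]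
    obtain ⟨x, hx, hxe⟩ := hU 1 0 0
    refine ⟨MonoidHom.mk' F hF, ⟨x, hx⟩, ⟨1, 0, 0, hxe⟩, ?_⟩
    simp only [MonoidHom.mk'_apply, F, hxe]
    decide

/-- The element of `GL(3, 2)` given by a matrix. -/
def mkGL (m n : M3) (h1 : m * n = 1) (h2 : n * m = 1) : GL3 := ⟨m, n, h1, h2⟩

def t01 : GL3 := mkGL (uMat 1 0 0) (uMat 1 0 0) (by decide) (by decide)
def t12 : GL3 := mkGL (uMat 0 1 0) (uMat 0 1 0) (by decide) (by decide)
def t02 : GL3 := mkGL (uMat 0 0 1) (uMat 0 0 1) (by decide) (by decide)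
def t21 : GL3 := mkGL !![1, 0, 0; 0, 1, 0; 0, 1, 1] !![1, 0, 0; 0, 1, 0; 0, 1, 1]
  (by decide) (by decide)
def t10 : GL3 := mkGL !![1, 0, 0; 1, 1, 0; 0, 0, 1] !![1, 0, 0; 1, 1, 0; 0, 0, 1]
  (by decide) (by decide)
def gc : GL3 := mkGL cyc cyc2 (by decide) (by decide)

/-- An element of order seven. -/
def seven : GL3 := mkGL !![0, 0, 1; 1, 0, 1; 0, 1, 0] !![1, 1, 0; 0, 0, 1; 1, 0, 0]
  (by decide) (by decide)

theorem seven_pow : seven ^ 7 = 1 := by decide

theorem seven_ne : seven ≠ 1 := by decide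

theorem uMat_pow_four : ∀ a b c : ZMod 2, uMat a b c ^ 4 = 1 := by decide

theorem conj_fix_point : ∀ y : M3,
    y 1 0 = 0 → y 2 0 = 0 → (cyc2 * y * cyc) 1 0 = 0 → (cyc2 * y * cyc) 2 0 = 0 →
    (cyc * y * cyc2) 1 0 = 0 → (cyc * y * cyc2) 2 0 = 0 → y.det ≠ 0 → y = 1 := by
  decide +kernel

theorem conj_fix_plane : ∀ y : M3,
    y 2 0 = 0 → y 2 1 = 0 → (cyc2 * y * cyc) 2 0 = 0 → (cyc2 * y * cyc) 2 1 = 0 →
    (cyc * y * cyc2) 2 0 = 0 → (cyc * y * cyc2) 2 1 = 0 → y.det ≠ 0 → y = 1 := by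
  decide +kernel

theorem comm_t01 : t02 * t21 * t02⁻¹ * t21⁻¹ = t01 := by decide
theorem comm_t12 : t10 * t02 * t10⁻¹ * t02⁻¹ = t12 := by decide
theorem comm_t02 : t01 * t12 * t01⁻¹ * t12⁻¹ = t02 := by decide

theorem uMat_word : ∀ a b c : ZMod 2,
    uMat a b c = uMat 0 b 0 * uMat a 0 0 * uMat 0 0 c := by decide

/-- A nontrivial normal subgroup of `GL(3, 2)` contains the unitriangular matrices. -/
theorem normal_hasU (Y : Subgroup GL3) [Y.Normal] {y : GL3} (hy : y ∈ Y) (hy1 : y ≠ 1) :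
    HasU Y := by
  let U : Subgroup GL3 := Subgroup.closure {t01, t12, t02}
  let X : Subgroup GL3 := Y ⊔ U
  have hgen : ∀ g ∈ ({t01, t12, t02} : Set GL3), g ∈ U := fun g hg => Subgroup.subset_closure hg
  have hinX : ∀ (K : Subgroup GL3), t01 ∈ K → t12 ∈ K → t02 ∈ K → HasU K := by
    intro K h1 h2 h3 a b c
    rw [uMat_word]
    refine (InX.mul (InX.mul ?_ ?_) ?_)
    · fin_cases b
      · exact ⟨1, one_mem K, by decide⟩
      · exact ⟨t12, h2, rfl⟩
    · fin_cases a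
      · exact ⟨1, one_mem K, by decide⟩
      · exact ⟨t01, h1, rfl⟩
    · fin_cases c
      · exact ⟨1, one_mem K, by decide⟩
      · exact ⟨t02, h3, rfl⟩
  have hXU : HasU X := hinX X (le_sup_right (a := Y) (hgen _ (by simp)))
    (le_sup_right (a := Y) (hgen _ (by simp))) (le_sup_right (a := Y) (hgen _ (by simp)))
  have hYX : Y ≤ X := le_sup_left
  have hc1 : gc⁻¹ * y * gc ∈ Y := by simpa using Subgroup.Normal.conj_mem inferInstance y hy gc⁻¹
  have hc2 : gc * y * gc⁻¹ ∈ Y := Subgroup.Normal.conj_mem inferInstance y hy gc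
  have htop : X = ⊤ := by
    rcases overgroup X hXU with h | h | h
    · exact h
    · exact absurd (Units.ext (conj_fix_point _ (h y (hYX hy)).1 (h y (hYX hy)).2
        (h _ (hYX hc1)).1 (h _ (hYX hc1)).2 (h _ (hYX hc2)).1 (h _ (hYX hc2)).2 (det_ne y))) hy1
    · exact absurd (Units.ext (conj_fix_plane _ (h y (hYX hy)).1 (h y (hYX hy)).2
        (h _ (hYX hc1)).1 (h _ (hYX hc1)).2 (h _ (hYX hc2)).1 (h _ (hYX hc2)).2 (det_ne y))) hy1
  let π := QuotientGroup.mk' Y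
  have hU4 : ∀ g ∈ U, g ^ (4 : ℕ) = 1 := by
    intro g hg
    have hmem : ∃ a b c : ZMod 2, (g : M3) = uMat a b c := by
      have hmul : ∀ a b c a' b' c' : ZMod 2,
          uMat a b c * uMat a' b' c' = uMat (a + a') (b + b') (c + c' + a * b') := by decide
      induction hg using Subgroup.closure_induction with
      | mem x hx =>
        rcases hx with rfl | rfl | rfl
        · exact ⟨1, 0, 0, rfl⟩
        · exact ⟨0, 1, 0, rfl⟩
        · exact ⟨0, 0, 1, rfl⟩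
      | one => exact ⟨0, 0, 0, by decide⟩
      | mul x z _ _ hx hz =>
        obtain ⟨a, b, c, hx⟩ := hx
        obtain ⟨a', b', c', hz⟩ := hz
        exact ⟨_, _, _, by rw [Units.val_mul, hx, hz, hmul]⟩
      | inv x _ hx =>
        obtain ⟨a, b, c, hx⟩ := hx
        refine ⟨a, b, c + a * b, ?_⟩
        have h1 : (x : M3) * uMat a b (c + a * b) = 1 := by rw [hx, uMat_inv_right]
        exact (left_inv_eq_right_inv (Units.inv_mul x) h1)
    obtain ⟨a, b, c, hg'⟩ := hmem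
    exact Units.ext (by rw [Units.val_pow_eq_pow_val, hg', uMat_pow_four, Units.val_one])
  have hQ : IsPGroup 2 (GL3 ⧸ Y) := by
    intro q
    induction q using QuotientGroup.induction_on with
    | _ g =>
      have hgX : g ∈ X := htop ▸ Subgroup.mem_top g
      obtain ⟨a, ha, u, hu, rfl⟩ := Subgroup.mem_sup_of_normal_left.1 hgX
      refine ⟨2, ?_⟩
      rw [QuotientGroup.mk_mul, (QuotientGroup.eq_one_iff a).2 ha, one_mul, ← QuotientGroup.mk_pow]
      exact (QuotientGroup.eq_one_iff _).2 ((hU4 u hu).symm ▸ one_mem Y)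
  haveI : Fact (Nat.Prime 2) := ⟨Nat.prime_two⟩
  haveI : Group.IsNilpotent (GL3 ⧸ Y) := hQ.isNilpotent
  have hall : ∀ n, π t01 ∈ (⊤ : Subgroup (GL3 ⧸ Y)).lowerCentralSeries n ∧
      π t12 ∈ (⊤ : Subgroup (GL3 ⧸ Y)).lowerCentralSeries n ∧
      π t02 ∈ (⊤ : Subgroup (GL3 ⧸ Y)).lowerCentralSeries n := by
    intro n
    induction n with
    | zero => simp
    | succ n ih =>
      rw [Subgroup.lowerCentralSeries_succ]
      refine ⟨?_, ?_, ?_⟩
      · rw [← comm_t01]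
        simp only [map_mul, map_inv]
        exact Subgroup.commutator_mem_commutator ih.2.2 (Subgroup.mem_top _)
      · rw [← comm_t12]
        simp only [map_mul, map_inv]
        have := inv_mem (Subgroup.commutator_mem_commutator ih.2.2 (Subgroup.mem_top (π t10)))
        simpa [commutatorElement_def, mul_assoc] using this
      · rw [← comm_t02]
        simp only [map_mul, map_inv]
        exact Subgroup.commutator_mem_commutator ih.1 (Subgroup.mem_top _)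
  obtain ⟨n, hn⟩ := Subgroup.nilpotent_iff_lowerCentralSeries.1
    (inferInstance : Group.IsNilpotent (GL3 ⧸ Y))
  obtain ⟨g1, g2, g3⟩ := hall n
  rw [hn, Subgroup.mem_bot] at g1 g2 g3
  exact hinX Y ((QuotientGroup.eq_one_iff _).1 g1) ((QuotientGroup.eq_one_iff _).1 g2)
    ((QuotientGroup.eq_one_iff _).1 g3)

end Cfsg.Agent.RuType
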