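import Mathlib
import Cfsg.Agent.RuType.GLThree

/-!
# A group acting on an elementary abelian group of order 256 through `GL(3, 2)`

If `N` maps onto `GL(3, 2)` with kernel `K`, if `V ≤ K` is a normal elementary abelian subgroup
of order 256 which is the intersection of a Sylow 2-subgroup with `K`, and if that Sylow
2-subgroup has a unique nontrivial fixed point on `V`, then `K` centralizes `V`.
-/

set_option autoImplicit false
set_option linter.style.haveILetI false

open scoped Pointwise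

namespace Cfsg.Agent.RuType

/-- The unitriangular matrices as a subgroup of `GL(3, 2)`. -/
def uGrp : Subgroup GL3 where
  carrier := {x | ∃ a b c : ZMod 2, (x : M3) = uMat a b c}
  one_mem' := ⟨0, 0, 0, by decide⟩
  mul_mem' := by
    have hmul : ∀ a b c a' b' c' : ZMod 2,
        uMat a b c * uMat a' b' c' = uMat (a + a') (b + b') (c + c' + a * b') := by decide
    rintro x z ⟨a, b, c, hx⟩ ⟨a', b', c', hz⟩
    exact ⟨_, _, _, by rw [Units.val_mul, hx, hz, hmul]⟩
  inv_mem' := by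
    rintro x ⟨a, b, c, hx⟩
    refine ⟨a, b, c + a * b, ?_⟩
    have h1 : (x : M3) * uMat a b (c + a * b) = 1 := by rw [hx, uMat_inv_right]
    exact (left_inv_eq_right_inv (Units.inv_mul x) h1)

theorem card_uGrp : Nat.card ↥uGrp = 8 := by
  let f : ZMod 2 × ZMod 2 × ZMod 2 → ↥uGrp := fun p =>
    ⟨mkGL (uMat p.1 p.2.1 p.2.2) (uMat p.1 p.2.1 (p.2.2 + p.1 * p.2.1))
      (uMat_inv_right _ _ _) (uMat_inv_left _ _ _), p.1, p.2.1, p.2.2, rfl⟩
  have hf : Function.Bijective f := by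
    constructor
    · rintro ⟨a, b, c⟩ ⟨a', b', c'⟩ h
      have h' : uMat a b c = uMat a' b' c' := congrArg (fun x : ↥uGrp => ((x : GL3) : M3)) h
      have hinj : ∀ a b c a' b' c' : ZMod 2,
          uMat a b c = uMat a' b' c' → a = a' ∧ b = b' ∧ c = c' := by decide
      obtain ⟨rfl, rfl, rfl⟩ := hinj _ _ _ _ _ _ h'
      rfl
    · rintro ⟨x, a, b, c, hx⟩
      exact ⟨(a, b, c), Subtype.ext (Units.ext hx.symm)⟩
  rw [← Nat.card_congr (Equiv.ofBijective f hf), Nat.card_prod, Nat.card_prod, Nat.card_zmod]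

theorem hasU_card {Y : Subgroup GL3} (h : HasU Y) : 8 ∣ Nat.card ↥Y := by
  have hle : uGrp ≤ Y := by
    rintro x ⟨a, b, c, hx⟩
    obtain ⟨y, hy, hye⟩ := h a b c
    rwa [show x = y from Units.ext (hx.trans hye.symm)]
  exact card_uGrp ▸ Subgroup.card_dvd_of_le hle

theorem card_gl3 : Nat.card GL3 = 168 := by
  rw [GL3, Matrix.card_GL_field]
  simp [Fin.prod_univ_three, ZMod.card]

theorem card_gl8 : Nat.card (GL (Fin 8) (ZMod 2)) =
    255 * 254 * 252 * 248 * 240 * 224 * 192 * 128 := by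
  rw [Matrix.card_GL_field]
  simp [Fin.prod_univ_eight, ZMod.card]

theorem pow_bound {r n : ℕ} (hr : r = 3 ∨ r = 5 ∨ r = 17)
    (h : r ^ n ∣ 255 * 254 * 252 * 248 * 240 * 224 * 192 * 128) : n < 6 := by
  by_contra hn
  have := (pow_dvd_pow r (le_of_not_gt hn)).trans h
  rcases hr with rfl | rfl | rfl <;> norm_num at this

theorem pow_mod_seven {r n k : ℕ} (hr : r = 3 ∨ r = 5 ∨ r = 17) (hn : n < 6) (hk : k < 6)
    (h : r ^ n ≡ r ^ k [MOD 7]) : n = k := by
  rcases hr with rfl | rfl | rfl <;> interval_cases n <;> interval_cases k <;>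
    first | rfl | exact absurd h (by decide)

section

variable {V : Type*} [CommGroup V]

/-- The automorphism group of an elementary abelian group of order 256 embeds in `GL(8, 2)`. -/
theorem card_mulAut_dvd [Finite V] (hexp : ∀ v : V, v * v = 1) (hcard : Nat.card V = 256) :
    Nat.card (MulAut V) ∣ Nat.card (GL (Fin 8) (ZMod 2)) := by
  letI : Module (ZMod 2) (Additive V) := AddCommGroup.zmodModule (n := 2) (fun x => by
    rw [two_nsmul]
    exact congrArg Additive.ofMul (hexp x.toMul))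
  haveI : Finite (Additive V) := inferInstanceAs (Finite V)
  haveI : Module.Finite (ZMod 2) (Additive V) := Module.Finite.of_finite
  have hrank : Module.finrank (ZMod 2) (Additive V) = 8 := by
    have h := Module.natCard_eq_pow_finrank (K := ZMod 2) (V := Additive V)
    rw [show Nat.card (Additive V) = 256 from hcard, Nat.card_zmod] at h
    exact (Nat.pow_right_injective (le_refl 2) (show 2 ^ 8 = 2 ^ _ from h)).symm
  let b := Module.finBasisOfFinrankEq (ZMod 2) (Additive V) hrank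
  let lin : MulAut V → (Additive V →ₗ[ZMod 2] Additive V) := fun α =>
    (MonoidHom.toAdditive α.toMonoidHom).toZModLinearMap 2
  let F : MulAut V →* Matrix (Fin 8) (Fin 8) (ZMod 2) :=
    { toFun := fun α => LinearMap.toMatrix b b (lin α)
      map_one' := by
        rw [show lin 1 = LinearMap.id from LinearMap.ext fun x => rfl, LinearMap.toMatrix_id]
      map_mul' := fun α β => by
        rw [← LinearMap.toMatrix_comp b b b (lin α) (lin β)]
        rfl }
  have hF : Function.Injective F.toHomUnits := by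
    intro α β h
    have h' : lin α = lin β := (LinearMap.toMatrix b b).injective
      (congrArg (fun u : GL (Fin 8) (ZMod 2) => (u : Matrix (Fin 8) (Fin 8) (ZMod 2))) h)
    exact MulEquiv.ext fun v => congrArg Additive.toMul (LinearMap.congr_fun h' (Additive.ofMul v))
  exact Subgroup.card_dvd_of_injective _ hF

end

section

variable {N : Type*} [Group N] [Finite N]

theorem sylow_le_of_odd_index (L : Subgroup N) (hL : ¬ 2 ∣ L.index) :
    ∃ T : Sylow 2 N, (T : Subgroup N) ≤ L := by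
  haveI : Fact (Nat.Prime 2) := ⟨Nat.prime_two⟩
  obtain ⟨S⟩ : Nonempty (Sylow 2 ↥L) := inferInstance
  let S' : Subgroup N := (S : Subgroup ↥L).map L.subtype
  have hS' : IsPGroup 2 ↥S' := S.isPGroup'.map _
  obtain ⟨T, hT⟩ := hS'.exists_le_sylow
  refine ⟨T, ?_⟩
  have hidx : ¬ 2 ∣ S'.index := by
    rw [show S'.index = (S : Subgroup ↥L).index * L.index from Subgroup.index_map_subtype _]
    exact fun h => (Nat.prime_two.dvd_mul.1 h).elim S.not_dvd_index hL
  have hrel : S'.relIndex T ∣ S'.index := Dvd.intro _ (Subgroup.relIndex_mul_index hT)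
  obtain ⟨m, hm⟩ := IsPGroup.iff_card.1 T.isPGroup'
  have h1 : S'.relIndex T ∣ 2 ^ m := hm ▸ Subgroup.relIndex_dvd_card _ _
  obtain ⟨j, -, hj⟩ := (Nat.dvd_prime_pow Nat.prime_two).1 h1
  have hj0 : j = 0 := by
    by_contra hj0
    exact hidx ((dvd_pow_self 2 hj0).trans (hj ▸ hrel))
  have : (T : Subgroup N) ≤ S' := Subgroup.relIndex_eq_one.1 (by rw [hj, hj0, pow_zero])
  exact this.trans (Subgroup.map_subtype_le _)

omit [Finite N] in
theorem card_sup_mul (A K : Subgroup N) [K.Normal] :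
    Nat.card ↥(A ⊔ K) * Nat.card ↥(A ⊓ K) = Nat.card ↥A * Nat.card ↥K := by
  have h1 := Subgroup.card_mul_index (K.subgroupOf (A ⊔ K))
  have h2 := Subgroup.card_mul_index (K.subgroupOf A)
  rw [← Subgroup.relIndex, Nat.card_congr (Subgroup.subgroupOfEquivOfLe le_sup_right).toEquiv,
    Subgroup.relIndex_sup_right] at h1
  rw [← Subgroup.relIndex, ← Subgroup.inf_subgroupOf_right,
    Nat.card_congr (Subgroup.subgroupOfEquivOfLe (inf_le_right : K ⊓ A ≤ A)).toEquiv,
    inf_comm] at h2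
  rw [← h1, ← h2]
  ring

/-- `K` centralizes `V`. -/
theorem centralizes (V : Subgroup N) [V.Normal] (hexp : ∀ v ∈ V, v * v = 1)
    (hcard : Nat.card ↥V = 256) (ψ : N →* GL3) (hψ : Function.Surjective ψ) (hV : V ≤ ψ.ker)
    (T : Sylow 2 N) (hT : (T : Subgroup N) ⊓ ψ.ker = V)
    (hfix : ∃ v0 ∈ V, v0 ≠ 1 ∧ (∀ t ∈ T, t * v0 = v0 * t) ∧
      ∀ v ∈ V, v ≠ 1 → (∀ t ∈ T, t * v = v * t) → v = v0) :
    ψ.ker ≤ Subgroup.centralizer (V : Set N) := by
  classical
  haveI : Fact (Nat.Prime 2) := ⟨Nat.prime_two⟩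
  let K := ψ.ker
  haveI : Fintype N := Fintype.ofFinite N
  -- the index of `V` in `K` is odd
  obtain ⟨d, hd, hdodd⟩ : ∃ d, Nat.card ↥K = 256 * d ∧ ¬ 2 ∣ d := by
    refine ⟨(T : Subgroup N).relIndex ((T : Subgroup N) ⊔ K), ?_, fun h => T.not_dvd_index
      (h.trans (Dvd.intro _ (Subgroup.relIndex_mul_index le_sup_left)))⟩
    have h1 := card_sup_mul (T : Subgroup N) K
    rw [hT, hcard] at h1
    have h2 := Subgroup.card_mul_index ((T : Subgroup N).subgroupOf ((T : Subgroup N) ⊔ K))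
    rw [← Subgroup.relIndex, Nat.card_congr (Subgroup.subgroupOfEquivOfLe le_sup_left).toEquiv]
      at h2
    rw [← h2] at h1
    refine (Nat.eq_of_mul_eq_mul_left (Nat.card_pos (α := ↥(T : Subgroup N))) ?_).symm
    rw [← h1]
    ring
  have hTcard : Nat.card ↥(T : Subgroup N) ∣ 2 ^ 11 := by
    have h1 := Subgroup.card_mul_index (ψ.ker.subgroupOf (T : Subgroup N))
    rw [← Subgroup.relIndex, ← Subgroup.inf_subgroupOf_right,
      Nat.card_congr (Subgroup.subgroupOfEquivOfLe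
        (inf_le_right : ψ.ker ⊓ (T : Subgroup N) ≤ T)).toEquiv, inf_comm, hT, hcard] at h1
    have h2 : ψ.ker.relIndex (T : Subgroup N) ∣ 168 := by
      rw [← card_gl3, show Nat.card GL3 = ψ.ker.index by
        rw [Subgroup.index_ker, MonoidHom.range_eq_top.2 hψ, Subgroup.card_top]]
      exact Subgroup.relIndex_dvd_index_of_normal ψ.ker _
    obtain ⟨m, hm⟩ := IsPGroup.iff_card.1 T.isPGroup'
    have h3 : ψ.ker.relIndex (T : Subgroup N) ∣ 2 ^ m := hm ▸ Subgroup.relIndex_dvd_card _ _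
    obtain ⟨j, -, hj⟩ := (Nat.dvd_prime_pow Nat.prime_two).1 h3
    rw [hj] at h1 h2
    have hj3 : j ≤ 3 := by
      by_contra hj3
      have := (pow_dvd_pow 2 (show 4 ≤ j by omega)).trans h2
      norm_num at this
    rw [← h1, show (2 : ℕ) ^ 11 = 256 * 2 ^ 3 by norm_num]
    exact mul_dvd_mul (dvd_refl 256) (pow_dvd_pow 2 hj3)
  letI : CommGroup ↥V :=
    { (inferInstance : Group ↥V) with
      mul_comm := fun a b => by
        have hinv : ∀ x : ↥V, x⁻¹ = x := fun x =>
          inv_eq_of_mul_eq_one_right (Subtype.ext (hexp x x.2))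
        calc a * b = (a * b)⁻¹ := (hinv _).symm
          _ = b * a := by rw [mul_inv_rev, hinv, hinv] }
  let θ : N →* MulAut ↥V := MulAut.conjNormal
  have θval : ∀ g (v : ↥V), ((θ g v : ↥V) : N) = g * v * g⁻¹ := fun g v => rfl
  have θfix : ∀ g (v : ↥V), θ g v = v ↔ g * (v : N) = v * g := fun g v => by
    rw [Subtype.ext_iff, θval, mul_inv_eq_iff_eq_mul]
  have θV : ∀ u ∈ V, θ u = 1 := by
    intro u hu
    refine MulEquiv.ext fun v => (θfix u v).2 ?_
    exact congrArg (fun x : ↥V => (x : N)) (mul_comm ⟨u, hu⟩ v)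
  have θcomp : ∀ a b v, θ (a * b) v = θ a (θ b v) := fun a b v => by
    rw [map_mul]; rfl
  -- fixed points for every Sylow 2-subgroup
  have hfixT : ∀ T' : Sylow 2 N, ∃ v0 : ↥V, v0 ≠ 1 ∧ (∀ t ∈ T', θ t v0 = v0) ∧
      ∀ v : ↥V, v ≠ 1 → (∀ t ∈ T', θ t v = v) → v = v0 := by
    intro T'
    obtain ⟨g, hg⟩ := MulAction.exists_smul_eq N T T'
    obtain ⟨v0, hv0, hne, hc, huniq⟩ := hfix
    have hmem : ∀ t, t ∈ T' ↔ g⁻¹ * t * g ∈ T := by
      intro t
      rw [← hg]
      change t ∈ (MulAut.conj g) • (T : Subgroup N) ↔ _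
      rw [Subgroup.mem_pointwise_smul_iff_inv_smul_mem]
      simp [MulAut.smul_def]
      rfl
    have huniq' : ∀ v : ↥V, v ≠ 1 → (∀ t ∈ T, θ t v = v) → v = ⟨v0, hv0⟩ := fun v hv h =>
      Subtype.ext (huniq v v.2 (fun e => hv (Subtype.ext e)) fun t ht => (θfix t v).1 (h t ht))
    refine ⟨θ g ⟨v0, hv0⟩, fun e => hne ?_, fun t ht => ?_, fun v hv h => ?_⟩
    · exact congrArg Subtype.val ((θ g).injective (e.trans (map_one (θ g)).symm))
    · have := (θfix _ ⟨v0, hv0⟩).2 (hc _ ((hmem t).1 ht))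
      calc θ t (θ g ⟨v0, hv0⟩) = θ g (θ (g⁻¹ * t * g) ⟨v0, hv0⟩) := by
            rw [← θcomp, ← θcomp]; congr 2; group
        _ = _ := by rw [this]
    · have h1 : θ g⁻¹ v = ⟨v0, hv0⟩ := by
        refine huniq' _ (fun e => hv ((θ g⁻¹).injective (e.trans (map_one (θ g⁻¹)).symm)))
          fun t ht => ?_
        have h2 := h (g * t * g⁻¹) ((hmem _).2 (by simpa [mul_assoc] using ht))
        calc θ t (θ g⁻¹ v) = θ g⁻¹ (θ (g * t * g⁻¹) v) := by
              rw [← θcomp, ← θcomp]; congr 2; group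
          _ = _ := by rw [h2]
      rw [← h1, ← θcomp, mul_inv_cancel, map_one]
      rfl
  by_contra hnot
  -- a Sylow subgroup of `K` which does not centralize `V`
  obtain ⟨r, hr, P₀, hP₀⟩ : ∃ r : ℕ, ∃ (_ : r.Prime), ∃ P₀ : Sylow r ↥K,
      ¬ (P₀ : Subgroup ↥K).map K.subtype ≤ Subgroup.centralizer (V : Set N) := by
    by_contra hall
    push Not at hall
    apply hnot
    have hdvd : Nat.card ↥K ∣ Nat.card ↥(K ⊓ Subgroup.centralizer (V : Set N)) := by
      refine Nat.dvd_iff_prime_pow_dvd_dvd _ _ |>.2 fun r k hr hk => ?_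
      haveI : Fact r.Prime := ⟨hr⟩
      obtain ⟨P⟩ : Nonempty (Sylow r ↥K) := inferInstance
      have h1 : Nat.card ↥((P : Subgroup ↥K).map K.subtype) ∣
          Nat.card ↥(K ⊓ Subgroup.centralizer (V : Set N)) :=
        Subgroup.card_dvd_of_le (le_inf (Subgroup.map_subtype_le _) (hall r hr P))
      rw [Subgroup.card_map_of_injective K.subtype_injective] at h1
      exact (P.pow_dvd_card_of_pow_dvd_card hk).trans h1
    exact inf_eq_left.1 (Subgroup.eq_of_le_of_card_ge inf_le_left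
      (Nat.le_of_dvd Nat.card_pos hdvd))
  haveI : Fact r.Prime := ⟨hr⟩
  let P : Subgroup N := (P₀ : Subgroup ↥K).map K.subtype
  have hPp : IsPGroup r ↥P := P₀.isPGroup'.map _
  have hPK : P ≤ K := Subgroup.map_subtype_le _
  have hVp : IsPGroup 2 ↥V := IsPGroup.of_card (n := 8) (hcard.trans (by norm_num))
  have hr2 : r ≠ 2 := by
    rintro rfl
    have h2 : IsPGroup 2 ↥(P ⊔ V) := hPp.to_sup_of_normal_right hVp
    obtain ⟨m, hm⟩ := IsPGroup.iff_card.1 h2
    have hle : P ⊔ V ≤ K := sup_le hPK hV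
    have hdvd : 2 ^ m ∣ 256 := by
      have := Subgroup.card_dvd_of_le hle
      rw [hm, hd] at this
      exact (((Nat.prime_two.coprime_iff_not_dvd).2 hdodd).pow_left m).dvd_of_dvd_mul_right this
    have : V = P ⊔ V := Subgroup.eq_of_le_of_card_ge le_sup_right
      (by rw [hcard, hm]; exact Nat.le_of_dvd (by norm_num) hdvd)
    refine hP₀ ((le_sup_left.trans this.ge).trans fun u hu v hv => ?_)
    exact congrArg (fun x : ↥V => (x : N)) (mul_comm ⟨v, hv⟩ ⟨u, hu⟩)
  have hrodd : Odd r := hr.odd_of_ne_two hr2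
  let L : Subgroup N := Subgroup.normalizer ((P ⊔ V : Subgroup N) : Set N)
  have hnorm : Subgroup.normalizer (P : Set N) ≤ L := by
    intro g hg
    rw [Subgroup.mem_normalizer_iff] at hg
    have key : ∀ a : N, (∀ h, h ∈ P → a * h * a⁻¹ ∈ P) →
        ∀ x, x ∈ P ⊔ V → a * x * a⁻¹ ∈ P ⊔ V := by
      intro a ha x hx
      obtain ⟨p, hp, u, hu, rfl⟩ := Subgroup.mem_sup_of_normal_right.1 hx
      rw [show a * (p * u) * a⁻¹ = (a * p * a⁻¹) * (a * u * a⁻¹) by group]
      exact Subgroup.mul_mem_sup (ha p hp) (Subgroup.Normal.conj_mem inferInstance u hu a)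
    rw [Subgroup.mem_normalizer_iff]
    refine fun x => ⟨key g (fun h hh => (hg h).1 hh) x, fun hx => ?_⟩
    have := key g⁻¹ (fun h hh => (hg _).2 (by simpa [mul_assoc] using hh)) _ hx
    simpa [mul_assoc] using this
  have hVL : V ≤ L := le_sup_right.trans Subgroup.le_normalizer
  have hLK : L ⊔ K = ⊤ := top_le_iff.1
    ((Sylow.normalizer_sup_eq_top P₀).ge.trans (sup_le_sup_right hnorm K))
  have hLidx : ¬ 2 ∣ L.index := by
    intro h
    have h1 := card_sup_mul L K
    rw [hLK, Subgroup.card_top, ← Subgroup.card_mul_index L, hd] at h1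
    obtain ⟨e, he⟩ := Subgroup.card_dvd_of_le (le_inf hVL hV : V ≤ L ⊓ K)
    rw [he, hcard] at h1
    have h2 : L.index * e = d := Nat.eq_of_mul_eq_mul_left
      (show 0 < Nat.card ↥L * 256 by positivity [Nat.card_pos (α := ↥L)]) (by linear_combination h1)
    exact hdodd (h.trans (Dvd.intro _ h2))
  obtain ⟨T', hT'⟩ := sylow_le_of_odd_index L hLidx
  -- conjugates of the action of `P`
  have hLP : ∀ l ∈ L, ∀ p ∈ P, ∃ p' ∈ P, θ (l * p * l⁻¹) = θ p' := by
    intro l hl p hp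
    have := (Subgroup.mem_normalizer_iff.1 hl p).1 (Subgroup.mem_sup_left hp)
    obtain ⟨p', hp', u, hu, he⟩ := Subgroup.mem_sup_of_normal_right.1 this
    exact ⟨p', hp', by rw [← he, map_mul, θV u hu, mul_one]⟩
  let C : Subgroup ↥V :=
    { carrier := {v | ∀ p ∈ P, θ p v = v}
      one_mem' := fun p _ => map_one _
      mul_mem' := fun {a b} ha hb p hp => by rw [map_mul, ha p hp, hb p hp]
      inv_mem' := fun {a} ha p hp => by rw [map_inv, ha p hp] }
  have hC : ∀ v : ↥V, v ∈ C ↔ ∀ p ∈ P, θ p v = v := fun v => Iff.rfl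
  let J : Subgroup ↥V := Subgroup.closure {x | ∃ p ∈ P, ∃ v, x = θ p v * v⁻¹}
  have hCinv : ∀ l ∈ L, ∀ v ∈ C, θ l v ∈ C := by
    intro l hl v hv p hp
    obtain ⟨p', hp', he⟩ := hLP l⁻¹ (inv_mem hl) p hp
    calc θ p (θ l v) = θ l (θ (l⁻¹ * p * l⁻¹⁻¹) v) := by
          rw [← θcomp, ← θcomp]; congr 2; group
      _ = θ l v := by rw [he, hv p' hp']
  have hJinv : ∀ l ∈ L, ∀ v ∈ J, θ l v ∈ J := by
    intro l hl v hv
    have : J ≤ J.comap (θ l).toMonoidHom := by
      rw [Subgroup.closure_le]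
      rintro x ⟨p, hp, w, rfl⟩
      obtain ⟨p', hp', he⟩ := hLP l hl p hp
      refine Subgroup.subset_closure ⟨p', hp', θ l w, ?_⟩
      change θ l (θ p w * w⁻¹) = _
      rw [map_mul, map_inv, ← he, ← θcomp, ← θcomp]
      congr 3
      group
    exact this hv
  -- a Sylow 2-subgroup has a fixed point on every invariant subgroup
  have hfixed : ∀ X : Subgroup ↥V, (∀ t ∈ T', ∀ v ∈ X, θ t v ∈ X) → X ≠ ⊥ →
      ∃ v ∈ X, v ≠ 1 ∧ ∀ t ∈ T', θ t v = v := by
    intro X hX hne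
    letI : MulAction ↥(T' : Subgroup N) ↥X :=
      { smul := fun t x => ⟨θ (t : N) x, hX t t.2 x x.2⟩
        one_smul := fun x => Subtype.ext (by
          change θ ((1 : ↥(T' : Subgroup N)) : N) x = x
          rw [OneMemClass.coe_one, map_one]; rfl)
        mul_smul := fun s t x => Subtype.ext (θcomp s t x) }
    have h2 : 2 ∣ Nat.card ↥X := by
      obtain ⟨m, hm⟩ := IsPGroup.iff_card.1 (hVp.to_subgroup X)
      rcases Nat.eq_zero_or_pos m with rfl | hpos
      · exact absurd (Subgroup.card_eq_one.1 (hm.trans (pow_zero 2))) hne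
      · exact hm ▸ dvd_pow_self 2 hpos.ne'
    have h1 : (1 : ↥X) ∈ MulAction.fixedPoints ↥(T' : Subgroup N) ↥X := fun t =>
      Subtype.ext (map_one (θ (t : N)))
    obtain ⟨b, hb, hb1⟩ := T'.isPGroup'.exists_fixed_point_of_prime_dvd_card_of_fixed_point
      ↥X h2 h1
    exact ⟨b, b.2, fun e => hb1 (Subtype.ext e.symm), fun t ht =>
      congrArg Subtype.val (hb ⟨t, ht⟩)⟩
  haveI : Fintype ↥P := Fintype.ofFinite _
  let e : ↥V →* ↥V :=
    { toFun := fun v => ∏ p : ↥P, θ (p : N) v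
      map_one' := by simp
      map_mul' := fun a b => by simp [Finset.prod_mul_distrib] }
  have hJe : J ≤ e.ker := by
    rw [Subgroup.closure_le]
    rintro x ⟨p, hp, v, rfl⟩
    have : e (θ p v) = e v := by
      change ∏ q : ↥P, θ (q : N) (θ p v) = ∏ q : ↥P, θ (q : N) v
      refine Fintype.prod_equiv (Equiv.mulRight (⟨p, hp⟩ : ↥P)) _ _ fun q => ?_
      rw [← θcomp]; rfl
    rw [SetLike.mem_coe, MonoidHom.mem_ker, map_mul, map_inv, this, mul_inv_cancel]
  have hPodd : Odd (Nat.card ↥P) := by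
    obtain ⟨m, hm⟩ := IsPGroup.iff_card.1 hPp
    exact hm ▸ hrodd.pow
  have hCe : ∀ v ∈ C, e v = v := by
    intro v hv
    change ∏ q : ↥P, θ (q : N) v = v
    rw [Finset.prod_congr rfl (fun (q : ↥P) _ => hv q q.2), Finset.prod_const, Finset.card_univ,
      ← Nat.card_eq_fintype_card]
    obtain ⟨k, hk⟩ := hPodd
    have hv2 : v * v = 1 := Subtype.ext (hexp v v.2)
    rw [hk, pow_succ, pow_mul, pow_two, hv2, one_pow, one_mul]
  have hPnc : ∃ p ∈ P, ∃ v, θ p v ≠ v := by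
    by_contra hall
    push Not at hall
    exact hP₀ fun p hp v hv => ((θfix p ⟨v, hv⟩).1 (hall p hp _)).symm
  have hJne : J ≠ ⊥ := by
    obtain ⟨p, hp, v, hv⟩ := hPnc
    intro hJ
    have : θ p v * v⁻¹ ∈ J := Subgroup.subset_closure ⟨p, hp, v, rfl⟩
    rw [hJ, Subgroup.mem_bot, mul_inv_eq_one] at this
    exact hv this
  have hCbot : C = ⊥ := by
    by_contra hne
    obtain ⟨v0, -, -, huniq⟩ := hfixT T'
    obtain ⟨a, haC, ha1, ha⟩ := hfixed C (fun t ht v hv => hCinv t (hT' ht) v hv) hne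
    obtain ⟨b, hbJ, hb1, hb⟩ := hfixed J (fun t ht v hv => hJinv t (hT' ht) v hv) hJne
    have hab : b = a := (huniq b hb1 hb).trans (huniq a ha1 ha).symm
    have := hJe hbJ
    rw [MonoidHom.mem_ker, hab, hCe a haC] at this
    exact ha1 this
  -- the prime `r` divides 255
  have hr255 : r = 3 ∨ r = 5 ∨ r = 17 := by
    letI : MulAction ↥P ↥V :=
      { smul := fun p v => θ (p : N) v
        one_smul := fun v => by
          change θ ((1 : ↥P) : N) v = v
          rw [OneMemClass.coe_one, map_one]; rfl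
        mul_smul := fun p q v => θcomp p q v }
    have hone : Nat.card ↑(MulAction.fixedPoints ↥P ↥V) = 1 := by
      rw [Nat.card_eq_one_iff_unique]
      refine ⟨⟨fun a b => ?_⟩, ⟨⟨1, fun p => map_one (θ (p : N))⟩⟩⟩
      have hmem : ∀ c : ↑(MulAction.fixedPoints ↥P ↥V), (c : ↥V) = 1 := fun c =>
        Subgroup.mem_bot.1 (hCbot ▸ ((hC _).2 fun p hp => c.2 ⟨p, hp⟩))
      exact Subtype.ext ((hmem a).trans (hmem b).symm)
    have := (hPp.card_modEq_card_fixedPoints ↥V).symm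
    rw [hone, hcard, Nat.modEq_iff_dvd' (by norm_num)] at this
    have hmem : r ∈ Nat.divisors 255 := Nat.mem_divisors.2 ⟨this, by norm_num⟩
    rw [show Nat.divisors 255 = {1, 3, 5, 15, 17, 51, 85, 255} by decide +kernel] at hmem
    simp only [Finset.mem_insert, Finset.mem_singleton] at hmem
    rcases hmem with rfl | rfl | rfl | rfl | rfl | rfl | rfl | rfl <;>
      first | omega | (exfalso; revert hr; norm_num)
  let Pb : Subgroup (MulAut ↥V) := P.map θ
  have hPbp : IsPGroup r ↥Pb := hPp.map θ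
  obtain ⟨n, hn⟩ := IsPGroup.iff_card.1 hPbp
  have hn6 : n < 6 := pow_bound hr255 (by
    rw [← hn, ← card_gl8]
    exact (Subgroup.card_subgroup_dvd_card Pb).trans
      (card_mulAut_dvd (fun v => Subtype.ext (hexp v v.2)) hcard))
  have hPbL : ∀ l ∈ L, ∀ a ∈ Pb, θ l * a * (θ l)⁻¹ ∈ Pb := by
    rintro l hl a ⟨p, hp, rfl⟩
    obtain ⟨p', hp', he⟩ := hLP l hl p hp
    exact ⟨p', hp', by rw [← he, map_mul, map_mul, map_inv]⟩
  -- a 7-element of `L` over an element of order seven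
  obtain ⟨y, hyL, hy⟩ : ∃ y ∈ L, ψ y = seven := by
    obtain ⟨g, hg⟩ := hψ seven
    obtain ⟨l, hl, k, hk, rfl⟩ := Subgroup.mem_sup_of_normal_right.1
      (hLK ▸ Subgroup.mem_top g : g ∈ L ⊔ K)
    exact ⟨l, hl, by rwa [map_mul, hk, mul_one] at hg⟩
  let m := orderOf y / 7 ^ (orderOf y).factorization 7
  let z := y ^ m
  have hzL : z ∈ L := pow_mem hyL m
  have hseven : Fact (Nat.Prime 7) := ⟨by norm_num⟩
  have hm7 : ¬ 7 ∣ m := Nat.not_dvd_ordCompl hseven.out (orderOf_pos y).ne'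
  have hz : z ^ (7 ^ (orderOf y).factorization 7) = 1 := by
    rw [← pow_mul, mul_comm, Nat.ordProj_mul_ordCompl_eq_self, pow_orderOf_eq_one]
  have hψz : ψ z ≠ 1 := by
    rw [map_pow, hy]
    intro h
    have h7 : orderOf seven = 7 := orderOf_eq_prime seven_pow seven_ne
    exact hm7 (h7 ▸ orderOf_dvd_of_pow_eq_one h)
  have hzcomm : ∀ a ∈ Pb, θ z * a = a * θ z := by
    let Z7 : Subgroup N := Subgroup.zpowers z
    have hZ7p : IsPGroup 7 ↥Z7 := by
      have h1 : Nat.card ↥Z7 ∣ 7 ^ (orderOf y).factorization 7 := by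
        rw [Nat.card_zpowers]
        exact orderOf_dvd_of_pow_eq_one hz
      exact IsPGroup.of_card_dvd_pow h1
    have hZ7L : Z7 ≤ L := Subgroup.zpowers_le.2 hzL
    letI : MulAction ↥Z7 ↥Pb :=
      { smul := fun x a => ⟨θ (x : N) * a * (θ (x : N))⁻¹, hPbL _ (hZ7L x.2) a a.2⟩
        one_smul := fun a => Subtype.ext (by
          change θ ((1 : ↥Z7) : N) * a * (θ ((1 : ↥Z7) : N))⁻¹ = a
          simp)
        mul_smul := fun x x' a => Subtype.ext (by
          change θ ((x * x' : ↥Z7) : N) * a * (θ ((x * x' : ↥Z7) : N))⁻¹ =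
            θ (x : N) * (θ (x' : N) * a * (θ (x' : N))⁻¹) * (θ (x : N))⁻¹
          simp [mul_assoc]) }
    let F : Subgroup (MulAut ↥V) := Pb ⊓ Subgroup.centralizer ((Z7.map θ : Subgroup _) : Set _)
    have hF : Nat.card ↑(MulAction.fixedPoints ↥Z7 ↥Pb) = Nat.card ↥F := by
      have hto : ∀ a : ↑(MulAction.fixedPoints ↥Z7 ↥Pb), ((a : ↥Pb) : MulAut ↥V) ∈ F := by
        intro a
        refine ⟨(a : ↥Pb).2, ?_⟩
        rintro _ ⟨x, hx, rfl⟩
        exact mul_inv_eq_iff_eq_mul.1 (congrArg Subtype.val (a.2 ⟨x, hx⟩))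
      refine Nat.card_congr
        { toFun := fun a => ⟨_, hto a⟩
          invFun := fun a => ⟨⟨a, a.2.1⟩, fun x => Subtype.ext
            (mul_inv_eq_iff_eq_mul.2 (a.2.2 _ ⟨x, x.2, rfl⟩))⟩
          left_inv := fun _ => rfl
          right_inv := fun _ => rfl }
    obtain ⟨k, hk⟩ := IsPGroup.iff_card.1 (hPbp.to_le (inf_le_left : F ≤ Pb))
    have hkn : k ≤ n := (Nat.pow_le_pow_iff_right hr.one_lt).1
      (hk ▸ hn ▸ Nat.le_of_dvd Nat.card_pos (Subgroup.card_dvd_of_le inf_le_left))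
    have hmod := hZ7p.card_modEq_card_fixedPoints ↥Pb
    rw [hF, hn, hk] at hmod
    have hnk := pow_mod_seven hr255 hn6 (lt_of_le_of_lt hkn hn6) hmod
    have hFP : F = Pb := Subgroup.eq_of_le_of_card_ge inf_le_left (by rw [hn, hk, hnk])
    intro a ha
    exact (hFP.ge ha).2 _ ⟨z, Subgroup.mem_zpowers z, rfl⟩
  -- the centralizer of the image of `P` in `L`
  let CP : Subgroup N := L ⊓ (Subgroup.centralizer (Pb : Set (MulAut ↥V))).comap θ
  have hCPL : CP ≤ L := inf_le_left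
  have hCPn : (CP.subgroupOf L).Normal := by
    constructor
    intro x hx l
    refine ⟨(l * x * l⁻¹).2, ?_⟩
    intro a ha
    have h1 := hPbL (l : N)⁻¹ (inv_mem l.2) a ha
    have h2 := hx.2 _ h1
    rw [map_inv] at h2
    change a * θ ((l : N) * x * (l : N)⁻¹) = θ ((l : N) * x * (l : N)⁻¹) * a
    rw [map_mul, map_mul, map_inv]
    calc a * (θ (l : N) * θ (x : N) * (θ (l : N))⁻¹)
        = θ (l : N) * (((θ (l : N))⁻¹ * a * (θ (l : N))⁻¹⁻¹) * θ (x : N)) * (θ (l : N))⁻¹ := by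
          group
      _ = θ (l : N) * (θ (x : N) * ((θ (l : N))⁻¹ * a * (θ (l : N))⁻¹⁻¹)) * (θ (l : N))⁻¹ :=
          congrArg (fun w => θ (l : N) * w * (θ (l : N))⁻¹) h2
      _ = _ := by group
  let Y : Subgroup GL3 := CP.map ψ
  haveI : Y.Normal := by
    constructor
    rintro _ ⟨x, hx, rfl⟩ g
    obtain ⟨g', rfl⟩ := hψ g
    obtain ⟨l, hl, k, hk, rfl⟩ := Subgroup.mem_sup_of_normal_right.1
      (hLK ▸ Subgroup.mem_top g' : g' ∈ L ⊔ K)
    refine ⟨l * x * l⁻¹, hCPn.conj_mem ⟨x, hCPL hx⟩ hx ⟨l, hl⟩, ?_⟩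
    rw [map_mul, map_mul, map_inv, map_mul, hk, mul_one]
  have hzCP : z ∈ CP := ⟨hzL, fun a ha => (hzcomm a ha).symm⟩
  have h8 := hasU_card (normal_hasU Y ⟨z, hzCP, rfl⟩ hψz)
  have hVCP : V ≤ CP := le_inf hVL fun v hv a _ => by rw [θV v hv, mul_one, one_mul]
  have h11 : 2 ^ 11 ∣ Nat.card ↥CP := by
    have h1 := Subgroup.card_mul_index ((ψ.comp CP.subtype).ker)
    rw [Subgroup.index_ker, MonoidHom.range_comp, Subgroup.range_subtype] at h1
    rw [← h1]
    have h2 : 256 ∣ Nat.card ↥(ψ.comp CP.subtype).ker := by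
      rw [← hcard, ← Nat.card_congr (Subgroup.subgroupOfEquivOfLe hVCP).toEquiv]
      exact Subgroup.card_dvd_of_le fun v hv => hV hv
    rw [show (2 : ℕ) ^ 11 = 256 * 8 by norm_num]
    exact mul_dvd_mul h2 h8
  have hCPidx : ¬ 2 ∣ CP.index := by
    intro h
    apply T.not_dvd_index
    have h1 : 2 ^ 11 * CP.index ∣ Nat.card N :=
      Subgroup.card_mul_index CP ▸ mul_dvd_mul_right h11 _
    have h2 : Nat.card ↥(T : Subgroup N) * 2 ∣ Nat.card N :=
      (mul_dvd_mul hTcard h).trans h1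
    rw [← Subgroup.card_mul_index (T : Subgroup N)] at h2
    exact (Nat.mul_dvd_mul_iff_left Nat.card_pos).1 h2
  obtain ⟨T'', hT''⟩ := sylow_le_of_odd_index CP hCPidx
  obtain ⟨v0, hv01, hv0, huniq⟩ := hfixT T''
  have hv0C : v0 ∈ C := by
    intro p hp
    refine huniq _ (fun e => hv01 ((θ p).injective (e.trans (map_one (θ p)).symm))) fun t ht => ?_
    have h1 := (hT'' ht).2 (θ p) ⟨p, hp, rfl⟩
    calc θ t (θ p v0) = (θ t * θ p) v0 := rfl
      _ = (θ p * θ t) v0 := by rw [h1]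
      _ = θ p (θ t v0) := rfl
      _ = θ p v0 := by rw [hv0 t ht]
  exact hv01 (Subgroup.mem_bot.1 (hCbot ▸ hv0C))

end

end Cfsg.Agent.RuType
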