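import Mathlib

/-!
# 2-groups of the Rudvalis shape

`S` is a finite 2-group of order at least `2 ^ 14` with `|Z₄(S)| = 16`, `W = C_S(Z₃(S))`,
`|Φ(W)| ≤ 8` and `Φ(W)` lies in every subgroup of index at most 16 of `W`.
-/

set_option autoImplicit false
set_option linter.style.haveILetI false
set_option linter.unusedSectionVars false

open scoped Classical
open scoped commutatorElement

namespace Cfsg.Agent.RuType

variable {S : Type*} [Group S]

/-- The subgroup generated by the squares of `U`. -/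
def sqCl (U : Subgroup S) : Subgroup S := Subgroup.closure ((fun u => u * u) '' (U : Set S))

theorem sq_mem_sqCl {U : Subgroup S} {u : S} (hu : u ∈ U) : u * u ∈ sqCl U :=
  Subgroup.subset_closure ⟨u, hu, rfl⟩

theorem sqCl_le {U D : Subgroup S} (h : ∀ u ∈ U, u * u ∈ D) : sqCl U ≤ D :=
  (Subgroup.closure_le D).2 (by rintro _ ⟨u, hu, rfl⟩; exact h u hu)

theorem sqCl_le_self (U : Subgroup S) : sqCl U ≤ U := sqCl_le fun _ hu => mul_mem hu hu

theorem comm_mem_sqCl {U : Subgroup S} {a b : S} (ha : a ∈ U) (hb : b ∈ U) :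
    a * b * a⁻¹ * b⁻¹ ∈ sqCl U := by
  have h := mul_mem (mul_mem (sq_mem_sqCl (mul_mem ha hb)) (sq_mem_sqCl (inv_mem hb)))
    (inv_mem (sq_mem_sqCl (mul_mem (mul_mem hb ha) (inv_mem hb))))
  rwa [show a * b * (a * b) * (b⁻¹ * b⁻¹) * (b * a * b⁻¹ * (b * a * b⁻¹))⁻¹ =
    a * b * a⁻¹ * b⁻¹ by group] at h

theorem exists_avoid [Finite S] (U : Subgroup S) {z : S} (hz : z ∈ U) (hzD : z ∉ sqCl U) :
    ∃ M : Subgroup S, sqCl U ≤ M ∧ M ≤ U ∧ z ∉ M ∧ ∀ x ∈ U, x ∈ M ∨ z⁻¹ * x ∈ M := by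
  obtain ⟨M, hM⟩ := Set.Finite.exists_maximal
    (Set.toFinite {M : Subgroup S | sqCl U ≤ M ∧ M ≤ U ∧ z ∉ M})
    ⟨sqCl U, le_rfl, sqCl_le_self U, hzD⟩
  obtain ⟨hDM, hMU, hzM⟩ := hM.prop
  refine ⟨M, hDM, hMU, hzM, fun x hx => ?_⟩
  by_contra hcon
  push Not at hcon
  have hnorm : ∀ u ∈ U, ∀ m ∈ M, u * m * u⁻¹ ∈ M := by
    intro u hu m hm
    have := mul_mem (hDM (comm_mem_sqCl hu (hMU hm))) hm
    simpa [mul_assoc] using this
  let M1 : Subgroup S :=
    { carrier := {y | y ∈ U ∧ (y ∈ M ∨ x⁻¹ * y ∈ M)}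
      one_mem' := ⟨one_mem U, Or.inl (one_mem M)⟩
      mul_mem' := by
        rintro a b ⟨ha, ha'⟩ ⟨hb, hb'⟩
        refine ⟨mul_mem ha hb, ?_⟩
        rcases ha' with ha' | ha' <;> rcases hb' with hb' | hb'
        · exact Or.inl (mul_mem ha' hb')
        · refine Or.inr ?_
          have := mul_mem (hnorm x⁻¹ (inv_mem hx) a ha') hb'
          simpa [mul_assoc] using this
        · exact Or.inr (by simpa [mul_assoc] using mul_mem ha' hb')
        · refine Or.inl ?_
          have := mul_mem (mul_mem (hnorm x hx _ ha') (hDM (sq_mem_sqCl hx))) hb'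
          simpa [mul_assoc] using this
      inv_mem' := by
        rintro a ⟨ha, ha'⟩
        refine ⟨inv_mem ha, ?_⟩
        rcases ha' with ha' | ha'
        · exact Or.inl (inv_mem ha')
        · refine Or.inr ?_
          have := mul_mem (hDM (sq_mem_sqCl (inv_mem hx))) (hnorm x hx _ (inv_mem ha'))
          simpa [mul_assoc] using this }
  have hle : M ≤ M1 := fun m hm => ⟨hMU hm, Or.inl hm⟩
  have hxM1 : x ∈ M1 := ⟨hx, Or.inr (by simp)⟩
  have hzM1 : z ∈ M1 := by
    by_contra hz1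
    exact hcon.1 (hM.le_of_ge (⟨hDM.trans hle, fun _ hy => hy.1, hz1⟩ :
      M1 ∈ {M : Subgroup S | sqCl U ≤ M ∧ M ≤ U ∧ z ∉ M}) hle hxM1)
  rcases hzM1.2 with h | h
  · exact hzM h
  · refine hcon.2 ?_
    have h2 := hnorm x hx _ (inv_mem h)
    have h3 := hnorm z⁻¹ (inv_mem hz) _ h2
    have h4 : x * (x⁻¹ * z)⁻¹ * x⁻¹ = x * z⁻¹ := by group
    rw [h4] at h3
    simpa [mul_assoc] using h3

theorem card_le_two_mul [Finite S] {U M : Subgroup S} (z : S) (hz : z ∈ U) (hMU : M ≤ U)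
    (h : ∀ x ∈ U, x ∈ M ∨ z⁻¹ * x ∈ M) : Nat.card ↥U ≤ 2 * Nat.card ↥M := by
  let f : Bool × ↥M → ↥U := fun p => bif p.1 then ⟨z * p.2.1, mul_mem hz (hMU p.2.2)⟩
    else ⟨p.2.1, hMU p.2.2⟩
  have hf : Function.Surjective f := by
    rintro ⟨x, hx⟩
    rcases h x hx with hm | hm
    · exact ⟨(false, ⟨x, hm⟩), rfl⟩
    · exact ⟨(true, ⟨_, hm⟩), Subtype.ext (mul_inv_cancel_left z x)⟩
  refine (Nat.card_le_card_of_surjective f hf).trans (le_of_eq ?_)
  simp [Nat.card_prod]

theorem two_mul_card_le [Finite S] {H K : Subgroup S} (h : H < K) :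
    2 * Nat.card ↥H ≤ Nat.card ↥K := by
  obtain ⟨c, hc⟩ := Subgroup.card_dvd_of_le h.le
  rcases c with _ | _ | c
  · rw [mul_zero] at hc
    exact absurd hc Nat.card_pos.ne'
  · exact absurd (Subgroup.eq_of_le_of_card_ge h.le (by omega)) h.ne
  · rw [hc, mul_comm 2]
    exact Nat.mul_le_mul_left _ (by omega)

/-- Transitions out of `A` inside a normal subgroup. -/
theorem exists_transition [Group.IsNilpotent S] {N : Subgroup S} [N.Normal] {A : Subgroup S}
    (hNA : ¬ N ≤ A) : ∃ x ∈ N, x ∉ A ∧ ∀ y, ⁅x, y⁆ ∈ A := by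
  obtain ⟨n, hn⟩ := Subgroup.nilpotent_iff_lowerCentralSeries.1 (inferInstance : Group.IsNilpotent S)
  by_contra hcon
  push Not at hcon
  have key : ∀ i, ∃ x ∈ N, x ∈ (⊤ : Subgroup S).lowerCentralSeries i ∧ x ∉ A := by
    intro i
    induction i with
    | zero =>
      obtain ⟨x, hx, hxA⟩ := SetLike.not_le_iff_exists.1 hNA
      exact ⟨x, hx, by simp, hxA⟩
    | succ i ih =>
      obtain ⟨x, hxN, hxi, hxA⟩ := ih
      obtain ⟨y, hy⟩ := hcon x hxN hxA
      refine ⟨⁅x, y⁆, ?_, ?_, hy⟩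
      · rw [commutatorElement_def]
        have := mul_mem hxN (Subgroup.Normal.conj_mem inferInstance _ (inv_mem hxN) y)
        simpa [mul_assoc] using this
      · rw [Subgroup.lowerCentralSeries_succ]
        exact Subgroup.commutator_mem_commutator hxi (Subgroup.mem_top y)
  obtain ⟨x, -, hx, hxA⟩ := key n
  rw [hn, Subgroup.mem_bot] at hx
  exact hxA (hx ▸ one_mem A)

/-- The hypotheses on the 2-group. -/
structure Shape (S : Type*) [Group S] : Prop where
  finite : Finite S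
  two : IsPGroup 2 S
  ha : 2 ^ 14 ≤ Nat.card S
  hb : Nat.card ↥(Subgroup.upperCentralSeries S 4) = 16
  hc : Nat.card ↥(frattini ↥(Subgroup.centralizer
    ((Subgroup.upperCentralSeries S 3 : Subgroup S) : Set S))) ≤ 8
  hd : ∀ U : Subgroup ↥(Subgroup.centralizer
    ((Subgroup.upperCentralSeries S 3 : Subgroup S) : Set S)), U.index ≤ 16 →
      frattini ↥(Subgroup.centralizer
        ((Subgroup.upperCentralSeries S 3 : Subgroup S) : Set S)) ≤ U

/-- The upper central series. -/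
abbrev zc (S : Type*) [Group S] (i : ℕ) : Subgroup S := Subgroup.upperCentralSeries S i

/-- The centralizer of the third centre. -/
abbrev wSub (S : Type*) [Group S] : Subgroup S := Subgroup.centralizer (zc S 3 : Set S)

namespace Shape

variable (h : Shape S)
include h

theorem nilpotent : Group.IsNilpotent S :=
  haveI := h.finite
  haveI : Fact (Nat.Prime 2) := ⟨Nat.prime_two⟩
  h.two.isNilpotent

theorem zc_lt {i : ℕ} (hi : i < 4) : zc S i < zc S (i + 1) := by
  haveI := h.finite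
  haveI := h.nilpotent
  refine lt_of_le_of_ne (Subgroup.upperCentralSeries_mono S (Nat.le_succ i)) fun he => ?_
  have hne : ¬ (⊤ : Subgroup S) ≤ zc S i := by
    intro ht
    have h4 : (⊤ : Subgroup S) ≤ zc S 4 :=
      ht.trans (Subgroup.upperCentralSeries_mono S (by omega))
    have := h.ha
    rw [← Subgroup.card_top (G := S), top_le_iff.1 h4 |>.symm, h.hb] at this
    norm_num at this
  obtain ⟨x, -, hx, hy⟩ := exists_transition hne
  exact hx (he ▸ Subgroup.mem_upperCentralSeries_succ_iff.2 hy)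

theorem card_zc {i : ℕ} (hi : i ≤ 4) : Nat.card ↥(zc S i) = 2 ^ i := by
  haveI := h.finite
  have h0 : Nat.card ↥(zc S 0) = 1 := by
    show Nat.card ↥(Subgroup.upperCentralSeries S 0) = 1
    rw [Subgroup.upperCentralSeries_zero S, Subgroup.card_bot]
  have h1 := two_mul_card_le (h.zc_lt (i := 0) (by omega))
  have h2 := two_mul_card_le (h.zc_lt (i := 1) (by omega))
  have h3 := two_mul_card_le (h.zc_lt (i := 2) (by omega))
  have h4 := two_mul_card_le (h.zc_lt (i := 3) (by omega))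
  have h5 : Nat.card ↥(zc S 4) = 16 := h.hb
  simp only [Nat.zero_add, Nat.reduceAdd] at h1 h2 h3 h4
  interval_cases i <;> omega

theorem mem_succ_cases {i : ℕ} (hi : i < 4) {g : S} (hg : g ∈ zc S (i + 1)) (hg' : g ∉ zc S i)
    {x : S} (hx : x ∈ zc S (i + 1)) : x ∈ zc S i ∨ g⁻¹ * x ∈ zc S i := by
  haveI := h.finite
  have hle := Subgroup.upperCentralSeries_mono S (Nat.le_succ i)
  have h1 := Subgroup.card_mul_index ((zc S i).subgroupOf (zc S (i + 1)))
  rw [Nat.card_congr (Subgroup.subgroupOfEquivOfLe hle).toEquiv, h.card_zc (by omega),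
    h.card_zc (by omega), pow_succ] at h1
  have h2 : ((zc S i).subgroupOf (zc S (i + 1))).index = 2 :=
    Nat.eq_of_mul_eq_mul_left (pow_pos two_pos i) h1
  have := Subgroup.mul_mem_iff_of_index_two h2 (a := ⟨g, hg⟩⁻¹) (b := ⟨x, hx⟩)
  simp only [Subgroup.mem_subgroupOf, InvMemClass.coe_inv, MulMemClass.coe_mul, inv_mem_iff,
    iff_false_left, hg', false_iff] at this
  tauto

theorem normal_le_zc (n : ℕ) (N : Subgroup S) [hN : N.Normal] (hcard : Nat.card ↥N ≤ 2 ^ n) :
    N ≤ zc S n := by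
  haveI := h.finite
  haveI := h.nilpotent
  induction n generalizing N with
  | zero =>
    have : N = ⊥ := Subgroup.eq_bot_of_card_le N (by simpa using hcard)
    simp [this]
  | succ n ih =>
    intro x hx
    rw [Subgroup.mem_upperCentralSeries_succ_iff]
    have hle : ⁅N, (⊤ : Subgroup S)⁆ ≤ N := Subgroup.commutator_le_left N ⊤
    have hcn : Nat.card ↥⁅N, (⊤ : Subgroup S)⁆ ≤ 2 ^ n := by
      rcases eq_or_ne N ⊥ with rfl | hne
      · rw [Subgroup.commutator_bot_left, Subgroup.card_bot]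
        exact Nat.one_le_two_pow
      · have hlt : ⁅N, (⊤ : Subgroup S)⁆ < N := by
          refine lt_of_le_of_ne hle fun he => hne ?_
          obtain ⟨m, hm⟩ := Subgroup.nilpotent_iff_lowerCentralSeries.1
            (inferInstance : Group.IsNilpotent S)
          refine le_bot_iff.1 (hm ▸ ?_)
          clear hm
          induction m with
          | zero => simp
          | succ m im =>
            rw [← he, Subgroup.lowerCentralSeries_succ]
            exact Subgroup.commutator_mono im le_rfl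
        have := two_mul_card_le hlt
        rw [pow_succ] at hcard
        omega
    exact fun y => ih _ hcn (Subgroup.commutator_mem_commutator hx (Subgroup.mem_top y))

theorem W_normal : (wSub S).Normal := by
  constructor
  intro w hw s
  rw [Subgroup.mem_centralizer_iff] at hw ⊢
  intro z hz
  have h1 : s⁻¹ * z * s ∈ zc S 3 := by
    simpa using (inferInstance : (zc S 3).Normal).conj_mem z hz s⁻¹
  have h2 := hw _ h1
  calc z * (s * w * s⁻¹) = s * (s⁻¹ * z * s * w) * s⁻¹ := by group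
    _ = s * (w * (s⁻¹ * z * s)) * s⁻¹ := by rw [h2]
    _ = s * w * s⁻¹ * z := by group

theorem zc_one_comm {g : S} (hg : g ∈ zc S 1) (x : S) : g * x = x * g := by
  have := Subgroup.mem_upperCentralSeries_succ_iff.1 (show g ∈ zc S (0 + 1) from hg) x
  rw [Subgroup.upperCentralSeries_zero S, Subgroup.mem_bot, commutatorElement_eq_one_iff_mul_comm] at this
  exact this

/-- A basis of the third centre adapted to the series. -/
structure Frame (g1 g2 g3 : S) : Prop where
  m1 : g1 ∈ zc S 1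
  n1 : g1 ≠ 1
  m2 : g2 ∈ zc S 2
  n2 : g2 ∉ zc S 1
  m3 : g3 ∈ zc S 3
  n3 : g3 ∉ zc S 2

theorem exists_frame : ∃ g1 g2 g3 : S, Shape.Frame g1 g2 g3 := by
  haveI := h.finite
  obtain ⟨g1, m1, n1⟩ := SetLike.exists_of_lt (h.zc_lt (i := 0) (by omega))
  obtain ⟨g2, m2, n2⟩ := SetLike.exists_of_lt (h.zc_lt (i := 1) (by omega))
  obtain ⟨g3, m3, n3⟩ := SetLike.exists_of_lt (h.zc_lt (i := 2) (by omega))
  refine ⟨g1, g2, g3, m1, ?_, m2, n2, m3, n3⟩
  simpa [Subgroup.upperCentralSeries_zero S] using n1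

theorem zc1_cases {g1 g2 g3 : S} (hf : Shape.Frame g1 g2 g3) {x : S} (hx : x ∈ zc S 1) :
    x = 1 ∨ x = g1 := by
  have h0 : zc S 0 = ⊥ := rfl
  have := h.mem_succ_cases (i := 0) (by omega) hf.m1 (by rw [h0]; simpa using hf.n1) hx
  rcases this with h' | h' <;> rw [h0, Subgroup.mem_bot] at h'
  · exact Or.inl h'
  · exact Or.inr (inv_mul_eq_one.1 h').symm

theorem centralize_frame {g1 g2 g3 : S} (hf : Shape.Frame g1 g2 g3) {s : S}
    (h2 : s * g2 = g2 * s) (h3 : s * g3 = g3 * s) : s ∈ wSub S := by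
  rw [Subgroup.mem_centralizer_iff]
  intro z hz
  have e1 : ∀ y ∈ zc S 1, y * s = s * y := fun y hy => h.zc_one_comm hy s
  have e2 : ∀ y ∈ zc S 2, y * s = s * y := by
    intro y hy
    rcases h.mem_succ_cases (i := 1) (by omega) hf.m2 hf.n2 hy with h' | h'
    · exact e1 y h'
    · have := e1 _ h'
      calc y * s = g2 * (g2⁻¹ * y * s) := by group
        _ = g2 * (s * (g2⁻¹ * y)) := by rw [this]
        _ = (g2 * s) * (g2⁻¹ * y) := by group
        _ = (s * g2) * (g2⁻¹ * y) := by rw [h2]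
        _ = s * y := by group
  rcases h.mem_succ_cases (i := 2) (by omega) hf.m3 hf.n3 hz with h' | h'
  · exact e2 z h'
  · have := e2 _ h'
    calc z * s = g3 * (g3⁻¹ * z * s) := by group
      _ = g3 * (s * (g3⁻¹ * z)) := by rw [this]
      _ = (g3 * s) * (g3⁻¹ * z) := by group
      _ = (s * g3) * (g3⁻¹ * z) := by rw [h3]
      _ = s * z := by group

/-- The action of a coset of `W` on the frame. -/
noncomputable def actMap (g2 g3 : S) (hm2 : g2 ∈ zc S 2) (hm3 : g3 ∈ zc S 3) (q : S ⧸ wSub S) :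
    ↥(zc S 1) × ↥(zc S 2) :=
  (⟨⁅g2, q.out⁆, Subgroup.mem_upperCentralSeries_succ_iff.1 hm2 _⟩,
    ⟨⁅g3, q.out⁆, Subgroup.mem_upperCentralSeries_succ_iff.1 hm3 _⟩)

theorem actMap_injective {g1 g2 g3 : S} (hf : Shape.Frame g1 g2 g3) :
    Function.Injective (actMap g2 g3 hf.m2 hf.m3) := by
  intro p q hpq
  simp only [actMap, Prod.mk.injEq, Subtype.mk.injEq, commutatorElement_def] at hpq
  obtain ⟨e2, e3⟩ := hpq
  rw [← QuotientGroup.out_eq' p, ← QuotientGroup.out_eq' q, QuotientGroup.eq]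
  have key : ∀ g : S, g * p.out * g⁻¹ * p.out⁻¹ = g * q.out * g⁻¹ * q.out⁻¹ →
      p.out⁻¹ * q.out * g = g * (p.out⁻¹ * q.out) := by
    intro g hg
    have h2 : p.out * g⁻¹ * p.out⁻¹ = q.out * g⁻¹ * q.out⁻¹ := by
      simpa [mul_assoc] using hg
    have h3 : q.out * g * q.out⁻¹ = p.out * g * p.out⁻¹ := by
      have := congrArg (fun x => x⁻¹) h2
      simpa [mul_assoc] using this.symm
    calc p.out⁻¹ * q.out * g = p.out⁻¹ * (q.out * g * q.out⁻¹) * q.out := by group
      _ = p.out⁻¹ * (p.out * g * p.out⁻¹) * q.out := by rw [h3]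
      _ = g * (p.out⁻¹ * q.out) := by group
  exact h.centralize_frame hf (key g2 e2) (key g3 e3)

theorem card_quot_le : Nat.card (S ⧸ wSub S) ≤ 8 := by
  haveI := h.finite
  obtain ⟨g1, g2, g3, hf⟩ := h.exists_frame
  refine (Nat.card_le_card_of_injective _ (h.actMap_injective hf)).trans (le_of_eq ?_)
  rw [Nat.card_prod, h.card_zc (by omega), h.card_zc (by omega)]
  norm_num

theorem card_S_eq : Nat.card S = Nat.card (S ⧸ wSub S) * Nat.card ↥(wSub S) :=
  Subgroup.card_eq_card_quotient_mul_card_subgroup _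

/-- The Frattini subgroup of `W`. -/
theorem phi_spec : ∃ P : Subgroup S, P = (frattini ↥(wSub S)).map (wSub S).subtype ∧
    P = sqCl (wSub S) ∧ P.Normal ∧ P ≤ wSub S ∧ Nat.card ↥P ≤ 8 ∧ P ≠ wSub S := by
  haveI := h.finite
  haveI := h.W_normal
  haveI := h.nilpotent
  refine ⟨_, rfl, ?_, ?_, Subgroup.map_subtype_le _, ?_, ?_⟩
  · refine le_antisymm ?_ ?_
    · rintro _ ⟨z, hz, rfl⟩
      by_contra hzD
      obtain ⟨M, -, hMU, hzM, hM⟩ := exists_avoid (wSub S) z.2 hzD
      have hne : M.subgroupOf (wSub S) ≠ ⊤ := fun he => hzM (by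
        have := Subgroup.subgroupOf_eq_top.1 he z.2
        exact this)
      obtain ⟨K, hK, hMK⟩ := (eq_top_or_exists_le_coatom _).resolve_left hne
      refine hK.1 (eq_top_iff.2 fun x _ => ?_)
      have hzK : z ∈ K := frattini_le_coatom hK hz
      rcases hM x x.2 with hx | hx
      · exact hMK hx
      · have h2 : z⁻¹ * x ∈ K := hMK (by
          rw [Subgroup.mem_subgroupOf]; simpa using hx)
        simpa using mul_mem hzK h2
    · refine sqCl_le fun w hw => ⟨⟨w, hw⟩ * ⟨w, hw⟩, ?_, rfl⟩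
      show (⟨w, hw⟩ * ⟨w, hw⟩ : ↥(wSub S)) ∈ frattini ↥(wSub S)
      rw [frattini, Order.radical]
      simp only [Subgroup.mem_iInf]
      intro K hK
      haveI : Group.IsNilpotent ↥(wSub S) :=
        haveI : Fact (Nat.Prime 2) := ⟨Nat.prime_two⟩
        (h.two.to_subgroup _).isNilpotent
      haveI hKn : K.Normal :=
        Subgroup.NormalizerCondition.normal_of_coatom K Group.normalizerCondition_of_isNilpotent hK
      by_contra hwK
      have hw' : (⟨w, hw⟩ : ↥(wSub S)) ∉ K := fun hh => hwK (mul_mem hh hh)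
      set u : ↥(wSub S) := ⟨w, hw⟩
      have htop : K ⊔ Subgroup.zpowers (u * u) = ⊤ :=
        hK.2 _ (lt_of_le_of_ne le_sup_left fun he =>
          hwK (he ▸ Subgroup.mem_sup_right (Subgroup.mem_zpowers _)))
      have humem : u ∈ K ⊔ Subgroup.zpowers (u * u) := htop ▸ Subgroup.mem_top u
      obtain ⟨k, hk, y, hy, hky⟩ := Subgroup.mem_sup_of_normal_left.1 humem
      obtain ⟨i, rfl⟩ := Subgroup.mem_zpowers_iff.1 hy
      have hodd : u ^ (1 - 2 * i) ∈ K := by
        have : u ^ (1 - 2 * i) = k := by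
          rw [zpow_sub, zpow_one, zpow_mul, zpow_two]
          exact mul_inv_eq_of_eq_mul hky.symm
        rwa [this]
      obtain ⟨e, he⟩ := (h.two.to_subgroup (wSub S)) u
      have hcop : IsCoprime (1 - 2 * i) ((2 : ℤ) ^ e) := by
        refine IsCoprime.pow_right ⟨1, i, by ring⟩
      obtain ⟨a, b, hab⟩ := hcop
      apply hw'
      have hu1 : u ^ ((2 : ℤ) ^ e) = 1 := by
        rw [show ((2 : ℤ) ^ e) = ((2 ^ e : ℕ) : ℤ) by norm_num, zpow_natCast, he]
      have hu2 : u = (u ^ (1 - 2 * i)) ^ a := by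
        calc u = u ^ (a * (1 - 2 * i) + b * 2 ^ e) := by rw [hab, zpow_one]
          _ = (u ^ (1 - 2 * i)) ^ a := by
            rw [zpow_add, mul_comm b, zpow_mul _ _ b, hu1, one_zpow, mul_one, mul_comm, zpow_mul]
      rw [hu2]
      exact zpow_mem hodd a
  · exact ConjAct.normal_of_characteristic_of_normal
  · rw [Subgroup.card_map_of_injective (wSub S).subtype_injective]
    exact h.hc
  · intro he
    have hbig : 2 < Nat.card ↥(wSub S) := by
      have h1 := h.card_S_eq
      have h2 := h.card_quot_le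
      have h3 := h.ha
      by_contra hle
      push Not at hle
      have := Nat.mul_le_mul h2 hle
      omega
    have htop : frattini ↥(wSub S) = ⊤ := by
      apply Subgroup.map_injective (wSub S).subtype_injective
      rw [he, ← MonoidHom.range_eq_map, Subgroup.range_subtype]
    rcases eq_top_or_exists_le_coatom (⊥ : Subgroup ↥(wSub S)) with hb | ⟨K, hK, -⟩
    · have : Nat.card ↥(wSub S) = 1 := by
        rw [← Subgroup.card_top, ← hb, Subgroup.card_bot]
      omega
    · exact hK.1 (top_le_iff.1 (htop ▸ frattini_le_coatom hK))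

theorem main_cards : sqCl (wSub S) = zc S 3 ∧ Nat.card ↥(wSub S) = 2 ^ 11 ∧
    Nat.card (S ⧸ wSub S) = 8 ∧ zc S 3 ≤ wSub S := by
  haveI := h.finite
  haveI := h.W_normal
  haveI := h.nilpotent
  obtain ⟨P, -, hPsq, hPn, hPle, hP8, hPne⟩ := h.phi_spec
  obtain ⟨k, hk⟩ := (IsPGroup.iff_card (G := ↥P)).1 (h.two.to_subgroup P)
  have hk3 : k ≤ 3 := by
    by_contra hk4
    push Not at hk4
    have := Nat.pow_le_pow_right two_pos hk4
    omega
  have hPk : P = zc S k := Subgroup.eq_of_le_of_card_ge (h.normal_le_zc k P (le_of_eq hk))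
    (by rw [h.card_zc (by omega), hk])
  have hWP : ¬ wSub S ≤ P := fun hle => hPne (le_antisymm hPle hle)
  obtain ⟨x, hxW, hxP, hxc⟩ := exists_transition (N := wSub S) hWP
  rw [hPk] at hxc
  have hxk : x ∈ zc S (k + 1) := Subgroup.mem_upperCentralSeries_succ_iff.2 hxc
  obtain ⟨M, hDM, hMW, hxM, hM⟩ := exists_avoid (wSub S) hxW (hPsq ▸ hxP)
  have hnorm : ∀ v ∈ wSub S, ∀ m ∈ M, v * m * v⁻¹ ∈ M := by
    intro v hv m hm
    simpa [mul_assoc] using mul_mem (hDM (comm_mem_sqCl hv (hMW hm))) hm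
  let f : ↥(wSub S) → (S ⧸ wSub S → Bool) := fun w q => decide (q.out⁻¹ * w.1 * q.out ∈ M)
  let K : Subgroup S := M.normalCore
  have hPK : P ≤ K := (Subgroup.normal_le_normalCore).2 (hPsq ▸ hDM)
  have hKP : K ≤ P := by
    by_contra hne
    obtain ⟨y, hyK, hyP, hyc⟩ := exists_transition (N := K) hne
    rw [hPk] at hyP hyc
    have hyk : y ∈ zc S (k + 1) := Subgroup.mem_upperCentralSeries_succ_iff.2 hyc
    have hgy := (h.mem_succ_cases (by omega) hxk (hPk ▸ hxP) hyk).resolve_left hyP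
    have h2 : x⁻¹ * y ∈ M := M.normalCore_le (hPK (hPk ▸ hgy))
    have h3 : y ∈ M := M.normalCore_le hyK
    exact hxM (by simpa using mul_mem h3 (inv_mem h2))
  have hbound : Nat.card ↥(wSub S) ≤ 2 ^ Nat.card (S ⧸ wSub S) * Nat.card ↥P := by
    haveI : Fintype (S ⧸ wSub S) := Fintype.ofFinite _
    haveI : Fintype ↥(wSub S) := Fintype.ofFinite _
    have hfib : ∀ b ∈ Finset.univ.image f,
        (Finset.univ.filter (fun w => f w = b)).card ≤ Nat.card ↥P := by
      intro b hb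
      obtain ⟨w0, -, rfl⟩ := Finset.mem_image.1 hb
      have hmem : ∀ w : ↥(wSub S), f w = f w0 → w0.1⁻¹ * w.1 ∈ P := by
        intro w hw
        apply hKP
        intro s
        have hs : s * (w0.1⁻¹ * w.1) * s⁻¹ ∈ M := by
          set q : S ⧸ wSub S := ((s⁻¹ : S) : S ⧸ wSub S)
          have hv : q.out⁻¹ * s⁻¹ ∈ wSub S := by
            rw [← QuotientGroup.eq, QuotientGroup.out_eq']
          have hval := congrFun hw q
          simp only [f, decide_eq_decide] at hval
          have hin : q.out⁻¹ * (w0.1⁻¹ * w.1) * q.out ∈ M := by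
            have a1 : q.out⁻¹ * w.1 * q.out ∈ wSub S := by
              simpa using h.W_normal.conj_mem _ w.2 q.out⁻¹
            have a0 : q.out⁻¹ * w0.1 * q.out ∈ wSub S := by
              simpa using h.W_normal.conj_mem _ w0.2 q.out⁻¹
            by_cases hc : q.out⁻¹ * w.1 * q.out ∈ M
            · simpa [mul_assoc] using mul_mem (inv_mem (hval.1 hc)) hc
            · have c1 := (hM _ a1).resolve_left hc
              have c0 := (hM _ a0).resolve_left (fun hh => hc (hval.2 hh))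
              simpa [mul_assoc] using mul_mem (inv_mem c0) c1
          have := hnorm _ (inv_mem hv) _ hin
          simpa [mul_assoc] using this
        exact hs
      rw [← Nat.card_eq_finsetCard]
      exact Nat.card_le_card_of_injective
        (fun w => ⟨w0.1⁻¹ * w.1.1, hmem w.1 (Finset.mem_filter.1 w.2).2⟩)
        (fun a b hab => Subtype.ext (Subtype.ext (mul_left_cancel (Subtype.ext_iff.1 hab))))
    calc Nat.card ↥(wSub S) = (Finset.univ : Finset ↥(wSub S)).card := by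
          rw [Nat.card_eq_fintype_card, Finset.card_univ]
      _ ≤ Nat.card ↥P * (Finset.univ.image f).card :=
          Finset.card_le_mul_card_image _ _ hfib
      _ ≤ Nat.card ↥P * 2 ^ Nat.card (S ⧸ wSub S) := by
          refine Nat.mul_le_mul_left _ ((Finset.card_le_univ _).trans (le_of_eq ?_))
          rw [Fintype.card_fun, Fintype.card_bool, Nat.card_eq_fintype_card]
      _ = _ := mul_comm _ _
  have hq := h.card_quot_le
  have hS := h.card_S_eq
  have ha := h.ha
  rw [hk] at hbound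
  have hb1 : Nat.card ↥(wSub S) ≤ 2 ^ 8 * 2 ^ k :=
    hbound.trans (Nat.mul_le_mul_right _ (Nat.pow_le_pow_right two_pos hq))
  have hk' : k = 3 := by
    by_contra hk'
    have h2 : (2 : ℕ) ^ k ≤ 4 := by
      have := Nat.pow_le_pow_right two_pos (show k ≤ 2 by omega)
      omega
    have := Nat.mul_le_mul hq (hb1.trans (Nat.mul_le_mul_left _ h2))
    omega
  rw [hk'] at hb1 hPk
  norm_num at hb1 ha
  have hW11 : Nat.card ↥(wSub S) = 2048 := by
    have := Nat.mul_le_mul_right (Nat.card ↥(wSub S)) hq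
    omega
  refine ⟨hPsq ▸ hPk, by rw [hW11]; norm_num, ?_, hPk ▸ hPle⟩
  rw [hW11] at hS
  omega

theorem zc3_le : zc S 3 ≤ wSub S := h.main_cards.2.2.2

theorem central {z w : S} (hz : z ∈ zc S 3) (hw : w ∈ wSub S) : z * w = w * z :=
  Subgroup.mem_centralizer_iff.1 hw z hz

theorem sq_mem {w : S} (hw : w ∈ wSub S) : w * w ∈ zc S 3 :=
  h.main_cards.1 ▸ sq_mem_sqCl hw

theorem le_of_index {U : Subgroup S} (hU : U ≤ wSub S)
    (hc : Nat.card ↥(wSub S) ≤ 16 * Nat.card ↥U) : zc S 3 ≤ U := by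
  haveI := h.finite
  obtain ⟨P, hP, hPsq, -, -, -, -⟩ := h.phi_spec
  have hidx : (U.subgroupOf (wSub S)).index ≤ 16 := by
    have h1 := Subgroup.card_mul_index (U.subgroupOf (wSub S))
    rw [Nat.card_congr (Subgroup.subgroupOfEquivOfLe hU).toEquiv] at h1
    rw [← h1, mul_comm] at hc
    exact Nat.le_of_mul_le_mul_right hc Nat.card_pos
  have h2 := Subgroup.map_mono (f := (wSub S).subtype) (h.hd _ hidx)
  rw [Subgroup.subgroupOf_map_subtype, inf_eq_left.2 hU] at h2
  rw [← h.main_cards.1, ← hPsq, hP]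
  exact h2

theorem le_sqCl {U : Subgroup S} (hU : U ≤ wSub S)
    (hc : Nat.card ↥(wSub S) ≤ 8 * Nat.card ↥(U ⊔ zc S 3)) :
    zc S 3 ≤ sqCl (U ⊔ zc S 3) := by
  haveI := h.finite
  intro z hz
  by_contra hzD
  obtain ⟨M, -, hMU, hzM, hM⟩ := exists_avoid (U ⊔ zc S 3) (Subgroup.mem_sup_right hz) hzD
  have h2 := card_le_two_mul z (Subgroup.mem_sup_right hz) hMU hM
  exact hzM (h.le_of_index (hMU.trans (sup_le hU h.zc3_le)) (by omega) hz)

theorem elementary : (∀ a ∈ zc S 3, ∀ b ∈ zc S 3, a * b = b * a) ∧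
    ∀ a ∈ zc S 3, a * a = 1 := by
  haveI := h.finite
  haveI := h.W_normal
  have hab : ∀ a ∈ zc S 3, ∀ b ∈ zc S 3, a * b = b * a :=
    fun a ha b hb => h.central ha (h.zc3_le hb)
  refine ⟨hab, ?_⟩
  have hbr : ∀ a ∈ wSub S, ∀ b ∈ wSub S, a * b * (a * b) * (a * b * (a * b)) =
      a * a * (a * a) * (b * b * (b * b)) := by
    intro a ha b hb
    have hd : a * b * a⁻¹ * b⁻¹ ∈ zc S 3 := h.main_cards.1 ▸ comm_mem_sqCl ha hb
    set d := a * b * a⁻¹ * b⁻¹ with hdd
    have e1 : a * b = d * b * a := by rw [hdd]; group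
    have hd2 : d * d = 1 := by
      have h1 : a * (b * b) = b * b * a := (h.central (h.sq_mem hb) ha).symm
      have h2 : a * (b * b) = d * d * (b * b) * a := by
        calc a * (b * b) = (a * b) * b := by group
          _ = d * b * a * b := by rw [e1]
          _ = d * b * (a * b) := by group
          _ = d * b * (d * b * a) := by rw [e1]
          _ = d * (b * d) * b * a := by group
          _ = d * (d * b) * b * a := by rw [h.central hd hb]
          _ = _ := by group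
      rw [h1] at h2
      have := mul_right_cancel h2
      exact (mul_eq_right.1 this.symm)
    have hsq : a * b * (a * b) = a * a * (b * b) * d := by
      have e2 : b * a = d * a * b := by
        calc b * a = d⁻¹ * (d * b * a) := by group
          _ = d⁻¹ * (a * b) := by rw [e1]
          _ = d * a * b := by
            rw [inv_eq_of_mul_eq_one_right hd2]; group
      calc a * b * (a * b) = a * (b * a) * b := by group
        _ = a * (d * a * b) * b := by rw [e2]
        _ = (a * d) * a * (b * b) := by group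
        _ = (d * a) * a * (b * b) := by rw [h.central hd ha]
        _ = d * (a * a * (b * b)) := by group
        _ = _ := hab _ hd _ (mul_mem (h.sq_mem ha) (h.sq_mem hb))
    rw [hsq]
    have A := hab _ (h.sq_mem ha) _ (h.sq_mem hb)
    have B := hab _ hd _ (mul_mem (h.sq_mem ha) (h.sq_mem hb))
    set p := a * a
    set q := b * b
    calc p * q * d * (p * q * d) = p * q * (d * (p * q)) * d := by group
      _ = p * q * (p * q * d) * d := by rw [B]
      _ = p * (q * p) * q * (d * d) := by group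
      _ = p * (p * q) * q * 1 := by rw [← A, hd2]
      _ = p * p * (q * q) := by group
  let φ : ↥(wSub S) →* S := MonoidHom.mk' (fun a => a.1 * a.1 * (a.1 * a.1))
    (fun a b => by simpa using hbr a.1 a.2 b.1 b.2)
  let E : Subgroup S :=
    { carrier := {x | x ∈ zc S 3 ∧ x * x = 1}
      one_mem' := ⟨one_mem _, one_mul 1⟩
      mul_mem' := by
        rintro x y ⟨hx, hx'⟩ ⟨hy, hy'⟩
        refine ⟨mul_mem hx hy, ?_⟩
        calc x * y * (x * y) = x * (y * x) * y := by group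
          _ = x * (x * y) * y := by rw [hab y hy x hx]
          _ = (x * x) * (y * y) := by group
          _ = 1 := by rw [hx', hy', one_mul]
      inv_mem' := by
        rintro x ⟨hx, hx'⟩
        exact ⟨inv_mem hx, by rw [← mul_inv_rev, hx', inv_one]⟩ }
  let D : Subgroup S :=
    { carrier := {x | ∃ e ∈ E, ∃ w ∈ zc S 3, x = e * (w * w)}
      one_mem' := ⟨1, one_mem E, 1, one_mem _, by simp⟩
      mul_mem' := by
        rintro x y ⟨e, he, w, hw, rfl⟩ ⟨e', he', w', hw', rfl⟩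
        refine ⟨e * e', mul_mem he he', w * w', mul_mem hw hw', ?_⟩
        rw [mul_assoc w w', ← mul_assoc w' w w', hab w' hw' w hw]
        have := hab (w * w) (mul_mem hw hw) e' he'.1
        calc e * (w * w) * (e' * (w' * w')) = e * ((w * w) * e') * (w' * w') := by group
          _ = e * (e' * (w * w)) * (w' * w') := by rw [this]
          _ = _ := by group
      inv_mem' := by
        rintro x ⟨e, he, w, hw, rfl⟩
        refine ⟨e⁻¹, inv_mem he, w⁻¹, inv_mem hw, ?_⟩
        rw [hab e⁻¹ (inv_mem he.1) _ (mul_mem (inv_mem hw) (inv_mem hw))]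
        group }
  have hrange : φ.range ≤ zc S 3 := by
    rintro _ ⟨a, rfl⟩
    exact mul_mem (h.sq_mem a.2) (h.sq_mem a.2)
  have hker : Nat.card ↥(wSub S) ≤ 8 * Nat.card ↥(φ.ker.map (wSub S).subtype) := by
    rw [Subgroup.card_map_of_injective (wSub S).subtype_injective,
      ← Subgroup.card_mul_index φ.ker, Subgroup.index_ker, mul_comm]
    refine Nat.mul_le_mul_right _ ?_
    exact (Subgroup.card_le_of_le hrange).trans (le_of_eq (h.card_zc (i := 3) (by omega)))
  have hUW : φ.ker.map (wSub S).subtype ≤ wSub S := Subgroup.map_subtype_le _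
  have hsup : Nat.card ↥(wSub S) ≤ 8 * Nat.card ↥(φ.ker.map (wSub S).subtype ⊔ zc S 3) :=
    hker.trans (Nat.mul_le_mul_left _ (Subgroup.card_le_of_le le_sup_left))
  haveI : (zc S 3).Normal := inferInstance
  have h2 : ∀ u ∈ φ.ker.map (wSub S).subtype ⊔ zc S 3, u * u ∈ D := by
    intro u hu
    obtain ⟨v, hv, z, hz, rfl⟩ := Subgroup.mem_sup_of_normal_right.1 hu
    obtain ⟨v', hv', rfl⟩ := hv
    have hv4 : v'.1 * v'.1 * (v'.1 * v'.1) = 1 := hv'
    refine ⟨v'.1 * v'.1, ⟨h.sq_mem v'.2, hv4⟩, z, hz, ?_⟩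
    have hc := h.central hz v'.2
    simp only [Subgroup.coe_subtype]
    calc v'.1 * z * (v'.1 * z) = v'.1 * (z * v'.1) * z := by group
      _ = v'.1 * (v'.1 * z) * z := by rw [hc]
      _ = _ := by group
  have hD : ∀ a ∈ zc S 3, ∃ e ∈ E, ∃ w ∈ zc S 3, a = e * (w * w) :=
    fun a ha => (sqCl_le h2) (h.le_sqCl hUW hsup ha)
  intro a ha
  obtain ⟨e, he, w, hw, rfl⟩ := hD a ha
  obtain ⟨e', he', u, hu, rfl⟩ := hD w hw
  obtain ⟨e'', he'', t, ht, rfl⟩ := hD u hu
  have hsq : ∀ f ∈ E, ∀ y ∈ zc S 3, f * y * (f * y) = y * y := by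
    intro f hf y hy
    calc f * y * (f * y) = f * (y * f) * y := by group
      _ = f * (f * y) * y := by rw [hab y hy f hf.1]
      _ = (f * f) * (y * y) := by group
      _ = y * y := by rw [hf.2, one_mul]
  have ht8 : t ^ 8 = 1 := by
    have := pow_card_eq_one' (x := (⟨t, ht⟩ : ↥(zc S 3)))
    rw [h.card_zc (by omega)] at this
    simpa [Subtype.ext_iff] using this
  have e1 := hsq e'' he'' _ (mul_mem ht ht)
  rw [e1]
  have e2 := hsq e' he' _ (mul_mem (mul_mem ht ht) (mul_mem ht ht))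
  rw [e2]
  rw [show t * t * (t * t) * (t * t * (t * t)) = t ^ 8 by simp [pow_succ, mul_assoc], ht8, mul_one]
  exact he.2

theorem comm_eq : (commutator ↥(wSub S)).map (wSub S).subtype = zc S 3 := by
  haveI := h.finite
  obtain ⟨hab, hsq⟩ := h.elementary
  set C := (commutator ↥(wSub S)).map (wSub S).subtype with hC
  have hcm : ∀ a ∈ wSub S, ∀ b ∈ wSub S, a * b * a⁻¹ * b⁻¹ ∈ C := by
    intro a ha b hb
    refine ⟨⁅(⟨a, ha⟩ : ↥(wSub S)), ⟨b, hb⟩⁆, ?_, rfl⟩
    rw [commutator_def]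
    exact Subgroup.commutator_mem_commutator (Subgroup.mem_top _) (Subgroup.mem_top _)
  have hCW : C ≤ zc S 3 := by
    rw [hC, Subgroup.map_le_iff_le_comap, commutator_def, Subgroup.commutator_le]
    intro a _ b _
    rw [Subgroup.mem_comap, ← h.main_cards.1]
    exact comm_mem_sqCl a.2 b.2
  refine le_antisymm hCW ?_
  let U : Subgroup S :=
    { carrier := {w | w ∈ wSub S ∧ w * w ∈ C}
      one_mem' := ⟨one_mem _, by simp⟩
      mul_mem' := by
        rintro a b ⟨ha, ha'⟩ ⟨hb, hb'⟩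
        refine ⟨mul_mem ha hb, ?_⟩
        have h3 := hcm b hb a ha
        have h4 := hab _ (hCW h3) _ (h.sq_mem hb)
        have h5 := h.central (hCW h3) ha
        have e : a * b * (a * b) = a * a * (b * b) * (b * a * b⁻¹ * a⁻¹) := by
          set d := b * a * b⁻¹ * a⁻¹ with hd
          have e1 : b * a = d * a * b := by rw [hd]; group
          calc a * b * (a * b) = a * (b * a) * b := by group
            _ = a * (d * a * b) * b := by rw [e1]
            _ = (a * d) * a * (b * b) := by group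
            _ = (d * a) * a * (b * b) := by rw [h5]
            _ = d * (a * a * (b * b)) := by group
            _ = _ := hab _ (hCW h3) _ (mul_mem (h.sq_mem ha) (h.sq_mem hb))
        rw [e]
        exact mul_mem (mul_mem ha' hb') h3
      inv_mem' := by
        rintro a ⟨ha, ha'⟩
        exact ⟨inv_mem ha, by simpa using inv_mem ha'⟩ }
  have hUW : U ≤ wSub S := fun _ hx => hx.1
  have hZU : zc S 3 ≤ U := fun z hz => ⟨h.zc3_le hz, by rw [hsq z hz]; exact one_mem C⟩
  have hcard : Nat.card ↥(wSub S) ≤ 8 * Nat.card ↥(U ⊔ zc S 3) := by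
    haveI : Fintype ↥(wSub S) := Fintype.ofFinite _
    let g : ↥(wSub S) → ↥(zc S 3) := fun w => ⟨w.1 * w.1, h.sq_mem w.2⟩
    have hfib : ∀ b ∈ Finset.univ.image g,
        (Finset.univ.filter (fun w => g w = b)).card ≤ Nat.card ↥U := by
      intro b hb
      obtain ⟨w0, -, rfl⟩ := Finset.mem_image.1 hb
      rw [← Nat.card_eq_finsetCard]
      have hmem : ∀ w : ↥(wSub S), g w = g w0 → w0.1⁻¹ * w.1 ∈ U := by
        intro w hw
        have hw' : w.1 * w.1 = w0.1 * w0.1 := congrArg Subtype.val hw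
        refine ⟨mul_mem (inv_mem w0.2) w.2, ?_⟩
        have h3 := hcm w.1 w.2 w0.1⁻¹ (inv_mem w0.2)
        have e : w0.1⁻¹ * w.1 * (w0.1⁻¹ * w.1) =
            w0.1⁻¹ * (w.1 * w0.1⁻¹ * w.1⁻¹ * w0.1⁻¹⁻¹) * w0.1⁻¹ * (w.1 * w.1) := by group
        rw [e, hw', show w0.1⁻¹ * (w.1 * w0.1⁻¹ * w.1⁻¹ * w0.1⁻¹⁻¹) * w0.1⁻¹ * (w0.1 * w0.1)
          = w0.1⁻¹ * (w.1 * w0.1⁻¹ * w.1⁻¹ * w0.1⁻¹⁻¹) * w0.1 by group,
          mul_assoc, h.central (hCW h3) w0.2, inv_mul_cancel_left]
        exact h3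
      exact Nat.card_le_card_of_injective
        (fun w => ⟨w0.1⁻¹ * w.1.1, hmem w.1 (Finset.mem_filter.1 w.2).2⟩)
        (fun a b hab' => Subtype.ext (Subtype.ext (mul_left_cancel (Subtype.ext_iff.1 hab'))))
    calc Nat.card ↥(wSub S) = (Finset.univ : Finset ↥(wSub S)).card := by
          rw [Nat.card_eq_fintype_card, Finset.card_univ]
      _ ≤ Nat.card ↥U * (Finset.univ.image g).card := Finset.card_le_mul_card_image _ _ hfib
      _ ≤ Nat.card ↥U * 8 := by
          refine Nat.mul_le_mul_left _ ?_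
          rw [← Nat.card_eq_finsetCard]
          refine (Finite.card_subtype_le _).trans (le_of_eq ?_)
          exact h.card_zc (i := 3) (by omega)
      _ ≤ _ := by
          rw [mul_comm]
          exact Nat.mul_le_mul_left _ (Subgroup.card_le_of_le le_sup_left)
  have hle := h.le_sqCl hUW hcard
  rw [sup_eq_left.2 hZU] at hle
  exact hle.trans (sqCl_le fun u hu => hu.2)

/-- `g ^ a` for `a : ZMod 2`. -/
def pw (g : S) (a : ZMod 2) : S := if a = 0 then 1 else g

theorem pw_mem {K : Subgroup S} {g : S} (hg : g ∈ K) (a : ZMod 2) : pw g a ∈ K := by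
  unfold pw
  split
  exacts [one_mem K, hg]

theorem pw_add {g : S} (hg : g * g = 1) : ∀ a b : ZMod 2, pw g (a + b) = pw g a * pw g b := by
  intro a b
  have h01 : ∀ x : ZMod 2, x = 0 ∨ x = 1 := by decide
  rcases h01 a with rfl | rfl <;> rcases h01 b with rfl | rfl <;>
    simp [pw, hg, show (1 : ZMod 2) + 1 = 0 from rfl]

theorem frame_mem {g1 g2 g3 : S} (hf : Shape.Frame g1 g2 g3) :
    g1 ∈ zc S 3 ∧ g2 ∈ zc S 3 ∧ g3 ∈ zc S 3 :=
  ⟨Subgroup.upperCentralSeries_mono S (show 1 ≤ 3 by omega) hf.m1,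
    Subgroup.upperCentralSeries_mono S (show 2 ≤ 3 by omega) hf.m2, hf.m3⟩

/-- The element with given coordinates. -/
def vec (g1 g2 g3 : S) (v : Fin 3 → ZMod 2) : S := pw g1 (v 0) * pw g2 (v 1) * pw g3 (v 2)

theorem vec_mem {g1 g2 g3 : S} (hf : Shape.Frame g1 g2 g3) (v : Fin 3 → ZMod 2) :
    vec g1 g2 g3 v ∈ zc S 3 :=
  mul_mem (mul_mem (pw_mem h (h.frame_mem hf).1 _) (pw_mem h (h.frame_mem hf).2.1 _))
    (pw_mem h (h.frame_mem hf).2.2 _)

theorem vec_add {g1 g2 g3 : S} (hf : Shape.Frame g1 g2 g3) (u v : Fin 3 → ZMod 2) :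
    vec g1 g2 g3 (u + v) = vec g1 g2 g3 u * vec g1 g2 g3 v := by
  obtain ⟨hab, hsq⟩ := h.elementary
  obtain ⟨e1, e2, e3⟩ := h.frame_mem hf
  simp only [vec, Pi.add_apply, pw_add h (hsq _ e1), pw_add h (hsq _ e2), pw_add h (hsq _ e3)]
  have c1 := hab _ (pw_mem h e1 (v 0)) _
    (mul_mem (pw_mem h e2 (u 1)) (pw_mem h e3 (u 2)))
  have c2 := hab _ (pw_mem h e2 (v 1)) _ (pw_mem h e3 (u 2))
  calc pw g1 (u 0) * pw g1 (v 0) * (pw g2 (u 1) * pw g2 (v 1)) * (pw g3 (u 2) * pw g3 (v 2))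
      = pw g1 (u 0) * (pw g1 (v 0) * pw g2 (u 1)) * (pw g2 (v 1) * pw g3 (u 2)) * pw g3 (v 2) := by
        group
    _ = pw g1 (u 0) * (pw g1 (v 0) * pw g2 (u 1)) * (pw g3 (u 2) * pw g2 (v 1)) * pw g3 (v 2) := by
        rw [c2]
    _ = pw g1 (u 0) * (pw g1 (v 0) * (pw g2 (u 1) * pw g3 (u 2))) * pw g2 (v 1) * pw g3 (v 2) := by
        group
    _ = pw g1 (u 0) * ((pw g2 (u 1) * pw g3 (u 2)) * pw g1 (v 0)) * pw g2 (v 1) * pw g3 (v 2) := by
        rw [c1]
    _ = _ := by group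

theorem vec_bijective {g1 g2 g3 : S} (hf : Shape.Frame g1 g2 g3) :
    Function.Bijective (fun v => (⟨vec g1 g2 g3 v, h.vec_mem hf v⟩ : ↥(zc S 3))) := by
  haveI := h.finite
  have hsurj : Function.Surjective
      (fun v => (⟨vec g1 g2 g3 v, h.vec_mem hf v⟩ : ↥(zc S 3))) := by
    rintro ⟨z, hz⟩
    have e1 : ∀ y ∈ zc S 1, ∃ a, y = pw g1 a := by
      intro y hy
      rcases h.zc1_cases hf hy with rfl | rfl
      · exact ⟨0, by simp [pw]⟩
      · exact ⟨1, by simp [pw]⟩
    have e2 : ∀ y ∈ zc S 2, ∃ a b, y = pw g1 a * pw g2 b := by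
      intro y hy
      rcases h.mem_succ_cases (i := 1) (by omega) hf.m2 hf.n2 hy with h' | h'
      · obtain ⟨a, ha⟩ := e1 _ h'
        exact ⟨a, 0, by simp [pw, ha]⟩
      · obtain ⟨a, ha⟩ := e1 _ h'
        refine ⟨a, 1, ?_⟩
        have hy' : y = g2 * pw g1 a := by rw [← ha, mul_inv_cancel_left]
        rw [hy', h.elementary.1 _ (h.frame_mem hf).2.1 _ (pw_mem h (h.frame_mem hf).1 a)]
        simp [pw]
    rcases h.mem_succ_cases (i := 2) (by omega) hf.m3 hf.n3 hz with h' | h'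
    · obtain ⟨a, b, hab⟩ := e2 _ h'
      refine ⟨![a, b, 0], Subtype.ext ?_⟩
      show pw g1 a * pw g2 b * pw g3 0 = z
      rw [hab, show pw g3 0 = (1 : S) from if_pos rfl, mul_one]
    · obtain ⟨a, b, hab⟩ := e2 _ h'
      refine ⟨![a, b, 1], Subtype.ext ?_⟩
      have hz' : z = g3 * (pw g1 a * pw g2 b) := by rw [← hab, mul_inv_cancel_left]
      show pw g1 a * pw g2 b * pw g3 1 = z
      rw [hz', h.elementary.1 _ (h.frame_mem hf).2.2 _ (mul_mem (pw_mem h (h.frame_mem hf).1 a)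
        (pw_mem h (h.frame_mem hf).2.1 b))]
      simp [pw]
  refine (Nat.bijective_iff_surjective_and_card _).2 ⟨hsurj, ?_⟩
  rw [h.card_zc (by omega)]
  simp [Nat.card_eq_fintype_card]

theorem realise {g1 g2 g3 : S} (hf : Shape.Frame g1 g2 g3) (a b c : ZMod 2) :
    ∃ s : S, s * g1 * s⁻¹ = g1 ∧ s * g2 * s⁻¹ = pw g1 a * g2 ∧
      s * g3 * s⁻¹ = pw g1 c * pw g2 b * g3 := by
  haveI := h.finite
  obtain ⟨hab, hsq⟩ := h.elementary
  obtain ⟨e1, e2, e3⟩ := h.frame_mem hf
  have hbij : Function.Bijective (actMap g2 g3 hf.m2 hf.m3) := by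
    refine (Nat.bijective_iff_injective_and_card _).2 ⟨h.actMap_injective hf, ?_⟩
    rw [h.main_cards.2.2.1, Nat.card_prod, h.card_zc (by omega), h.card_zc (by omega)]
    norm_num
  obtain ⟨q, hq⟩ := hbij.2
    (⟨pw g1 a, pw_mem h hf.m1 a⟩, ⟨pw g1 c * pw g2 b, mul_mem (pw_mem h
      (Subgroup.upperCentralSeries_mono S (show 1 ≤ 2 by omega) hf.m1) c) (pw_mem h hf.m2 b)⟩)
  simp only [actMap, Prod.mk.injEq, Subtype.mk.injEq, commutatorElement_def] at hq
  obtain ⟨q2, q3⟩ := hq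
  have inv : ∀ g x : S, g * q.out * g⁻¹ * q.out⁻¹ = x → q.out * g * q.out⁻¹ = x⁻¹ * g := by
    intro g x hx
    rw [← hx]
    group
  refine ⟨q.out, ?_, ?_, ?_⟩
  · rw [← h.zc_one_comm hf.m1, mul_inv_cancel_right]
  · rw [inv g2 _ q2, inv_eq_of_mul_eq_one_right (hsq _ (pw_mem h e1 a))]
  · rw [inv g3 _ q3, inv_eq_of_mul_eq_one_right (hsq _ (mul_mem (pw_mem h e1 c) (pw_mem h e2 b)))]

theorem exists_sq_not_mem : ∃ s : S, s * s ∉ wSub S := by
  obtain ⟨g1, g2, g3, hf⟩ := h.exists_frame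
  obtain ⟨s, h1, h2, h3⟩ := h.realise hf 1 1 0
  refine ⟨s, fun hs => hf.n1 ?_⟩
  have hc := h.central hf.m3 hs
  have e : s * s * g3 * (s * s)⁻¹ = g1 * g3 := by
    have h2' : s * g2 * s⁻¹ = g1 * g2 := by simpa [pw] using h2
    have h3' : s * g3 * s⁻¹ = g2 * g3 := by simpa [pw] using h3
    calc s * s * g3 * (s * s)⁻¹ = s * (s * g3 * s⁻¹) * s⁻¹ := by group
      _ = s * (g2 * g3) * s⁻¹ := by rw [h3']
      _ = (s * g2 * s⁻¹) * (s * g3 * s⁻¹) := by group
      _ = g1 * (g2 * g2) * g3 := by rw [h2', h3']; group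
      _ = g1 * g3 := by rw [h.elementary.2 _ (h.frame_mem hf).2.1, mul_one]
  rw [← hc, mul_inv_cancel_right] at e
  exact mul_eq_right.1 e.symm

end Shape

end Cfsg.Agent.RuType
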