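import Mathlib
import Cfsg.Prelude.Def_CaseTheorems
import Cfsg.Agent.Cores.Basic
import Cfsg.Agent.RuType.Cocycle
import Cfsg.Agent.RuType.GLThree
import Cfsg.Agent.RuType.Struct
import Cfsg.Agent.RuType.Faithful

/-!
# The normalizer of the derived group of `W` in a group with a Sylow 2-subgroup of Rudvalis shape
-/

set_option autoImplicit false
set_option linter.style.haveILetI false

open scoped Classical Pointwise

namespace Cfsg.Agent.RuType

/-- An exponent two group of order two. -/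
abbrev Sgn := Multiplicative (ZMod 2)

theorem sgn_sq : ∀ x : Sgn, x * x = 1 := by decide

theorem sgn_cases : ∀ x : Sgn, x = 1 ∨ x = Multiplicative.ofAdd 1 := by decide

section Transfer

variable {G : Type*} [Group G] [Finite G]

omit [Finite G] in
/-- A group without subgroups of index two has no nontrivial map to a group of order two. -/
theorem sgn_trivial (h2 : ∀ H : Subgroup G, H.index ≠ 2) (f : G →* Sgn) (g : G) : f g = 1 := by
  by_contra hne
  apply h2 f.ker
  have hr : f.range = ⊤ := by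
    refine top_le_iff.1 fun x _ => ?_
    rcases sgn_cases x with rfl | rfl
    · exact one_mem _
    · exact ⟨g, (sgn_cases (f g)).resolve_left hne⟩
  rw [Subgroup.index_ker, hr, Subgroup.card_top]
  simp [Nat.card_eq_fintype_card]

variable (M : Subgroup G) (χ : ↥M →* Sgn)

omit [Finite G] in
theorem cos_mem (g : G) (ω : G ⧸ M) : (g • ω).out⁻¹ * (g * ω.out) ∈ M := by
  have h1 : ((g * ω.out : G) : G ⧸ M) = g • ω := by
    rw [← smul_eq_mul, ← MulAction.Quotient.smul_coe, QuotientGroup.out_eq']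
  rw [← QuotientGroup.eq, QuotientGroup.out_eq', h1]

/-- The cocycle whose product is the transfer of `χ`. -/
noncomputable def cos (g : G) (ω : G ⧸ M) : Sgn := χ ⟨_, cos_mem M g ω⟩

theorem cos_isCocycle : IsCocycle (cos M χ) := by
  intro s t ω
  rw [cos, cos, cos, ← map_mul]
  congr 1
  apply Subtype.ext
  simp only [Subgroup.coe_mul, mul_smul]
  group

theorem cos_fix (r : G) (ω : G ⧸ M) (hr : r • ω = ω) :
    ∃ hm : ω.out⁻¹ * r * ω.out ∈ M, cos M χ r ω = χ ⟨_, hm⟩ := by
  have hm : ω.out⁻¹ * r * ω.out ∈ M := by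
    have := cos_mem M r ω
    rwa [hr, ← mul_assoc] at this
  refine ⟨hm, ?_⟩
  rw [cos]
  congr 1
  apply Subtype.ext
  simp [hr, mul_assoc]

theorem cos_base (r : G) (hr : r ∈ M) :
    cos M χ r ((1 : G) : G ⧸ M) = χ ⟨r, hr⟩ := by
  have hfix : r • ((1 : G) : G ⧸ M) = ((1 : G) : G ⧸ M) := by
    rw [MulAction.Quotient.smul_coe, smul_eq_mul, mul_one, QuotientGroup.eq]
    simpa using hr
  obtain ⟨hm, he⟩ := cos_fix M χ r _ hfix
  have hout : (((1 : G) : G ⧸ M).out) ∈ M := by
    have := QuotientGroup.out_eq' ((1 : G) : G ⧸ M)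
    rw [QuotientGroup.eq] at this
    simpa using this
  rw [he]
  have : (⟨_, hm⟩ : ↥M) = ⟨_, hout⟩⁻¹ * ⟨r, hr⟩ * ⟨_, hout⟩ := Subtype.ext rfl
  rw [this, map_mul, map_mul, map_inv, mul_right_comm, inv_mul_cancel, one_mul]

/-- A product over a `G`-set is a product over its orbits. -/
theorem prod_eq_single_orbit {T Ω : Type*} [Group T] [Finite T] [MulAction T Ω] [Fintype Ω]
    {A : Type*} [CommMonoid A] (f : Ω → A) (ω0 : Ω) (h0 : ∀ t : T, t • ω0 = ω0)
    (h : ∀ ω, ω ≠ ω0 → ∀ [Fintype (T ⧸ MulAction.stabilizer T ω)],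
      ∏ q : T ⧸ MulAction.stabilizer T ω, f (MulAction.ofQuotientStabilizer T ω q) = 1) :
    ∏ ω, f ω = f ω0 := by
  let π : Ω → MulAction.orbitRel.Quotient T Ω := Quotient.mk''
  haveI : Fintype (MulAction.orbitRel.Quotient T Ω) := Fintype.ofFinite _
  have hπ : ∀ a b : Ω, π a = π b ↔ ∃ t : T, t • b = a := fun a b => by
    rw [Quotient.eq'', MulAction.orbitRel_apply, MulAction.mem_orbit_iff]
  rw [← Finset.prod_fiberwise Finset.univ π f, Finset.prod_eq_single (π ω0)]
  · rw [Finset.prod_eq_single ω0]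
    · intro b hb hne
      rw [Finset.mem_filter] at hb
      obtain ⟨t, ht⟩ := (hπ _ _).1 hb.2
      exact absurd (ht.symm.trans (h0 t)) hne
    · intro hh
      exact absurd (Finset.mem_filter.2 ⟨Finset.mem_univ ω0, rfl⟩ :
        ω0 ∈ Finset.univ.filter (fun i => π i = π ω0)) hh
  · intro O _ hO
    obtain ⟨ω, rfl⟩ := Quotient.mk''_surjective O
    have hne : ω ≠ ω0 := fun e => hO (e ▸ rfl)
    haveI : Fintype (T ⧸ MulAction.stabilizer T ω) := Fintype.ofFinite _
    rw [← h ω hne]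
    refine (Finset.prod_bij (fun q _ => MulAction.ofQuotientStabilizer T ω q) ?_ ?_ ?_ ?_).symm
    · intro q _
      induction q using QuotientGroup.induction_on with
      | _ t => exact Finset.mem_filter.2 ⟨Finset.mem_univ _, (hπ _ _).2 ⟨t, rfl⟩⟩
    · intro a _ b _ hab
      exact MulAction.injective_ofQuotientStabilizer T ω hab
    · intro b hb
      obtain ⟨t, ht⟩ := (hπ _ _).1 (Finset.mem_filter.1 hb).2
      exact ⟨(t : T ⧸ MulAction.stabilizer T ω), Finset.mem_univ _, ht⟩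
    · exact fun _ _ => rfl
  · intro hh
    exact absurd (Finset.mem_univ _) hh

theorem relIndex_sup_eq (A K : Subgroup G) [K.Normal] :
    A.relIndex (A ⊔ K) = A.relIndex K := by
  have h1 := card_sup_mul A K
  have h2 := Subgroup.card_mul_index (A.subgroupOf (A ⊔ K))
  have h3 := Subgroup.card_mul_index (A.subgroupOf K)
  rw [← Subgroup.relIndex, Nat.card_congr (Subgroup.subgroupOfEquivOfLe le_sup_left).toEquiv] at h2
  rw [← Subgroup.relIndex, ← Subgroup.inf_subgroupOf_right,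
    Nat.card_congr (Subgroup.subgroupOfEquivOfLe (inf_le_right : A ⊓ K ≤ K)).toEquiv] at h3
  rw [← h2, ← h3] at h1
  refine Nat.eq_of_mul_eq_mul_left
    (Nat.mul_pos (Nat.card_pos (α := ↥A)) (Nat.card_pos (α := ↥(A ⊓ K)))) ?_
  linear_combination h1

omit [Finite G] in
theorem mem_of_pow_coprime {K : Subgroup G} {x : G} {n : ℕ} (hc : n.Coprime (orderOf x))
    (hn : x ^ n ∈ K) : x ∈ K := by
  obtain ⟨m, hm⟩ := exists_pow_eq_self_of_coprime hc
  exact hm ▸ pow_mem hn m

end Transfer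

section

variable {G : Type*} [Group G] [Finite G] {T : Sylow 2 G}

/-- The image of the third centre. -/
abbrev zG (T : Sylow 2 G) : Subgroup G :=
  (zc ↥(T : Subgroup G) 3).map (T : Subgroup G).subtype

/-- The image of `W`. -/
abbrev wG (T : Sylow 2 G) : Subgroup G :=
  (wSub ↥(T : Subgroup G)).map (T : Subgroup G).subtype

/-- The normalizer of the image of the third centre. -/
abbrev mG (T : Sylow 2 G) : Subgroup G := Subgroup.normalizer (zG T : Set G)

omit [Finite G] in
theorem map_normal_le_normalizer {K : Subgroup ↥(T : Subgroup G)} [K.Normal] :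
    (T : Subgroup G) ≤ Subgroup.normalizer (K.map (T : Subgroup G).subtype : Set G) := by
  have key : ∀ t : ↥(T : Subgroup G), ∀ x ∈ K.map (T : Subgroup G).subtype,
      (t : G) * x * (t : G)⁻¹ ∈ K.map (T : Subgroup G).subtype := by
    rintro t _ ⟨k, hk, rfl⟩
    exact ⟨t * k * t⁻¹, Subgroup.Normal.conj_mem inferInstance k hk t, rfl⟩
  intro t ht
  rw [Subgroup.mem_normalizer_iff]
  refine fun x => ⟨key ⟨t, ht⟩ x, fun hx => ?_⟩
  have := key ⟨t, ht⟩⁻¹ _ hx
  simpa [mul_assoc] using this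

variable (h : Shape ↥(T : Subgroup G))
include h

omit [Finite G] in
theorem T_le_mG : (T : Subgroup G) ≤ mG T := map_normal_le_normalizer

omit [Finite G] in
theorem zG_le_wG : zG T ≤ wG T := Subgroup.map_mono h.zc3_le

omit [Finite G] in
theorem zG_eq : zG T = ⁅wG T, wG T⁆ := by
  rw [zG, wG, ← Subgroup.map_commutator, ← Subgroup.map_subtype_commutator, h.comm_eq]

theorem normalizer_wG_le : Subgroup.normalizer (wG T : Set G) ≤ mG T := by
  intro g hg
  rw [Subgroup.mem_normalizer_iff] at hg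
  have hmap : (wG T).map (MulAut.conj g).toMonoidHom = wG T := by
    ext x
    constructor
    · rintro ⟨y, hy, rfl⟩
      exact (hg y).1 hy
    · intro hx
      exact ⟨g⁻¹ * x * g, (hg _).2 (by simpa [mul_assoc] using hx), by simp [mul_assoc]⟩
  have hz : (zG T).map (MulAut.conj g).toMonoidHom = zG T := by
    rw [zG_eq h, Subgroup.map_commutator, hmap]
  rw [Subgroup.mem_normalizer_iff]
  refine fun x => ⟨fun hx => hz ▸ ⟨x, hx, rfl⟩, fun hx => ?_⟩
  rw [← hz] at hx
  obtain ⟨y, hy, hye⟩ := hx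
  have : y = x := (MulAut.conj g).injective hye
  exact this ▸ hy

/-- The action of `mG T` on the image of the third centre. -/
theorem exists_action : ∃ ψ : ↥(mG T) →* GL3,
    (∀ g, ψ g = 1 ↔ ∀ z ∈ zG T, (g : G) * z = z * g) ∧
      ∀ a b c : ZMod 2, ∃ t, ∃ ht : t ∈ (T : Subgroup G),
        ((ψ ⟨t, T_le_mG h ht⟩ : GL3) : M3) = uMat a b c := by
  obtain ⟨g1, g2, g3, hf⟩ := h.exists_frame
  let e : (Fin 3 → ZMod 2) → G := fun v => ((Shape.vec g1 g2 g3 v : ↥(T : Subgroup G)) : G)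
  have he_mem : ∀ v, e v ∈ zG T := fun v => ⟨_, h.vec_mem hf v, rfl⟩
  have he_inj : Function.Injective e := fun u v huv =>
    (h.vec_bijective hf).1 (Subtype.ext (Subtype.ext huv))
  have he_surj : ∀ x ∈ zG T, ∃ v, e v = x := by
    rintro _ ⟨z, hz, rfl⟩
    obtain ⟨v, hv⟩ := (h.vec_bijective hf).2 ⟨z, hz⟩
    exact ⟨v, congrArg (fun w : ↥(zc _ 3) => ((w : ↥(T : Subgroup G)) : G)) hv⟩
  have he_add : ∀ u v, e (u + v) = e u * e v := fun u v =>
    congrArg Subtype.val (h.vec_add hf u v)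
  have hex : ∀ (g : ↥(mG T)) v, ∃ w, e w = (g : G) * e v * (g : G)⁻¹ := fun g v =>
    he_surj _ ((Subgroup.mem_normalizer_iff.1 g.2 _).1 (he_mem v))
  choose L hL using hex
  let Lh : ↥(mG T) → ((Fin 3 → ZMod 2) →ₗ[ZMod 2] (Fin 3 → ZMod 2)) := fun g =>
    (AddMonoidHom.mk' (L g) fun u v => he_inj (by
      rw [hL, he_add, he_add, hL, hL]; group)).toZModLinearMap 2
  have hLh : ∀ g v, e (Lh g v) = (g : G) * e v * (g : G)⁻¹ := hL
  let F : ↥(mG T) →* M3 :=
    { toFun := fun g => LinearMap.toMatrix' (Lh g)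
      map_one' := by
        have h1 : Lh 1 = LinearMap.id := LinearMap.ext fun v => he_inj (by
          rw [hLh]; simp)
        rw [h1, LinearMap.toMatrix'_id]
      map_mul' := fun g g' => by
        have h1 : Lh (g * g') = (Lh g).comp (Lh g') := LinearMap.ext fun v => he_inj (by
          rw [LinearMap.comp_apply, hLh, hLh, hLh]; simp [mul_assoc])
        rw [h1, LinearMap.toMatrix'_comp] }
  refine ⟨F.toHomUnits, fun g => ?_, fun a b c => ?_⟩
  · constructor
    · intro hg z hz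
      have h1 : F g = 1 := congrArg Units.val hg
      have h2 : Lh g = LinearMap.id := LinearMap.toMatrix'.injective
        (by rw [LinearMap.toMatrix'_id]; exact h1)
      obtain ⟨v, rfl⟩ := he_surj z hz
      have h3 := hLh g v
      rw [h2, LinearMap.id_apply, eq_mul_inv_iff_mul_eq] at h3
      exact h3.symm
    · intro hg
      apply Units.ext
      change F g = 1
      have h2 : Lh g = LinearMap.id := LinearMap.ext fun v => he_inj (by
        rw [hLh, hg _ (he_mem v), mul_inv_cancel_right, LinearMap.id_apply])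
      change LinearMap.toMatrix' (Lh g) = 1
      rw [h2, LinearMap.toMatrix'_id]
  · obtain ⟨s, hs1, hs2, hs3⟩ := h.realise hf a b c
    refine ⟨(s : G), s.2, ?_⟩
    have col : ∀ v w, s * Shape.vec g1 g2 g3 v * s⁻¹ = Shape.vec g1 g2 g3 w →
        Lh ⟨(s : G), T_le_mG h s.2⟩ v = w := by
      intro v w hvw
      apply he_inj
      rw [hLh]
      exact congrArg Subtype.val hvw
    have hp0 : ∀ g : ↥(T : Subgroup G), Shape.pw g 0 = 1 := fun g => if_pos rfl
    have hp1 : ∀ g : ↥(T : Subgroup G), Shape.pw g 1 = g := fun g => if_neg (by decide)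
    have c0 := col (Pi.single 0 1) ![1, 0, 0] (by simp [Shape.vec, hp0, hp1, hs1])
    have c1 := col (Pi.single 1 1) ![a, 1, 0] (by simp [Shape.vec, hp0, hp1, hs2])
    have c2 := col (Pi.single 2 1) ![c, b, 1] (by simp [Shape.vec, hp0, hp1, hs3])
    change LinearMap.toMatrix' (Lh _) = _
    ext i j
    rw [LinearMap.toMatrix'_apply]
    fin_cases j <;> simp only [Fin.zero_eta, Fin.mk_one, Fin.reduceFinMk]
    · rw [c0]; fin_cases i <;> simp [uMat]
    · rw [c1]; fin_cases i <;> simp [uMat]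
    · rw [c2]; fin_cases i <;> simp [uMat]

omit h in
theorem two_pow_card {H : Subgroup ↥(T : Subgroup G)} : ∃ k, Nat.card ↥H = 2 ^ k :=
  haveI : Fact (Nat.Prime 2) := ⟨Nat.prime_two⟩
  IsPGroup.iff_card.1 (T.isPGroup'.to_subgroup H)

/-- Without subgroups of index two the action is onto. -/
theorem action_surjective (h2 : ∀ H : Subgroup G, H.index ≠ 2) (ψ : ↥(mG T) →* GL3)
    (hker : ∀ g, ψ g = 1 ↔ ∀ z ∈ zG T, (g : G) * z = z * g)
    (hUimg : ∀ a b c : ZMod 2, ∃ t, ∃ ht : t ∈ (T : Subgroup G),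
        ((ψ ⟨t, T_le_mG h ht⟩ : GL3) : M3) = uMat a b c) :
    Function.Surjective ψ := by
  haveI : Fact (Nat.Prime 2) := ⟨Nat.prime_two⟩
  rw [← MonoidHom.range_eq_top]
  by_contra hne
  have hU : HasU ψ.range := fun a b c => by
    obtain ⟨t, ht, he⟩ := hUimg a b c
    exact ⟨_, ⟨_, rfl⟩, he⟩
  obtain ⟨f, x, ⟨a, b, c, hx⟩, hfx⟩ := exists_sign ψ.range hU hne
  let χ : ↥(mG T) →* Sgn := f.comp ψ.rangeRestrict
  obtain ⟨t0, ht0, ht0e⟩ := hUimg a b c
  have hχt : χ ⟨t0, T_le_mG h ht0⟩ ≠ 1 := by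
    have : ψ.rangeRestrict ⟨t0, T_le_mG h ht0⟩ = x :=
      Subtype.ext (Units.ext (ht0e.trans hx.symm))
    change f (ψ.rangeRestrict _) ≠ 1
    rwa [this]
  have hχ : ∀ g : ↥(mG T), χ g * χ g = 1 := fun g => sgn_sq _
  apply hχt
  let S := ↥(T : Subgroup G)
  haveI : Fintype (G ⧸ mG T) := Fintype.ofFinite _
  have hcos := cos_isCocycle (mG T) χ
  let ω0 : G ⧸ mG T := ((1 : G) : G ⧸ mG T)
  let t1 : S := ⟨t0, ht0⟩
  have hV : det hcos t0 = 1 := sgn_trivial h2 _ _
  have hfix0 : ∀ t : S, t • ω0 = ω0 := by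
    intro t
    change (t : G) • ((1 : G) : G ⧸ mG T) = _
    rw [MulAction.Quotient.smul_coe, smul_eq_mul, mul_one, QuotientGroup.eq]
    simpa using T_le_mG h t.2
  have hprod : det hcos t0 = cos (mG T) χ t0 ω0 := by
    refine prod_eq_single_orbit (T := S) (fun ω => cos (mG T) χ t0 ω) ω0 hfix0 ?_
    intro ω hω _
    let R : Subgroup S := MulAction.stabilizer S ω
    let a : S → S ⧸ R → Sgn := fun s q =>
      cos (mG T) χ (s : G) (MulAction.ofQuotientStabilizer S ω q)
    have ha : IsCocycle a := by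
      intro s t q
      have := hcos (s : G) (t : G) (MulAction.ofQuotientStabilizer S ω q)
      have e : MulAction.ofQuotientStabilizer S ω (t • q) =
          (t : G) • MulAction.ofQuotientStabilizer S ω q :=
        MulAction.ofQuotientStabilizer_smul S ω t q
      simp only [a]
      rw [e]
      exact this
    have hP : Pair (wSub S) (zc S 3) :=
      ⟨h.W_normal, inferInstance, h.zc3_le, fun z hz w hw => h.central hz hw,
        h.elementary.2, fun w hw => h.sq_mem hw⟩
    haveI := h.finite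
    show ∏ q, a t1 q = 1
    by_cases h8 : 8 * Nat.card ↥(wSub S ⊓ R) ≤ Nat.card ↥(wSub S)
    · exact prod_eq_one_eight h.two hP sgn_sq ha h8 _
    have hWR : Nat.card ↥(wSub S) ≤ 8 * Nat.card ↥((wSub S ⊓ R) ⊔ zc S 3) := by
      have := Subgroup.card_le_card_group (wSub S ⊓ R)
      have h1 : Nat.card ↥(wSub S ⊓ R) ≤ Nat.card ↥((wSub S ⊓ R) ⊔ zc S 3) :=
        Nat.le_of_dvd Nat.card_pos (Subgroup.card_dvd_of_le le_sup_left)
      omega
    haveI := h.W_normal
    have hsqle : ∀ U : Subgroup S, U ≤ wSub S → sqCl (U ⊔ zc S 3) ≤ sqCl U := by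
      intro U hU
      refine sqCl_le fun u hu => ?_
      obtain ⟨y, hy, z, hz, rfl⟩ := Subgroup.mem_sup_of_normal_right.1 hu
      have hc := h.central hz (hU hy)
      have : y * z * (y * z) = y * y := by
        calc y * z * (y * z) = y * (z * y) * z := by group
          _ = y * y * (z * z) := by rw [hc]; group
          _ = y * y := by rw [h.elementary.2 z hz, mul_one]
      rw [this]
      exact sq_mem_sqCl hy
    have hZsq : zc S 3 ≤ sqCl (wSub S ⊓ R) :=
      (h.le_sqCl inf_le_left hWR).trans (hsqle _ inf_le_left)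
    have hstab : ∀ r : S, r ∈ R → (r : G) • ω = ω := fun r hr => hr
    by_cases h4 : 4 * Nat.card ↥(wSub S ⊓ R) ≤ Nat.card ↥(wSub S)
    · refine prod_eq_one_four h.two hP sgn_sq ha ?_ h4 _
      let θ : ↥R →* Sgn :=
        { toFun := fun r => a r (base R)
          map_one' := ha.one _
          map_mul' := fun r r' => by
            change a ((r : S) * r') (base R) = _
            exact ha.mul_base _ r'.2 }
      have hle : sqCl (wSub S ⊓ R) ≤ θ.ker.map R.subtype := by
        refine sqCl_le fun u hu => ?_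
        refine ⟨⟨u, hu.2⟩ * ⟨u, hu.2⟩, ?_, rfl⟩
        rw [SetLike.mem_coe, MonoidHom.mem_ker, map_mul]
        exact sgn_sq _
      intro z hz hzR
      obtain ⟨r, hr, hre⟩ := hle (hZsq hz)
      rw [← hre]
      exact hr
    exfalso
    apply hω
    -- `ω` is fixed by almost all of `W`
    let g0 := ω.out
    let RG : Subgroup G := (R.map (T : Subgroup G).subtype).map (MulAut.conj g0⁻¹).toMonoidHom
    have hRG : RG ≤ mG T := by
      rintro _ ⟨_, ⟨r, hr, rfl⟩, rfl⟩
      obtain ⟨hm, -⟩ := cos_fix (mG T) χ (r : G) ω (hstab r hr)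
      simpa using hm
    have hRGp : IsPGroup 2 ↥(RG.subgroupOf (mG T)) :=
      (((h.two.to_subgroup R).map _).map _).of_equiv
        (Subgroup.subgroupOfEquivOfLe hRG).symm
    obtain ⟨P, hP'⟩ := hRGp.exists_le_sylow
    obtain ⟨m, hm⟩ := MulAction.exists_smul_eq ↥(mG T) (T.subtype (T_le_mG h)) P
    let g : G := g0 * (m : G)
    have hgT : ∀ r : S, r ∈ R → g⁻¹ * (r : G) * g ∈ (T : Subgroup G) := by
      intro r hr
      have hin : MulAut.conj g0⁻¹ (r : G) ∈ RG := ⟨_, ⟨r, hr, rfl⟩, rfl⟩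
      have hP2 : (⟨_, hRG hin⟩ : ↥(mG T)) ∈ P := hP' (Subgroup.mem_subgroupOf.2 hin)
      rw [← hm] at hP2
      change _ ∈ (MulAut.conj m) • ((T.subtype (T_le_mG h) : Subgroup ↥(mG T))) at hP2
      rw [Subgroup.mem_pointwise_smul_iff_inv_smul_mem] at hP2
      simp [MulAut.smul_def, Subgroup.mem_subgroupOf] at hP2
      simpa [g, g0, mul_assoc] using hP2
    let φ : ↥(wSub S ⊓ R) →* S ⧸ wSub S := (QuotientGroup.mk' (wSub S)).comp
      { toFun := fun w => ⟨g⁻¹ * ((w : S) : G) * g, hgT _ (Subgroup.mem_inf.1 w.2).2⟩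
        map_one' := Subtype.ext (by simp)
        map_mul' := fun u v => Subtype.ext (by
          change g⁻¹ * (((u : S) : G) * ((v : S) : G)) * g =
            g⁻¹ * ((u : S) : G) * g * (g⁻¹ * ((v : S) : G) * g)
          group) }
    let U : Subgroup S := φ.ker.map (wSub S ⊓ R).subtype
    have hUW : U ≤ wSub S := (Subgroup.map_subtype_le _).trans inf_le_left
    have hUmem : ∀ u ∈ U, ∃ v ∈ wSub S, (v : G) = g⁻¹ * (u : G) * g := by
      rintro _ ⟨u, hu, rfl⟩
      exact ⟨_, (QuotientGroup.eq_one_iff _).1 hu, rfl⟩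
    have hcard : Nat.card ↥U * φ.ker.index = Nat.card ↥(wSub S ⊓ R) := by
      rw [Subgroup.card_map_of_injective (Subgroup.subtype_injective _)]
      exact Subgroup.card_mul_index _
    obtain ⟨i, hi⟩ : ∃ i, φ.ker.index = i ∧ i ∣ 8 := ⟨_, rfl, by
      rw [Subgroup.index_ker, ← h.main_cards.2.2.1]
      exact Subgroup.card_subgroup_dvd_card _⟩
    obtain ⟨j, hj⟩ := two_pow_card (H := U)
    obtain ⟨k, hk⟩ := two_pow_card (H := wSub S ⊓ R)
    have hW11 := h.main_cards.2.1
    have hi8 : i ≤ 8 := Nat.le_of_dvd (by norm_num) hi.2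
    have hk10 : 10 ≤ k := by
      by_contra hk10
      have : 2 ^ k ≤ 2 ^ 9 := Nat.pow_le_pow_right (by norm_num) (by omega)
      rw [hk, hW11] at h4
      omega
    have hj7 : 7 ≤ j := by
      by_contra hj7
      have h1 : 2 ^ j ≤ 2 ^ 6 := Nat.pow_le_pow_right (by norm_num) (by omega)
      have h2 : 2 ^ 10 ≤ 2 ^ k := Nat.pow_le_pow_right (by norm_num) hk10
      rw [hj, hk, hi.1] at hcard
      nlinarith
    have hZU : zc S 3 ≤ U := by
      refine h.le_of_index hUW ?_
      have h1 : 2 ^ 7 ≤ 2 ^ j := Nat.pow_le_pow_right (by norm_num) hj7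
      rw [hW11, hj]
      omega
    -- the image has exponent two
    have hi4 : i ≤ 4 := by
      by_contra hi4
      have hi8' : i = 8 := by
        have hmem : i ∈ Nat.divisors 8 := Nat.mem_divisors.2 ⟨hi.2, by norm_num⟩
        rw [show Nat.divisors 8 = {1, 2, 4, 8} by decide] at hmem
        simp only [Finset.mem_insert, Finset.mem_singleton] at hmem
        omega
      have hsurj : φ.range = ⊤ := Subgroup.eq_top_of_card_eq _ (by
        rw [← Subgroup.index_ker, hi.1, hi8', h.main_cards.2.2.1])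
      obtain ⟨s, hs⟩ := h.exists_sq_not_mem
      obtain ⟨w, hw⟩ : QuotientGroup.mk' (wSub S) s ∈ φ.range := hsurj ▸ Subgroup.mem_top _
      apply hs
      have hww : w * w ∈ φ.ker := by
        have hz : ((w * w : ↥(wSub S ⊓ R)) : S) ∈ U :=
          hZU (h.sq_mem (Subgroup.mem_inf.1 w.2).1)
        obtain ⟨u, hu, hue⟩ := hz
        rwa [← Subtype.ext hue]
      rw [MonoidHom.mem_ker, map_mul, hw, ← map_mul] at hww
      exact (QuotientGroup.eq_one_iff _).1 hww
    have hj8 : Nat.card ↥(wSub S) ≤ 8 * Nat.card ↥U := by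
      by_contra hlt
      have h1 : j ≤ 7 := by
        by_contra hj8
        have : 2 ^ 8 ≤ 2 ^ j := Nat.pow_le_pow_right (by norm_num) (by omega)
        rw [hW11, hj] at hlt
        omega
      have h2 : 2 ^ j ≤ 2 ^ 7 := Nat.pow_le_pow_right (by norm_num) h1
      have h3 : 2 ^ 10 ≤ 2 ^ k := Nat.pow_le_pow_right (by norm_num) hk10
      rw [hj, hk, hi.1] at hcard
      nlinarith
    have hZsU : zc S 3 ≤ sqCl U := by
      refine (h.le_sqCl hUW ?_).trans (hsqle U hUW)
      rwa [sup_eq_left.2 hZU]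
    let Zg : Subgroup S :=
      ((zG T).comap (MulAut.conj g⁻¹).toMonoidHom).comap (T : Subgroup G).subtype
    have hle : sqCl U ≤ Zg := by
      refine sqCl_le fun u hu => ?_
      obtain ⟨v, hv, hve⟩ := hUmem u hu
      refine ⟨v * v, h.sq_mem hv, ?_⟩
      change ((v * v : S) : G) = g⁻¹ * ((u : G) * u) * g⁻¹⁻¹
      rw [Subgroup.coe_mul, hve]
      group
    have hmap : (zG T).map (MulAut.conj g⁻¹).toMonoidHom = zG T := by
      refine Subgroup.eq_of_le_of_card_ge ?_ ?_
      · rintro _ ⟨_, ⟨z, hz, rfl⟩, rfl⟩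
        exact hle (hZsU hz)
      · exact le_of_eq (Nat.card_congr ((zG T).equivMapOfInjective
          (MulAut.conj g⁻¹).toMonoidHom (MulAut.conj g⁻¹).injective).toEquiv)
    have hgM : g⁻¹ ∈ mG T := by
      rw [Subgroup.mem_normalizer_iff]
      intro z
      refine ⟨fun hz => hmap ▸ ⟨z, hz, rfl⟩, fun hz => ?_⟩
      rw [← hmap] at hz
      obtain ⟨y, hy, hye⟩ := hz
      exact (MulAut.conj g⁻¹).injective hye ▸ hy
    have : g0 ∈ mG T := by
      have := mul_mem (inv_mem hgM) (inv_mem m.2)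
      simpa [g] using this
    change ω = ((1 : G) : G ⧸ mG T)
    rw [← QuotientGroup.out_eq' ω, QuotientGroup.eq]
    simpa using this
  rw [← cos_base (mG T) χ t0 (T_le_mG h ht0), ← hprod, hV]

/-- The conclusion. -/
theorem main (h2 : ∀ H : Subgroup G, H.index ≠ 2) :
    ((Subgroup.normalizer (wG T : Set G)).subgroupOf (mG T) ⊔ Cfsg.oddCore ↥(mG T) = ⊤) ∧
      ∃ (_ : ((wG T).subgroupOf (Subgroup.normalizer (wG T : Set G)) ⊔
          Cfsg.oddCore ↥(Subgroup.normalizer (wG T : Set G))).Normal),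
        Nonempty (↥(Subgroup.normalizer (wG T : Set G)) ⧸
          ((wG T).subgroupOf (Subgroup.normalizer (wG T : Set G)) ⊔
            Cfsg.oddCore ↥(Subgroup.normalizer (wG T : Set G))) ≃* GL (Fin 3) (ZMod 2)) := by
  haveI : Fact (Nat.Prime 2) := ⟨Nat.prime_two⟩
  haveI := h.finite
  obtain ⟨ψ, hker, hUimg⟩ := exists_action h
  have hψ := action_surjective h h2 ψ hker hUimg
  have hTM := T_le_mG h
  let M := mG T
  let TM : Sylow 2 ↥M := T.subtype hTM
  let C : Subgroup ↥M := ψ.ker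
  let WM : Subgroup ↥M := (wG T).subgroupOf M
  let ZM : Subgroup ↥M := (zG T).subgroupOf M
  haveI hZMn : ZM.Normal := by
    constructor
    intro z hz g
    exact (Subgroup.mem_normalizer_iff.1 g.2 _).1 hz
  have hwT : wG T ≤ (T : Subgroup G) := Subgroup.map_subtype_le _
  have hZW : ZM ≤ WM := fun x hx => zG_le_wG h hx
  have hTC : (TM : Subgroup ↥M) ⊓ C = WM := by
    ext x
    constructor
    · rintro ⟨hxT, hxC⟩
      refine ⟨⟨(x : G), hxT⟩, ?_, rfl⟩
      rw [SetLike.mem_coe, Subgroup.mem_centralizer_iff]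
      intro z hz
      exact Subtype.ext ((hker x).1 hxC _ ⟨z, hz, rfl⟩).symm
    · intro hx
      refine ⟨hwT hx, ?_⟩
      obtain ⟨w, hw, hwe⟩ := hx
      change ψ x = 1
      rw [hker]
      rintro _ ⟨z, hz, rfl⟩
      change (w : G) = (x : G) at hwe
      rw [← hwe]
      exact congrArg Subtype.val (h.central hz hw).symm
  have hWC : WM ≤ C := hTC ▸ inf_le_right
  have hWTM : WM ≤ (TM : Subgroup ↥M) := hTC ▸ inf_le_left
  have hWidx : ¬ 2 ∣ (WM.subgroupOf C).index := by
    intro hd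
    apply TM.not_dvd_index
    refine hd.trans ?_
    change WM.relIndex C ∣ _
    rw [← hTC, Subgroup.inf_relIndex_right, ← relIndex_sup_eq]
    exact Dvd.intro _ (Subgroup.relIndex_mul_index le_sup_left)
  have hWp : IsPGroup 2 ↥(WM.subgroupOf C) :=
    (TM.isPGroup'.to_le hWTM).of_equiv (Subgroup.subgroupOfEquivOfLe hWC).symm
  let SC : Sylow 2 ↥C := hWp.toSylow hWidx
  have hSC : (SC : Subgroup ↥C) = WM.subgroupOf C := rfl
  let NM : Subgroup ↥M := Subgroup.normalizer (WM : Set ↥M)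
  have hNMC : NM ⊔ C = ⊤ := by
    have := Sylow.normalizer_sup_eq_top SC
    rwa [hSC, Subgroup.subgroupOf_map_subtype, inf_eq_left.2 hWC] at this
  have hNMeq : (Subgroup.normalizer (wG T : Set G)).subgroupOf M = NM := by
    ext x
    simp only [Subgroup.mem_subgroupOf, NM, Subgroup.mem_normalizer_iff]
    constructor
    · intro hx y
      simpa [WM, Subgroup.mem_subgroupOf] using hx (y : G)
    · intro hx y
      constructor
      · intro hy
        have := (hx ⟨y, hTM (hwT hy)⟩).1 hy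
        simpa [WM, Subgroup.mem_subgroupOf] using this
      · intro hy
        have hyM : y ∈ M := by
          have := mul_mem (mul_mem (inv_mem x.2) (hTM (hwT hy))) x.2
          simpa [mul_assoc] using this
        exact (hx ⟨y, hyM⟩).2 (by simpa [WM, Subgroup.mem_subgroupOf] using hy)
  haveI hWSn : (wSub ↥(T : Subgroup G)).Normal := h.W_normal
  have hTN : (TM : Subgroup ↥M) ≤ NM := by
    rw [← hNMeq]
    intro x hx
    exact map_normal_le_normalizer (T := T) (K := wSub ↥(T : Subgroup G)) hx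
  have hWN : WM ≤ NM := Subgroup.le_normalizer
  have hψN : Function.Surjective (ψ.comp NM.subtype) := by
    intro y
    obtain ⟨x, rfl⟩ := hψ y
    obtain ⟨n, hn, c, hc, rfl⟩ := Subgroup.mem_sup_of_normal_right.1
      (hNMC ▸ Subgroup.mem_top x : x ∈ NM ⊔ C)
    refine ⟨⟨n, hn⟩, ?_⟩
    rw [map_mul, hc, mul_one]
    rfl
  -- `W / Z` is centralized
  have hcent : ∀ c ∈ C, c ∈ NM → ∀ w ∈ WM, c * w * c⁻¹ * w⁻¹ ∈ ZM := by
    let ZN : Subgroup ↥NM := ZM.subgroupOf NM
    haveI : ZN.Normal := hZMn.subgroupOf NM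
    let π : ↥NM →* ↥NM ⧸ ZN := QuotientGroup.mk' ZN
    have hπ : Function.Surjective π := QuotientGroup.mk'_surjective ZN
    let WN : Subgroup ↥NM := WM.subgroupOf NM
    haveI : WN.Normal := Subgroup.normal_in_normalizer
    let V : Subgroup (↥NM ⧸ ZN) := WN.map π
    haveI : V.Normal := Subgroup.Normal.map inferInstance π hπ
    have hπeq : ∀ x y : ↥NM, π x = π y ↔ (x : ↥M)⁻¹ * y ∈ ZM := fun x y => QuotientGroup.eq
    have hexp : ∀ v ∈ V, v * v = 1 := by
      rintro _ ⟨w, hw, rfl⟩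
      rw [← map_mul, QuotientGroup.mk'_apply, QuotientGroup.eq_one_iff]
      obtain ⟨w', hw', hwe⟩ := (hw : (w : ↥M) ∈ WM)
      refine ⟨w' * w', h.sq_mem hw', ?_⟩
      change ((w' * w' : ↥(T : Subgroup G)) : G) = _
      change (w' : G) = _ at hwe
      simp [hwe]
    have hWcard : Nat.card ↥WN = 2 ^ 11 := by
      rw [Nat.card_congr (Subgroup.subgroupOfEquivOfLe hWN).toEquiv,
        Nat.card_congr (Subgroup.subgroupOfEquivOfLe (hwT.trans hTM)).toEquiv,
        Subgroup.card_map_of_injective (Subgroup.subtype_injective _), h.main_cards.2.1]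
    have hZcard : Nat.card ↥ZN = 8 := by
      rw [Nat.card_congr (Subgroup.subgroupOfEquivOfLe (hZW.trans hWN)).toEquiv,
        Nat.card_congr (Subgroup.subgroupOfEquivOfLe
          (((zG_le_wG h).trans hwT).trans hTM)).toEquiv,
        Subgroup.card_map_of_injective (Subgroup.subtype_injective _),
        h.card_zc (by omega)]
      norm_num
    have hcard : Nat.card ↥V = 256 := by
      have h1 := Subgroup.card_mul_index ((π.comp WN.subtype).ker)
      rw [Subgroup.index_ker, MonoidHom.range_comp, Subgroup.range_subtype, hWcard] at h1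
      have h3 : Nat.card ↥(π.comp WN.subtype).ker = 8 := by
        rw [show (π.comp WN.subtype).ker = ZN.subgroupOf WN by
          ext x
          simp [π, Subgroup.mem_subgroupOf, QuotientGroup.eq_one_iff]]
        rw [Nat.card_congr (Subgroup.subgroupOfEquivOfLe
          (fun x hx => hZW hx : ZN ≤ WN)).toEquiv, hZcard]
      rw [h3] at h1
      change Nat.card ↥(WN.map π) = 256
      omega
    have hZker : ZN ≤ (ψ.comp NM.subtype).ker := fun x hx => hWC (hZW hx)
    let ψQ : ↥NM ⧸ ZN →* GL3 := QuotientGroup.lift ZN _ hZker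
    have hψQ : Function.Surjective ψQ := fun y => by
      obtain ⟨x, hx⟩ := hψN y
      exact ⟨(x : ↥NM ⧸ ZN), hx⟩
    have hVker : V ≤ ψQ.ker := by
      rintro _ ⟨w, hw, rfl⟩
      exact hWC hw
    let TQ : Sylow 2 (↥NM ⧸ ZN) := (TM.subtype hTN).mapSurjective hπ
    have hTQmem : ∀ q, q ∈ (TQ : Subgroup (↥NM ⧸ ZN)) ↔
        ∃ x : ↥NM, (x : ↥M) ∈ (TM : Subgroup ↥M) ∧ π x = q := fun q => Iff.rfl
    have hTQ : (TQ : Subgroup (↥NM ⧸ ZN)) ⊓ ψQ.ker = V := by
      refine le_antisymm ?_ ?_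
      · rintro q ⟨hq, hqk⟩
        obtain ⟨x, hx, rfl⟩ := (hTQmem q).1 hq
        exact ⟨x, (hTC.le ⟨hx, hqk⟩ : (x : ↥M) ∈ WM), rfl⟩
      · refine le_inf ?_ hVker
        rintro _ ⟨w, hw, rfl⟩
        exact (hTQmem _).2 ⟨w, hWTM hw, rfl⟩
    haveI := h.nilpotent
    have hnot : ¬ wSub ↥(T : Subgroup G) ≤ zc ↥(T : Subgroup G) 3 := by
      intro hle
      have := Nat.le_of_dvd Nat.card_pos (Subgroup.card_dvd_of_le hle)
      rw [h.main_cards.2.1, h.card_zc (by omega)] at this
      norm_num at this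
    obtain ⟨x, hxW, hxZ, hx⟩ := exists_transition hnot
    have hx4 : x ∈ zc ↥(T : Subgroup G) 4 := Subgroup.mem_upperCentralSeries_succ_iff.2 hx
    let xM : ↥M := ⟨(x : G), hTM x.2⟩
    have hxM : xM ∈ WM := ⟨x, hxW, rfl⟩
    have lift : ∀ w : ↥NM, (w : ↥M) ∈ WM → ∃ y ∈ wSub ↥(T : Subgroup G), (y : G) = (w : ↥M) := by
      rintro w ⟨y, hy, hye⟩
      exact ⟨y, hy, hye⟩
    have inZ : ∀ (u : ↥M) (y : ↥(T : Subgroup G)), (y : G) = u →
        (u ∈ ZM ↔ y ∈ zc ↥(T : Subgroup G) 3) := by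
      intro u y hy
      refine ⟨fun hu => ?_, fun hy' => ⟨y, hy', hy⟩⟩
      obtain ⟨y', hy', hye⟩ := hu
      exact (Subtype.ext (hye.trans hy.symm) : y' = y) ▸ hy'
    have hfix : ∃ v0 ∈ V, v0 ≠ 1 ∧ (∀ t ∈ TQ, t * v0 = v0 * t) ∧
        ∀ v ∈ V, v ≠ 1 → (∀ t ∈ TQ, t * v = v * t) → v = v0 := by
      refine ⟨π ⟨xM, hWN hxM⟩, ⟨_, hxM, rfl⟩, fun he => hxZ ?_, fun t ht => ?_, ?_⟩
      · exact (inZ xM x rfl).1 ((QuotientGroup.eq_one_iff (⟨xM, hWN hxM⟩ : ↥NM)).1 he)
      · obtain ⟨t', ht', rfl⟩ := (hTQmem t).1 ht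
        rw [← map_mul, ← map_mul, hπeq]
        let s : ↥(T : Subgroup G) := ⟨((t' : ↥M) : G), ht'⟩
        refine (inZ _ ((s * x)⁻¹ * (x * s)) ?_).2 ?_
        · simp [s, xM]
        · have := hx s⁻¹
          rw [commutatorElement_def] at this
          have h3 := Subgroup.Normal.conj_mem (H := zc ↥(T : Subgroup G) 3) inferInstance _
            (inv_mem this) x⁻¹
          simpa [mul_assoc] using h3
      · rintro _ ⟨w, hw, rfl⟩ hne hc
        obtain ⟨y, hy, hye⟩ := lift w hw
        have hy4 : y ∈ zc ↥(T : Subgroup G) 4 := by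
          refine Subgroup.mem_upperCentralSeries_succ_iff.2 fun s => ?_
          let t' : ↥NM := ⟨⟨(s : G), hTM s.2⟩, hTN (show (s : G) ∈ (T : Subgroup G) from s.2)⟩
          have h1 := hc (π t') ((hTQmem _).2 ⟨t', s.2, rfl⟩)
          rw [← map_mul, ← map_mul, hπeq] at h1
          have h2 := (inZ _ ((s * y)⁻¹ * (y * s)) (by simp [t', hye])).1 h1
          have h3 := Subgroup.Normal.conj_mem (H := zc ↥(T : Subgroup G) 3) inferInstance _ h2
            (s * y)
          rw [commutatorElement_def]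
          simpa [mul_assoc] using h3
        rcases h.mem_succ_cases (i := 3) (by omega) hx4 hxZ hy4 with h' | h'
        · refine absurd ?_ hne
          rw [QuotientGroup.mk'_apply, QuotientGroup.eq_one_iff]
          exact (inZ _ y hye).2 h'
        · symm
          rw [hπeq]
          exact (inZ _ (x⁻¹ * y) (by simp [xM, hye])).2 h'
    have hcz := centralizes V hexp hcard ψQ hψQ hVker TQ hTQ hfix
    intro c hc hcN w hw
    have h1 := Subgroup.mem_centralizer_iff.1 (hcz (x := π ⟨c, hcN⟩) hc)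
      (π ⟨w, hWN hw⟩) ⟨_, hw, rfl⟩
    rw [← map_mul, ← map_mul, hπeq] at h1
    have h3 := hZMn.conj_mem _ h1 (w * c)
    simpa [mul_assoc] using h3
  -- two applications of Burnside's transfer theorem
  let ZC : Subgroup ↥C := ZM.subgroupOf C
  haveI : ZC.Normal := hZMn.subgroupOf C
  have hZcentral : ∀ z ∈ ZM, ∀ c ∈ C, z * c = c * z := fun z hz c hc =>
    Subtype.ext ((hker c).1 hc _ hz).symm
  let π2 : ↥C →* ↥C ⧸ ZC := QuotientGroup.mk' ZC
  have hπ2 : Function.Surjective π2 := QuotientGroup.mk'_surjective ZC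
  let SQ : Sylow 2 (↥C ⧸ ZC) := SC.mapSurjective hπ2
  have hSQcomap : (SQ : Subgroup (↥C ⧸ ZC)).comap π2 = SC := by
    refine le_antisymm ?_ (Subgroup.le_comap_map _ _)
    intro c hc
    obtain ⟨w, hw, hwc⟩ := hc
    have h1 : w⁻¹ * c ∈ ZC := QuotientGroup.eq.1 hwc
    have hZS : ZC ≤ WM.subgroupOf C := fun x hx => hZW hx
    have := mul_mem hw (hSC.ge (hZS h1))
    simpa using this
  have hburn : Subgroup.normalizer ((SQ : Subgroup (↥C ⧸ ZC)) : Set (↥C ⧸ ZC)) ≤
      Subgroup.centralizer ((SQ : Subgroup (↥C ⧸ ZC)) : Set (↥C ⧸ ZC)) := by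
    intro q hq
    obtain ⟨c, rfl⟩ := hπ2 q
    have hcN : (c : ↥M) ∈ NM := by
      have hmem : ∀ w : ↥C, (w : ↥M) ∈ WM ↔ π2 w ∈ (SQ : Subgroup (↥C ⧸ ZC)) := fun w => by
        rw [← Subgroup.mem_comap, hSQcomap]
        rfl
      rw [Subgroup.mem_normalizer_iff] at hq
      simp only [NM, Subgroup.mem_normalizer_iff]
      intro y
      constructor
      · intro hy
        refine (hmem (c * ⟨y, hWC hy⟩ * c⁻¹)).2 ?_
        rw [map_mul, map_mul, map_inv]
        exact (hq _).1 ((hmem ⟨y, hWC hy⟩).1 hy)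
      · intro hy
        have hyC : y ∈ C := by
          have := mul_mem (mul_mem (inv_mem c.2) (hWC hy)) c.2
          simpa [mul_assoc] using this
        refine (hmem ⟨y, hyC⟩).2 ((hq _).2 ?_)
        have := (hmem (c * ⟨y, hyC⟩ * c⁻¹)).1 hy
        rwa [map_mul, map_mul, map_inv] at this
    rw [Subgroup.mem_centralizer_iff]
    rintro _ ⟨w, hw, rfl⟩
    rw [← map_mul, ← map_mul]
    refine QuotientGroup.eq.2 ?_
    have h1 := hcent c c.2 hcN w (hw : (w : ↥M) ∈ WM)
    have h3 := hZMn.conj_mem _ h1 ((w : ↥M) * c)⁻¹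
    simpa [ZC, Subgroup.mem_subgroupOf, mul_assoc] using h3
  let K := (MonoidHom.transferSylow SQ hburn).ker
  have hK := MonoidHom.ker_transferSylow_isComplement' SQ hburn
  have hKodd : ¬ 2 ∣ Nat.card ↥K := MonoidHom.not_dvd_card_ker_transferSylow SQ hburn
  let K1 : Subgroup ↥C := K.comap π2
  haveI : K1.Normal := Subgroup.Normal.comap inferInstance π2
  obtain ⟨l1, hl1⟩ : ∃ l, K1.index = 2 ^ l := by
    rw [Subgroup.index_comap_of_surjective _ hπ2, hK.symm.index_eq_card]
    exact IsPGroup.iff_card.1 SQ.isPGroup'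
  have hZK : ZC ≤ K1 := fun z hz => by
    rw [Subgroup.mem_comap, show π2 z = 1 from (QuotientGroup.eq_one_iff z).2 hz]
    exact one_mem K
  let Z1 : Subgroup ↥K1 := ZC.subgroupOf K1
  have hZ1p : IsPGroup 2 ↥Z1 := by
    refine (((TM.isPGroup'.to_le (hZW.trans hWTM)).of_equiv
      (Subgroup.subgroupOfEquivOfLe (hZW.trans hWC)).symm)).of_equiv
      (Subgroup.subgroupOfEquivOfLe hZK).symm
  have hZ1idx : ¬ 2 ∣ Z1.index := by
    have hsurj : Function.Surjective (π2.subgroupComap K) := by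
      rintro ⟨q, hq⟩
      obtain ⟨c, rfl⟩ := hπ2 q
      exact ⟨⟨c, hq⟩, rfl⟩
    have : Z1.index = Nat.card ↥K := by
      rw [show Z1 = (π2.subgroupComap K).ker by
        ext z
        constructor
        · intro hz
          exact Subtype.ext ((QuotientGroup.eq_one_iff (z : ↥C)).2 hz)
        · intro hz
          exact (QuotientGroup.eq_one_iff (z : ↥C)).1 (congrArg Subtype.val hz),
        Subgroup.index_ker, MonoidHom.range_eq_top.2 hsurj, Subgroup.card_top]
    rwa [this]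
  let SZ : Sylow 2 ↥K1 := hZ1p.toSylow hZ1idx
  have hburn2 : Subgroup.normalizer ((SZ : Subgroup ↥K1) : Set ↥K1) ≤
      Subgroup.centralizer ((SZ : Subgroup ↥K1) : Set ↥K1) := by
    intro q _
    rw [Subgroup.mem_centralizer_iff]
    intro z hz
    exact Subtype.ext (Subtype.ext (hZcentral _ hz _ (q : ↥C).2))
  let O0 := (MonoidHom.transferSylow SZ hburn2).ker
  have hO0 := MonoidHom.ker_transferSylow_isComplement' SZ hburn2
  have hO0odd : ¬ 2 ∣ Nat.card ↥O0 := MonoidHom.not_dvd_card_ker_transferSylow SZ hburn2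
  let OM : Subgroup ↥M := (O0.map K1.subtype).map C.subtype
  have hOMcard : Nat.card ↥OM = Nat.card ↥O0 := by
    rw [Subgroup.card_map_of_injective (Subgroup.subtype_injective _),
      Subgroup.card_map_of_injective (Subgroup.subtype_injective _)]
  have hOM : ∀ x, x ∈ OM ↔ x ∈ C ∧ ¬ 2 ∣ orderOf x := by
    intro x
    constructor
    · intro hx
      obtain ⟨o, -, rfl⟩ := id hx
      refine ⟨o.2, fun h2' => hO0odd (h2'.trans ?_)⟩
      rw [← hOMcard]
      exact Subgroup.orderOf_dvd_natCard OM hx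
    · rintro ⟨hxC, hxo⟩
      have hc2 : ∀ l, (2 ^ l).Coprime (orderOf x) := fun l =>
        ((Nat.prime_two.coprime_iff_not_dvd).2 hxo).pow_left l
      have hxK : (⟨x, hxC⟩ : ↥C) ∈ K1 := by
        refine mem_of_pow_coprime (n := K1.index) ?_ (K1.pow_index_mem _)
        rw [hl1, Subgroup.orderOf_mk]
        exact hc2 l1
      obtain ⟨l2, hl2⟩ : ∃ l, O0.index = 2 ^ l := by
        rw [hO0.symm.index_eq_card]
        exact IsPGroup.iff_card.1 SZ.isPGroup'
      refine ⟨⟨x, hxC⟩, ⟨⟨_, hxK⟩, ?_, rfl⟩, rfl⟩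
      refine mem_of_pow_coprime (n := O0.index) ?_ (O0.pow_index_mem _)
      rw [hl2, Subgroup.orderOf_mk, Subgroup.orderOf_mk]
      exact hc2 l2
  haveI hOMn : OM.Normal := by
    constructor
    intro x hx g
    rw [hOM] at hx ⊢
    exact ⟨(inferInstance : C.Normal).conj_mem x hx.1 g, by
      rw [← MulAut.conj_apply, MulEquiv.orderOf_eq]; exact hx.2⟩
  have hdec : ∀ c ∈ C, ∃ o ∈ OM, ∃ w ∈ WM, c = o * w := by
    intro c hc
    obtain ⟨k, hk, q, hq, hkq⟩ := Subgroup.mem_sup_of_normal_left.1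
      (hK.sup_eq_top ▸ Subgroup.mem_top (π2 ⟨c, hc⟩) :
        π2 ⟨c, hc⟩ ∈ K ⊔ (SQ : Subgroup (↥C ⧸ ZC)))
    obtain ⟨w, hw, rfl⟩ := hq
    have hk1 : (⟨c, hc⟩ : ↥C) * w⁻¹ ∈ K1 := by
      rw [Subgroup.mem_comap, map_mul, ← hkq, map_inv, mul_inv_cancel_right]
      exact hk
    obtain ⟨o, ho, z, hz, hoz⟩ := Subgroup.mem_sup_of_normal_left.1
      (hO0.sup_eq_top ▸ Subgroup.mem_top (⟨_, hk1⟩ : ↥K1) :
        (⟨_, hk1⟩ : ↥K1) ∈ O0 ⊔ (SZ : Subgroup ↥K1))
    refine ⟨((o : ↥C) : ↥M), ⟨_, ⟨o, ho, rfl⟩, rfl⟩, ((z : ↥C) : ↥M) * (w : ↥M),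
      mul_mem (hZW hz) hw, ?_⟩
    have h1 : ((o : ↥C) : ↥M) * ((z : ↥C) : ↥M) = c * (w : ↥M)⁻¹ :=
      congrArg (fun u : ↥K1 => ((u : ↥C) : ↥M)) hoz
    rw [← mul_assoc, h1, inv_mul_cancel_right]
  have hOMcop : (Nat.card ↥OM).Coprime 2 :=
    (Cores.coprime_iff_not_dvd_prime Nat.prime_two).2 (hOMcard ▸ hO0odd)
  have hOMle : OM ≤ Cfsg.oddCore ↥M := Cores.le_pPrimeCore hOMn hOMcop
  constructor
  · rw [hNMeq]
    refine top_le_iff.1 (hNMC.ge.trans (sup_le le_sup_left fun c hc => ?_))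
    obtain ⟨o, ho, w, hw, rfl⟩ := hdec c hc
    exact mul_mem (Subgroup.mem_sup_right (hOMle ho)) (Subgroup.mem_sup_left (hWN hw))
  let N := Subgroup.normalizer (wG T : Set G)
  have hNM : N ≤ M := normalizer_wG_le h
  have hWGN : wG T ≤ N := Subgroup.le_normalizer
  let ψ' : ↥N →* GL3 := ψ.comp (Subgroup.inclusion hNM)
  have hψ' : Function.Surjective ψ' := by
    intro y
    obtain ⟨n, hn⟩ := hψN y
    have hnN : ((n : ↥M) : G) ∈ N := by
      exact hNMeq.ge n.2
    exact ⟨⟨_, hnN⟩, hn⟩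
  have hkereq : ψ'.ker = (wG T).subgroupOf N ⊔ Cfsg.oddCore ↥N := by
    refine le_antisymm ?_ (sup_le (fun x hx => hWC hx) ?_)
    · intro x hx
      obtain ⟨o, ho, w, hw, he⟩ := hdec (Subgroup.inclusion hNM x) hx
      let ON : Subgroup ↥N := OM.comap (Subgroup.inclusion hNM)
      have hON : ON.Normal := Subgroup.Normal.comap hOMn _
      have hONcop : (Nat.card ↥ON).Coprime 2 := by
        refine hOMcop.coprime_dvd_left ?_
        rw [← Subgroup.card_map_of_injective (Subgroup.inclusion_injective hNM)]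
        exact Subgroup.card_dvd_of_le (Subgroup.map_comap_le _ _)
      let w' : ↥N := ⟨(w : G), hWGN hw⟩
      have hxw : x * w'⁻¹ ∈ ON := by
        have h1 : Subgroup.inclusion hNM x * w⁻¹ = o := by rw [he, mul_inv_cancel_right]
        change Subgroup.inclusion hNM (x * w'⁻¹) ∈ OM
        rw [map_mul, map_inv]
        exact h1.symm ▸ ho
      have : x = (x * w'⁻¹) * w' := by rw [inv_mul_cancel_right]
      rw [this]
      exact mul_mem (Subgroup.mem_sup_right (Cores.le_pPrimeCore hON hONcop hxw))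
        (Subgroup.mem_sup_left hw)
    · intro x hx
      rw [MonoidHom.mem_ker]
      change ψ (Subgroup.inclusion hNM x) = 1
      rw [hker]
      intro z hz
      let z' : ↥N := ⟨z, hWGN (zG_le_wG h hz)⟩
      let d : ↥N := x * z' * x⁻¹ * z'⁻¹
      have hd1 : d ∈ Cfsg.oddCore ↥N := by
        have := mul_mem hx ((Cfsg.pPrimeCore_normal 2 ↥N).conj_mem _ (inv_mem hx) z')
        simpa [d, mul_assoc] using this
      have hd2 : (d : G) ∈ zG T := by
        have := mul_mem ((Subgroup.mem_normalizer_iff.1 (hNM x.2) z).1 hz) (inv_mem hz)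
        simpa [d, z'] using this
      have hdo : d = 1 := by
        obtain ⟨y, hy, hye⟩ := hd2
        have hsq : d * d = 1 := by
          apply Subtype.ext
          change (d : G) * d = 1
          rw [← hye, ← map_mul, h.elementary.2 y hy, map_one]
        have h2d : orderOf d ∣ 2 := orderOf_dvd_of_pow_eq_one (by rw [pow_two, hsq])
        have hcd : (orderOf d).Coprime 2 := Nat.Coprime.coprime_dvd_left
          (Subgroup.orderOf_dvd_natCard _ hd1) Cores.pPrimeCore_coprime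
        exact orderOf_eq_one_iff.1 (Nat.Coprime.eq_one_of_dvd hcd h2d)
      have := congrArg (fun u : ↥N => (u : G)) hdo
      simp only [d, z', Subgroup.coe_mul, Subgroup.coe_inv, OneMemClass.coe_one] at this
      exact mul_inv_eq_iff_eq_mul.1 (mul_inv_eq_one.1 this)
  refine ⟨hkereq ▸ inferInstance, ?_⟩
  haveI : ((wG T).subgroupOf N ⊔ Cfsg.oddCore ↥N).Normal := hkereq ▸ inferInstance
  exact ⟨(QuotientGroup.quotientMulEquivOfEq hkereq.symm).trans
    (QuotientGroup.quotientKerEquivOfSurjective ψ' hψ')⟩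

end

end Cfsg.Agent.RuType
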